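import Cfsg.Agent.Lib.SpPr.Defs

/-!
# SPPR package BR: the bridge to Mathlib's symplectic group
-/

set_option autoImplicit false
set_option linter.unusedSectionVars false

namespace CfsgLib.SpPr

open Equiv CfsgLib.Pronorm

/-- the change of coordinates -/
def brE (m : ℕ) (F : Type*) [Field F] : (Fin m ⊕ Fin m → F) ≃ₗ[F] V (Fin m) F where
  toFun v i := ![v (.inl i), v (.inr i)]
  invFun w := Sum.elim (fun i => w i 0) fun i => w i 1
  map_add' v w := by funext i j; fin_cases j <;> simp
  map_smul' c v := by funext i j; fin_cases j <;> simp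
  left_inv v := by funext i; cases i <;> simp
  right_inv w := by funext i j; fin_cases j <;> simp

theorem B_brE {m : ℕ} {F : Type*} [Field F] (v w : Fin m ⊕ Fin m → F) :
    B (brE m F v) (brE m F w) = - (v ⬝ᵥ (Matrix.J (Fin m) F).mulVec w) := by
  rw [B_apply]
  simp [brE, β_apply, Matrix.J, Matrix.fromBlocks_mulVec, dotProduct, Matrix.neg_mulVec, Finset.sum_sub_distrib]
  ring

theorem br_iff {m : ℕ} {F : Type*} [Field F] (A : Matrix (Fin m ⊕ Fin m) (Fin m ⊕ Fin m) F) :
    A ∈ Matrix.symplecticGroup (Fin m) F ↔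
      ∀ v w, A.mulVec v ⬝ᵥ (Matrix.J (Fin m) F).mulVec (A.mulVec w) = v ⬝ᵥ (Matrix.J (Fin m) F).mulVec w := by
  have e : ∀ v w, A.mulVec v ⬝ᵥ (Matrix.J (Fin m) F).mulVec (A.mulVec w) =
      v ⬝ᵥ (A.transpose * Matrix.J (Fin m) F * A).mulVec w := fun v w => by
    rw [← Matrix.mulVec_mulVec, ← Matrix.mulVec_mulVec, Matrix.dotProduct_mulVec v, Matrix.vecMul_transpose]
  rw [SymplecticGroup.mem_iff']
  refine ⟨fun h v w => by rw [e, h], fun h => ?_⟩
  ext i j
  have := h (Pi.single i 1) (Pi.single j 1)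
  rw [e] at this
  simpa using this

theorem nonempty_equiv_Sp (m : ℕ) (F : Type*) [Field F] :
    Nonempty (Sp (Fin m) F ≃* Matrix.symplecticGroup (Fin m) F) := by
  let f : Sp (Fin m) F →* Matrix.symplecticGroup (Fin m) F := MonoidHom.mk' (fun g =>
    ⟨LinearMap.toMatrix' ((brE m F).symm.toLinearMap ∘ₗ g.1.toLinearMap ∘ₗ (brE m F).toLinearMap),
      (br_iff _).2 fun v w => by
        simp only [LinearMap.toMatrix'_mulVec]
        refine neg_injective ?_
        rw [← B_brE, ← B_brE]
        simpa using g.2 (brE m F v) (brE m F w)⟩) fun a b => Subtype.ext (by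
      change _ = _ * _
      rw [← LinearMap.toMatrix'_comp]
      congr 1
      ext1 v
      simp)
  refine ⟨MulEquiv.ofBijective f ⟨(injective_iff_map_eq_one f).2 fun g hg => ?_, fun A => ?_⟩⟩
  · have h1 := congrArg (fun A : Matrix.symplecticGroup (Fin m) F => A.1.mulVec) hg
    refine Subtype.ext (LinearEquiv.ext fun v => ?_)
    have h2 := congrFun h1 ((brE m F).symm v)
    simp only [f, MonoidHom.mk'_apply, LinearMap.toMatrix'_mulVec] at h2
    simpa using h2
  · let g : (Fin m ⊕ Fin m → F) ≃ₗ[F] (Fin m ⊕ Fin m → F) :=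
      LinearEquiv.ofLinearMap (Matrix.toLin' A.1) (Matrix.toLin' (A⁻¹).1)
        (by rw [← Matrix.toLin'_mul, ← Submonoid.coe_mul, mul_inv_cancel]; simp)
        (by rw [← Matrix.toLin'_mul, ← Submonoid.coe_mul, inv_mul_cancel]; simp)
    refine ⟨⟨(brE m F).symm.trans (g.trans (brE m F)), fun v w => ?_⟩, Subtype.ext ?_⟩
    · obtain ⟨v, rfl⟩ := (brE m F).surjective v
      obtain ⟨w, rfl⟩ := (brE m F).surjective w
      simp only [LinearEquiv.trans_apply, LinearEquiv.symm_apply_apply, B_brE]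
      exact congrArg _ ((br_iff _).1 A.2 v w)
    · change LinearMap.toMatrix' _ = _
      refine Eq.trans ?_ (LinearMap.toMatrix'_toLin' A.1)
      congr 1
      refine LinearMap.ext fun v => ?_
      simp [g]

end CfsgLib.SpPr
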