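import Cfsg.Agent.Lib.SpPr.HEIS

/-!
# SPPR package DEG: pairs of planes when there are no transvections
-/

set_option autoImplicit false
set_option linter.unusedSectionVars false

namespace CfsgLib.SpPr

open Equiv CfsgLib.Pronorm

variable {F : Type*} [Field F] [Finite F] {ι : Type} [Fintype ι] [DecidableEq ι]
  {D : QD F} {T : Subgroup (Perm ι)} {H : Subgroup (GV ι F)}

theorem B_conj {h : GV ι F} (hh : h ∈ Sp ι F) (v w : V ι F) : B (h v) w = B v (h⁻¹ w) := by
  rw [← hh v]; simp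

/-- the case `a = zi i`: the part of the span orthogonal to `V_i` is not isotropic -/
theorem Ctx.not_iso (c : Ctx D T H) (hn : NT H) {i : ι} {b : GV ι F} (hb : Pl H b)
    (hab : zi i ≠ b) (h : ∀ p ∈ Ng b, ∀ q ∈ Ng b, B (p - Pi.single i (p i)) q = 0) : False := by
  have h2 := D.two
  have pb := hb.PI h2 c.le
  let π : V ι F →ₗ[F] V ι F := LinearMap.id - LinearMap.single F (fun _ => Pn F) i ∘ₗ LinearMap.proj i
  have hπ : ∀ v, π v = v - Pi.single i (v i) := fun v => rfl
  have hR : ∀ r ∈ (Ng b).map π, r i = 0 := by rintro _ ⟨p, -, rfl⟩; simp [hπ]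
  have hRb : ∀ r ∈ (Ng b).map π, b r = r := by
    rintro _ ⟨p, hp, rfl⟩; exact pb.fix_of_perp h2 (h p hp)
  have hs : Function.Surjective (LinearMap.proj i ∘ₗ (Ng b).subtype : Ng b →ₗ[F] Pn F) := by
    refine (LinearMap.injective_iff_surjective_of_finrank_eq_finrank (by simp [pb.rk])).1
      ((injective_iff_map_eq_zero _).2 fun p hp => Subtype.ext (pb.nondeg h2 p.2 fun q hq => ?_))
    have := h p p.2 q hq
    rwa [show (p : V ι F) i = 0 from hp, Pi.single_zero, sub_zero] at this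
  have key : ∀ w : Pn F, ∃ r ∈ (Ng b).map π,
      b (Pi.single i w) + Pi.single i w = (-2 : F) • r := fun w => by
    obtain ⟨p, rfl⟩ := hs w
    refine ⟨π p, ⟨p, p.2, rfl⟩, ?_⟩
    have e1 := hRb _ ⟨p, p.2, rfl⟩
    have e2 : b p = -p := p.2
    rw [hπ, map_sub, e2] at e1
    change b (Pi.single i (p.1 i)) + Pi.single i (p.1 i) = _
    rw [hπ]
    linear_combination (norm := module) -e1
  refine (heis (D := D) c.le (c.blk_mem i D.x_mem) (c.blk_mem i D.y_mem)
    ((Ng b).map π) hR (mul_mem (hb.mem c) ((Pl_zi H i).mem c)) (fun v => ?_) (fun w => ?_) ?_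
    fun r hr => ?_).elim fun t ⟨ht, e, _, he⟩ => hn t ht e he
  · refine ⟨(b (zi i v) - zi i v) i - (2 : F) • v i, ?_⟩
    convert neg_mem (Submodule.mem_map_of_mem (f := π) (pb.sub_mem (zi i v))) using 1
    rw [hπ, LinearEquiv.mul_apply, Pi.single_sub, Pi.single_smul, ← neg_sub (zi i v), Pi.neg_apply,
      Pi.single_neg]
    have := zi_apply (F := F) i v
    linear_combination (norm := module) this
  · obtain ⟨r, hr, e⟩ := key w
    convert Submodule.smul_mem _ (2 : F) hr using 1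
    rw [LinearEquiv.mul_apply, zi_single, map_neg]
    linear_combination (norm := module) -e
  · by_contra! hh
    refine hab ((PI_zi h2 i).eq_of_le h2 pb fun v hv => ?_)
    rw [mem_Ng, mem_Ng_zi h2] at hv
    have := hh (v i)
    rw [LinearEquiv.mul_apply, zi_single, map_neg, ← hv] at this
    exact neg_eq_iff_eq_neg.1 this
  · rw [LinearEquiv.mul_apply, (zi_fix h2).2 (hR r hr), hRb r hr]

theorem Ctx.deg_zi (c : Ctx D T H) (hn : NT H) {i : ι} {b : GV ι F} (hb : Pl H b)
    (hab : zi i ≠ b) {v : V ι F} (hv : b v = -v)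
    (h : ∀ w, b w = -w → B (v - Pi.single i (v i)) w = 0) : v = 0 := by
  by_contra h0
  have pb := hb.PI D.two c.le
  obtain ⟨w, hw, hvw⟩ : ∃ w, b w = -w ∧ B v w ≠ 0 := by
    by_contra! hh; exact h0 (pb.nondeg D.two hv hh)
  have hsp : ∀ p ∈ Ng b, ∃ s t : F, p = s • v + t • w := by
    intro p hp
    have hli : LinearIndependent F ![v, w] := LinearIndependent.pair_iff.2 fun s t e => by
      have e1 := congrArg (B v) e
      have e2 := congrArg (B w) e
      simp only [map_add, map_smul, B_self, smul_eq_mul, mul_zero, zero_add, add_zero, map_zero,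
        B_anti w v, mul_eq_zero, neg_eq_zero, hvw, or_false] at e1 e2
      exact ⟨e2, e1⟩
    have e : Submodule.span F (Set.range ![v, w]) = Ng b := Submodule.eq_of_le_of_finrank_eq
      (Submodule.span_le.2 (by rintro _ ⟨k, rfl⟩; fin_cases k; exacts [hv, hw]))
      (by rw [finrank_span_eq_card hli, pb.rk]; simp)
    rw [← e, Matrix.range_cons_cons_empty, Submodule.mem_span_pair] at hp
    obtain ⟨s, t, rfl⟩ := hp
    exact ⟨s, t, rfl⟩
  have hB : ∀ p q : V ι F, B (p - Pi.single i (p i)) q = B p q - β (p i) (q i) := fun p q => by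
    rw [map_sub, LinearMap.sub_apply, B_single_left]
  refine c.not_iso hn hb hab fun p hp q hq => ?_
  obtain ⟨s, t, rfl⟩ := hsp p hp
  obtain ⟨s', t', rfl⟩ := hsp q hq
  have e1 := h w hw
  rw [hB] at e1 ⊢
  simp only [map_add, map_smul, LinearMap.add_apply, LinearMap.smul_apply, Pi.add_apply,
    Pi.smul_apply, B_self, β_self, smul_eq_mul, B_anti w v, β_anti (w i) (v i)]
  linear_combination (s * t' - t * s') * e1

theorem Ctx.deg (c : Ctx D T H) (hn : NT H) {a b : GV ι F} (ha : Pl H a) (hb : Pl H b)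
    (hab : a ≠ b) : Ng a ⊓ Ng b = ⊥ ∧
      ∀ v ∈ Ng a ⊔ Ng b, (∀ w ∈ Ng a ⊔ Ng b, B v w = 0) → v = 0 := by
  have h2 := D.two
  obtain ⟨h, hh, i, rfl⟩ := ha
  obtain ⟨b, rfl⟩ := (MulAut.conj h).surjective b
  have hb' : Pl H b := by simpa [mul_assoc] using hb.conj (inv_mem hh)
  have hne : zi i ≠ b := fun e => hab (by rw [e]; rfl)
  rw [MulAut.conj_apply, Ng_conj, Ng_conj, ← Submodule.map_sup,
    ← Submodule.map_inf _ h.injective]
  constructor
  · rw [(Submodule.eq_bot_iff (Ng (zi i) ⊓ Ng b)).2 fun v hv => c.deg_zi hn hb' hne hv.2 fun w _ => by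
      rw [← (mem_Ng_zi h2).1 hv.1, sub_self, map_zero, LinearMap.zero_apply], Submodule.map_bot]
  · rintro _ ⟨v, hv, rfl⟩ hp
    have hp' : ∀ w ∈ Ng (zi i : GV ι F) ⊔ Ng b, B v w = 0 := fun w hw => by
      rw [← c.le hh]; exact hp _ ⟨w, hw, rfl⟩
    have hi : v i = 0 := β_nondeg fun u => by
      rw [← B_single_right]; exact hp' _ (Submodule.mem_sup_left (zi_single i u))
    obtain ⟨p, hp1, q, hq, rfl⟩ := Submodule.mem_sup.1 hv
    have e : p + q = q - Pi.single i (q i) := by
      rw [(mem_Ng_zi h2).1 hp1, eq_neg_of_add_eq_zero_left hi, Pi.single_neg]; abel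
    have := c.deg_zi hn hb' hne hq fun w hw => by
      rw [← e]; exact hp' w (Submodule.mem_sup_right hw)
    rw [e, this]; simp

theorem Ctx.orth_of_vec (c : Ctx D T H) (hn : NT H) {a b : GV ι F} (ha : Pl H a) (hb : Pl H b)
    {v : V ι F} (hv : v ≠ 0) (h1 : a v = -v) (h2 : b v = v) : Orth a b := by
  have pb := hb.PI D.two c.le
  have e : b * a * b⁻¹ = a := by
    by_contra hne
    refine hv ((Submodule.eq_bot_iff _).1 (c.deg hn (ha.conj (hb.mem c)) ha hne).1 v ⟨?_, h1⟩)
    rw [SetLike.mem_coe, mem_Ng, pb.inv, LinearEquiv.mul_apply, LinearEquiv.mul_apply, h2, h1,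
      map_neg, h2]
  have hab : a ≠ b := by
    rintro rfl
    exact hv (eq_zero_of_eq_neg D.two (h2.symm.trans h1))
  intro p hp
  rw [eq_comm, ← sub_eq_zero]
  refine (Submodule.eq_bot_iff _).1 (c.deg hn ha hb hab).1 _ ⟨?_, pb.sub_mem p⟩
  have : a (b p) = b (a p) := by
    rw [← LinearEquiv.mul_apply, ← LinearEquiv.mul_apply, ← mul_inv_eq_iff_eq_mul.1 e]
  rw [SetLike.mem_coe, mem_Ng, map_sub, this, hp, map_neg]; abel

end CfsgLib.SpPr
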