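import Mathlib
import Cfsg.Agent.Lib.Pronorm.Mon

/-!
# Overgroups of a Sylow 2-subgroup of `Sp_{2m}(q)`, `q` odd: definitions
-/

set_option autoImplicit false
set_option linter.unusedSectionVars false

namespace CfsgLib.SpPr

open Equiv CfsgLib.Pronorm

/-- the normaliser of a Sylow 2-subgroup `S` lies in `S ∪ Sg ∪ Sg⁻¹`, and `g` normalises every
overgroup `H` of `S` or lies in `⟨H, gHg⁻¹⟩` -/
def PP (G : Type*) [Group G] : Prop :=
  ∃ (S : Sylow 2 G) (g : G),
    (∀ n ∈ Subgroup.normalizer (S : Set G), n ∈ S ∨ n * g ∈ S ∨ n * g⁻¹ ∈ S) ∧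
    ∀ H : Subgroup G, (S : Subgroup G) ≤ H →
      g ∈ Subgroup.normalizer (H : Set G) ∨ g ∈ H ⊔ H.map (MulAut.conj g).toMonoidHom

variable {F : Type*} [Field F]

/-- the plane -/
abbrev Pn (F : Type*) := Fin 2 → F

/-- the linear group of the plane -/
abbrev GP (F : Type*) [Field F] := Pn F ≃ₗ[F] Pn F

/-- the symplectic form on the plane -/
def β : Pn F →ₗ[F] Pn F →ₗ[F] F :=
  LinearMap.mk₂ F (fun u v => u 0 * v 1 - u 1 * v 0) (by intros; simp; ring) (by intros; simp; ring)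
    (by intros; simp; ring) (by intros; simp; ring)

theorem β_apply (u v : Pn F) : β u v = u 0 * v 1 - u 1 * v 0 := rfl

@[simp] theorem β_self (u : Pn F) : β u u = 0 := by simp [β_apply, mul_comm]

theorem β_anti (u v : Pn F) : β u v = -β v u := by simp [β_apply, mul_comm]

theorem β_nondeg {u : Pn F} (h : ∀ v, β u v = 0) : u = 0 := by
  have h0 := h ![0, 1]
  have h1 := h ![1, 0]
  simp [β_apply] at h0 h1
  ext i; fin_cases i <;> simp [h0, h1]

/-- expansion in the basis `a, b` of the plane -/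
theorem β_expand (a b u : Pn F) : β a b • u = β u b • a + β a u • b := by
  ext i; fin_cases i <;> simp [β_apply] <;> ring

/-- vectors orthogonal to a non-zero vector of the plane are multiples of it -/
theorem β_eq_zero {a u : Pn F} (ha : a ≠ 0) (h : β a u = 0) : ∃ c : F, u = c • a := by
  obtain ⟨b, hb⟩ : ∃ b, β a b ≠ 0 := by
    by_contra! hh; exact ha (β_nondeg hh)
  refine ⟨(β a b)⁻¹ * β u b, ?_⟩
  have := β_expand a b u
  rw [h, zero_smul, add_zero] at this
  rw [mul_smul, ← this, smul_smul, inv_mul_cancel₀ hb, one_smul]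

variable (F) in
/-- `SL₂(F)` as the isometry group of `β` -/
def Γ : Subgroup (GP F) where
  carrier := {r | ∀ u v, β (r u) (r v) = β u v}
  one_mem' _ _ := rfl
  mul_mem' ha hb u v := (ha _ _).trans (hb u v)
  inv_mem' {r} ha u v := by
    have := ha (r⁻¹ u) (r⁻¹ v)
    simpa using this.symm

theorem mem_Γ {r : GP F} : r ∈ Γ F ↔ ∀ u v, β (r u) (r v) = β u v := Iff.rfl

/-- `-1` -/
def ng : GP F := LinearEquiv.neg F

@[simp] theorem ng_apply (u : Pn F) : (ng : GP F) u = -u := rfl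

theorem ng_mem : (ng : GP F) ∈ Γ F := fun u v => by simp

theorem ng_mul_ng : (ng : GP F) * ng = 1 := LinearEquiv.ext fun u => by simp

theorem ng_comm (r : GP F) : ng * r = r * ng := LinearEquiv.ext fun u => by simp

variable (F) in
/-- generators of a quaternion group of order 8 in `SL₂(F)` -/
structure QD where
  x : GP F
  y : GP F
  hx : x ∈ Γ F
  hy : y ∈ Γ F
  xx : ∀ u, x (x u) = -u
  yy : ∀ u, y (y u) = -u
  xy : ∀ u, x (y u) = -y (x u)
  two : (2 : F) ≠ 0

namespace QD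

variable (D : QD F)

/-- the quaternion group -/
def Q : Subgroup (GP F) := Subgroup.closure {D.x, D.y}

theorem x_mem : D.x ∈ D.Q := Subgroup.subset_closure (by simp)

theorem y_mem : D.y ∈ D.Q := Subgroup.subset_closure (by simp)

theorem x_mul_x : D.x * D.x = ng := LinearEquiv.ext D.xx

theorem y_mul_y : D.y * D.y = ng := LinearEquiv.ext D.yy

theorem ng_mem_Q : (ng : GP F) ∈ D.Q := D.x_mul_x ▸ D.Q.mul_mem D.x_mem D.x_mem

theorem Q_le : D.Q ≤ Γ F := (Subgroup.closure_le _).2 (by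
  rintro _ (rfl | rfl); exacts [D.hx, D.hy])

theorem yx (u : Pn F) : D.y (D.x u) = -D.x (D.y u) := by rw [D.xy, neg_neg]

theorem β_x (u v : Pn F) : β (D.x u) v = -β u (D.x v) := by
  rw [← D.hx (D.x u) v, D.xx]; simp

theorem β_y (u v : Pn F) : β (D.y u) v = -β u (D.y v) := by
  rw [← D.hy (D.y u) v, D.yy]; simp

/-- `(1 + x + y + xy) / 2` -/
def ω : GP F :=
  LinearEquiv.ofLinearMap
    ((2 : F)⁻¹ • (LinearMap.id + D.x.toLinearMap + D.y.toLinearMap +
      D.x.toLinearMap ∘ₗ D.y.toLinearMap))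
    ((2 : F)⁻¹ • (LinearMap.id - D.x.toLinearMap - D.y.toLinearMap -
      D.x.toLinearMap ∘ₗ D.y.toLinearMap))
    (LinearMap.ext fun u => by
      have h := D.two
      simp only [LinearMap.comp_apply, LinearMap.smul_apply, LinearMap.add_apply,
        LinearMap.sub_apply, LinearMap.id_apply, LinearEquiv.coe_coe, map_smul, map_sub, map_neg,
        D.xx, D.yy, D.yx]
      match_scalars <;> field_simp <;> ring)
    (LinearMap.ext fun u => by
      have h := D.two
      simp only [LinearMap.comp_apply, LinearMap.smul_apply, LinearMap.add_apply,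
        LinearMap.sub_apply, LinearMap.id_apply, LinearEquiv.coe_coe, map_smul, map_add, map_neg,
        D.xx, D.yy, D.yx]
      match_scalars <;> field_simp <;> ring)

theorem ω_apply (u : Pn F) : D.ω u = (2 : F)⁻¹ • (u + D.x u + D.y u + D.x (D.y u)) := rfl

theorem ω_inv_apply (u : Pn F) : D.ω⁻¹ u = (2 : F)⁻¹ • (u - D.x u - D.y u - D.x (D.y u)) := rfl

theorem ω_mem : D.ω ∈ Γ F := by
  intro u v
  have h := D.two
  simp only [ω_apply, map_smul, map_add, LinearMap.smul_apply, LinearMap.add_apply, smul_eq_mul,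
    D.β_x, D.β_y, D.xx, D.yy, D.yx, map_neg]
  field_simp; ring

theorem ω_cube : D.ω ^ 3 = ng := by
  refine LinearEquiv.ext fun u => ?_
  have h := D.two
  simp only [pow_succ, pow_zero, one_mul, LinearEquiv.mul_apply, ω_apply, map_smul, map_add,
    map_neg, D.xx, D.yy, D.yx, ng_apply]
  match_scalars <;> field_simp <;> ring

theorem ω_x : D.ω * D.x * D.ω⁻¹ = D.y := by
  rw [mul_inv_eq_iff_eq_mul]
  refine LinearEquiv.ext fun u => ?_
  simp only [LinearEquiv.mul_apply, ω_apply, map_smul, map_add, map_neg, D.xx, D.yy, D.yx]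
  match_scalars <;> ring

theorem ω_y : D.ω * D.y * D.ω⁻¹ = D.x * D.y := by
  rw [mul_inv_eq_iff_eq_mul]
  refine LinearEquiv.ext fun u => ?_
  simp only [LinearEquiv.mul_apply, ω_apply, map_smul, map_add, map_neg, D.xx, D.yy, D.yx]
  match_scalars <;> ring

/-- the facts about `SL₂(q)`, `q ≡ ±3 (mod 8)`, that are used -/
structure Good : Prop where
  p2 : IsPGroup 2 D.Q
  syl : ∀ R ≤ Γ F, IsPGroup 2 R → D.Q ≤ R → R = D.Q
  ωn : ∀ s ∈ D.Q, D.ω * s * D.ω⁻¹ ∈ D.Q
  nrm : ∀ n ∈ Γ F, (∀ s ∈ D.Q, n * s * n⁻¹ ∈ D.Q) → n ∈ D.Q ∨ n * D.ω ∈ D.Q ∨ n * D.ω⁻¹ ∈ D.Q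
  alpha : ∀ X ≤ Γ F, D.Q ≤ X → ∀ r ∈ X, ∀ (e : Pn F) (c : F), e ≠ 0 → c ≠ 0 →
    (∀ u, r u = u + (c * β u e) • e) → D.ω ∈ X
  beta : ∀ X ≤ Γ F, D.Q ≤ X →
    (∀ s ∈ X, D.ω * s * D.ω⁻¹ ∈ X) ∨ D.ω ∈ X ⊔ X.map (MulAut.conj D.ω).toMonoidHom
  q4 : ∀ X ≤ Γ F, (∀ s ∈ D.Q, ∀ r ∈ X, s * r * s⁻¹ ∈ X) → ∀ D' : QD F, D'.x ∈ X → D'.y ∈ X →
    D.Q ≤ X
  q5 : ∀ X ≤ Γ F, D.Q ≤ X → (∀ s ∈ X, D.ω * s * D.ω⁻¹ ∈ X) → ∀ r ∈ Γ F,
    (∀ s ∈ X, r * s * r⁻¹ ∈ X) → D.ω * r * D.ω⁻¹ * r⁻¹ ∈ X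

/-- `Q` is a Sylow 2-subgroup of `SL₂(F)` containing `x` and `y` -/
structure MaxQ (Q : Subgroup (GP F)) : Prop where
  le : Q ≤ Γ F
  hx : D.x ∈ Q
  hy : D.y ∈ Q
  p2 : IsPGroup 2 Q
  syl : ∀ R ≤ Γ F, IsPGroup 2 R → Q ≤ R → R = Q

theorem Good.maxQ {D : QD F} (h : D.Good) : D.MaxQ D.Q := ⟨D.Q_le, D.x_mem, D.y_mem, h.p2, h.syl⟩

end QD

variable {ι : Type} [Fintype ι] [DecidableEq ι]

/-- the symplectic space: an orthogonal sum of planes -/
abbrev V (ι : Type) (F : Type*) := ι → Pn F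

/-- its linear group -/
abbrev GV (ι : Type) (F : Type*) [Field F] := V ι F ≃ₗ[F] V ι F

/-- the symplectic form -/
def B : V ι F →ₗ[F] V ι F →ₗ[F] F :=
  LinearMap.mk₂ F (fun v w => ∑ i, β (v i) (w i)) (by intros; simp [Finset.sum_add_distrib])
    (by intros; simp [Finset.mul_sum]) (by intros; simp [Finset.sum_add_distrib])
    (by intros; simp [Finset.mul_sum])

theorem B_apply (v w : V ι F) : B v w = ∑ i, β (v i) (w i) := rfl

@[simp] theorem B_self (v : V ι F) : B v v = 0 := by simp [B_apply]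

theorem B_anti (v w : V ι F) : B v w = -B w v := by
  rw [B_apply, B_apply, ← Finset.sum_neg_distrib]
  exact Finset.sum_congr rfl fun i _ => β_anti _ _

theorem B_single_left (i : ι) (u : Pn F) (w : V ι F) : B (Pi.single i u) w = β u (w i) := by
  rw [B_apply, Finset.sum_eq_single i (fun j _ h => by simp [h]) (by simp), Pi.single_eq_same]

theorem B_single_right (i : ι) (u : Pn F) (w : V ι F) : B w (Pi.single i u) = β (w i) u := by
  rw [B_anti, B_single_left, ← β_anti]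

theorem B_nondeg {v : V ι F} (h : ∀ w, B v w = 0) : v = 0 :=
  funext fun i => β_nondeg fun u => by rw [← B_single_right]; exact h _

/-- the symplectic group -/
def Sp (ι : Type) [Fintype ι] (F : Type*) [Field F] : Subgroup (GV ι F) where
  carrier := {g | ∀ v w, B (g v) (g w) = B v w}
  one_mem' _ _ := rfl
  mul_mem' ha hb u v := (ha _ _).trans (hb u v)
  inv_mem' {r} ha u v := by
    have := ha (r⁻¹ u) (r⁻¹ v)
    simpa using this.symm

theorem mem_Sp {g : GV ι F} : g ∈ Sp ι F ↔ ∀ v w, B (g v) (g w) = B v w := Iff.rfl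

theorem Mon_le_Sp {R : Subgroup (GP F)} (hR : R ≤ Γ F) (T : Subgroup (Perm ι)) :
    Mon R T ≤ Sp ι F := by
  rintro s ⟨r, τ, h1, -, h3⟩ v w
  rw [B_apply, B_apply, ← Equiv.sum_comp τ]
  exact Finset.sum_congr rfl fun i _ => by rw [h3, h3, hR (h1 i)]

/-- the base group -/
def base : (ι → GP F) →* GV ι F where
  toFun r := mon r 1
  map_one' := isMon_one.eq_mon.symm
  map_mul' r s := ((isMon_mon r 1).mul (isMon_mon s 1)).eq_mon.symm

@[simp] theorem base_apply (r : ι → GP F) (v : V ι F) (i : ι) : base r v i = r i (v i) :=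
  isMon_mon r 1 v i

theorem isMon_base (r : ι → GP F) : IsMon (base r) r 1 := isMon_mon r 1

/-- `r` on the `i`-th plane, the identity on the others -/
def blk (i : ι) : GP F →* GV ι F := base.comp (MonoidHom.mulSingle (fun _ => GP F) i)

theorem blk_eq (i : ι) (r : GP F) : blk i r = base (Pi.mulSingle i r) := rfl

@[simp] theorem blk_self (i : ι) (r : GP F) (v : V ι F) : blk i r v i = r (v i) := by
  simp [blk_eq]

theorem blk_ne {i j : ι} (h : j ≠ i) (r : GP F) (v : V ι F) : blk i r v j = v j := by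
  simp [blk_eq, h]

theorem isMon_blk (i : ι) (r : GP F) : IsMon (blk i r) (Pi.mulSingle i r) 1 := isMon_base _

theorem blk_single (i : ι) (r : GP F) (u : Pn F) :
    blk i r (Pi.single i u) = (Pi.single i (r u) : V ι F) := by
  simpa using (isMon_blk i r).single i u

theorem blk_apply (i : ι) (r : GP F) (v : V ι F) :
    blk i r v = v + Pi.single i (r (v i) - v i) := by
  funext j
  by_cases h : j = i
  · subst h; simp
  · simp [blk_ne h, h]

theorem blk_mem_Mon {R : Subgroup (GP F)} (T : Subgroup (Perm ι)) (i : ι) {r : GP F}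
    (hr : r ∈ R) : blk i r ∈ Mon R T :=
  ⟨_, 1, fun j => by rw [Pi.mulSingle_apply]; split_ifs; exacts [hr, one_mem _], one_mem _,
    isMon_blk i r⟩

theorem base_mem_Mon {R : Subgroup (GP F)} (T : Subgroup (Perm ι)) {r : ι → GP F}
    (hr : ∀ i, r i ∈ R) : base r ∈ Mon R T := ⟨r, 1, hr, one_mem _, isMon_base r⟩

/-- a base element all of whose components lie in `H` lies in `H` -/
theorem base_mem {H : Subgroup (GV ι F)} {r : ι → GP F} (h : ∀ i, blk i (r i) ∈ H) :
    base r ∈ H := by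
  have key : ∀ s : Finset ι, base (s.piecewise r 1) ∈ H := by
    intro s
    induction s using Finset.induction_on with
    | empty => simp [H.one_mem]
    | insert a s ha ih =>
      have : (insert a s).piecewise r 1 = Pi.mulSingle a (r a) * s.piecewise r 1 := by
        funext j
        by_cases hj : j = a
        · subst hj; simp [ha]
        · simp [Finset.piecewise_insert_of_ne _ _ _ hj, hj]
      rw [this, map_mul]; exact H.mul_mem (h a) ih
  simpa using key Finset.univ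

/-- the permutation of the planes -/
def pm : Perm ι →* GV ι F where
  toFun τ := mon 1 τ
  map_one' := isMon_one.eq_mon.symm
  map_mul' σ τ := ((isMon_mon 1 σ).mul (isMon_mon 1 τ)).eq_mon.symm

theorem isMon_pm (τ : Perm ι) : IsMon (pm τ : GV ι F) 1 τ := isMon_mon 1 τ

theorem pm_apply (τ : Perm ι) (v : V ι F) (i : ι) : (pm τ : GV ι F) v i = v (τ.symm i) := by
  simpa using isMon_pm τ v (τ.symm i)

theorem pm_mem_Mon (R : Subgroup (GP F)) {T : Subgroup (Perm ι)} {τ : Perm ι} (h : τ ∈ T) :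
    pm τ ∈ Mon R T := ⟨1, τ, fun _ => one_mem _, h, isMon_pm τ⟩

theorem conj_base {s : GV ι F} {r : ι → GP F} {τ : Perm ι} (h : IsMon s r τ) (t : ι → GP F) :
    s * base t * s⁻¹ = base fun j => r (τ⁻¹ j) * t (τ⁻¹ j) * (r (τ⁻¹ j))⁻¹ := by
  have := ((h.mul (isMon_base t)).mul h.inv).eq_mon
  rw [this, mul_one, mul_inv_cancel]; rfl

theorem conj_blk {s : GV ι F} {r : ι → GP F} {τ : Perm ι} (h : IsMon s r τ) (i : ι) (a : GP F) :
    s * blk i a * s⁻¹ = blk (τ i) (r i * a * (r i)⁻¹) := by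
  rw [blk_eq, conj_base h, blk_eq]
  congr 1; funext j
  obtain ⟨j, rfl⟩ := τ.surjective j
  by_cases hj : j = i
  · subst hj; simp
  · simp [hj]

/-- the diagonal element -/
def dg (r : GP F) : GV ι F := base fun _ => r

/-- the involution that is `-1` on the `i`-th plane -/
def zi (i : ι) : GV ι F := blk i ng

/-- a symplectic transvection with centre `e` -/
def IsTv (t : GV ι F) (e : V ι F) : Prop :=
  e ≠ 0 ∧ ∃ c : F, c ≠ 0 ∧ ∀ v, t v = v + (c * B v e) • e

/-- no transvections -/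
def NT (H : Subgroup (GV ι F)) : Prop := ∀ t ∈ H, ∀ e, ¬ IsTv t e

/-- the `H`-conjugates of the `zi i` -/
def Pl (H : Subgroup (GV ι F)) (a : GV ι F) : Prop := ∃ h ∈ H, ∃ i, a = h * zi i * h⁻¹

/-- the `-1`-eigenspace -/
def Ng (a : GV ι F) : Submodule F (V ι F) where
  carrier := {v | a v = -v}
  add_mem' {v w} hv hw := by
    simp only [Set.mem_ofPred_eq] at hv hw ⊢; rw [map_add, hv, hw, neg_add]
  zero_mem' := by simp
  smul_mem' c v hv := by simp only [Set.mem_ofPred_eq] at hv ⊢; rw [map_smul, hv, smul_neg]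

theorem mem_Ng {a : GV ι F} {v : V ι F} : v ∈ Ng a ↔ a v = -v := Iff.rfl

/-- the planes of `a` and `b` are orthogonal -/
def Orth (a b : GV ι F) : Prop := ∀ v, a v = -v → b v = v

/-- the setting: `H` is an overgroup in `Sp` of `S = Q ≀ T` -/
structure Ctx (D : QD F) (T : Subgroup (Perm ι)) (H : Subgroup (GV ι F)) : Prop where
  good : D.Good
  T2 : IsPGroup 2 T
  Tt : ∀ i j, ∃ τ ∈ T, τ i = j
  le : H ≤ Sp ι F
  ge : Mon D.Q T ≤ H
  syl : ∀ R ≤ Sp ι F, IsPGroup 2 R → Mon D.Q T ≤ R → R = Mon D.Q T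
  p2 : IsPGroup 2 (Mon D.Q T)

theorem Ctx.blk_mem {D : QD F} {T : Subgroup (Perm ι)} {H : Subgroup (GV ι F)} (c : Ctx D T H)
    (i : ι) {r : GP F} (hr : r ∈ D.Q) : blk i r ∈ H := c.ge (blk_mem_Mon T i hr)

theorem Ctx.pm_mem {D : QD F} {T : Subgroup (Perm ι)} {H : Subgroup (GV ι F)} (c : Ctx D T H)
    {τ : Perm ι} (h : τ ∈ T) : pm τ ∈ H := c.ge (pm_mem_Mon _ h)

theorem Ctx.mono {D : QD F} {T : Subgroup (Perm ι)} {H K : Subgroup (GV ι F)} (c : Ctx D T H)
    (h : H ≤ K) (hK : K ≤ Sp ι F) : Ctx D T K :=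
  ⟨c.good, c.T2, c.Tt, hK, c.ge.trans h, c.syl, c.p2⟩

/-- a symplectic involution with a 2-dimensional `-1`-eigenspace -/
structure PI (a : GV ι F) : Prop where
  sp : a ∈ Sp ι F
  sq : ∀ v, a (a v) = v
  rk : Module.finrank F (Ng a) = 2

theorem PI.mul_self {a : GV ι F} (h : PI a) : a * a = 1 := LinearEquiv.ext h.sq

theorem PI.inv {a : GV ι F} (h : PI a) : a⁻¹ = a := inv_eq_of_mul_eq_one_right h.mul_self

theorem PI.sub_mem {a : GV ι F} (h : PI a) (v : V ι F) : v - a v ∈ Ng a := by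
  rw [mem_Ng, map_sub, h.sq, neg_sub]

theorem PI.add_fix {a : GV ι F} (h : PI a) (v : V ι F) : a (v + a v) = v + a v := by
  rw [map_add, h.sq, add_comm]

theorem eq_zero_of_eq_neg (h2 : (2 : F) ≠ 0) {v : V ι F} (h : v = -v) : v = 0 := by
  rw [← add_eq_zero_iff_eq_neg, ← two_smul F] at h
  exact (smul_eq_zero.1 h).resolve_left h2

theorem PI.B_eq_zero (h2 : (2 : F) ≠ 0) {a : GV ι F} (h : PI a) {v w : V ι F} (hv : a v = v)
    (hw : a w = -w) : B v w = 0 := by
  have := h.sp v w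
  rw [hv, hw, map_neg, neg_eq_iff_add_eq_zero, ← two_mul] at this
  exact (mul_eq_zero.1 this).resolve_left h2

/-- vectors orthogonal to the plane of `a` are fixed by `a` -/
theorem PI.fix_of_perp (h2 : (2 : F) ≠ 0) {a : GV ι F} (h : PI a) {v : V ι F}
    (hv : ∀ w, a w = -w → B v w = 0) : a v = v := by
  rw [eq_comm, ← sub_eq_zero]
  refine B_nondeg fun w => mul_left_cancel₀ h2 ?_
  have e : (2 : F) • w = (w + a w) + (w - a w) := by module
  have h1 : B (v - a v) (w + a w) = 0 := by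
    rw [B_anti, h.B_eq_zero h2 (h.add_fix w) (h.sub_mem v), neg_zero]
  have h3 : B (a v) (w - a w) = 0 := by
    rw [← h.sp, h.sq, h.sub_mem w, map_neg, hv _ (h.sub_mem w), neg_zero]
  rw [← smul_eq_mul, ← map_smul, e, map_add, h1, map_sub B, LinearMap.sub_apply,
    hv _ (h.sub_mem w), h3]
  simp

theorem PI.nondeg (h2 : (2 : F) ≠ 0) {a : GV ι F} (h : PI a) {v : V ι F} (hv : a v = -v)
    (hp : ∀ w, a w = -w → B v w = 0) : v = 0 :=
  eq_zero_of_eq_neg h2 ((h.fix_of_perp h2 hp).symm.trans hv)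

theorem PI.exists_ne {a : GV ι F} (h : PI a) : ∃ v, v ≠ 0 ∧ a v = -v := by
  obtain ⟨w, hw, hw0⟩ := (Ng a).exists_mem_ne_zero_of_ne_bot (by
    intro e; have := h.rk; rw [e, finrank_bot] at this; omega)
  exact ⟨w, hw0, hw⟩

theorem Orth.symm (h2 : (2 : F) ≠ 0) {a b : GV ι F} (ha : PI a) (hb : PI b) (h : Orth a b) :
    Orth b a := fun v hv =>
  ha.fix_of_perp h2 fun w hw => by rw [B_anti, hb.B_eq_zero h2 (h w hw) hv, neg_zero]

theorem PI.eq_of_le (h2 : (2 : F) ≠ 0) {a b : GV ι F} (ha : PI a) (hb : PI b) (h : Ng a ≤ Ng b) :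
    a = b := by
  have e : Ng a = Ng b := Submodule.eq_of_le_of_finrank_eq h (ha.rk.trans hb.rk.symm)
  refine LinearEquiv.ext fun v => ?_
  have h1 : b (v + a v) = v + a v := hb.fix_of_perp h2 fun w hw =>
    ha.B_eq_zero h2 (ha.add_fix v) (e.ge hw)
  have h3 : b (v - a v) = -(v - a v) := h (ha.sub_mem v)
  refine smul_right_injective _ h2 ?_
  have e2 : (2 : F) • v = (v + a v) + (v - a v) := by module
  change (2 : F) • a v = (2 : F) • b v
  rw [← map_smul b, e2, map_add, h1, h3]; module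

theorem Orth.comm (h2 : (2 : F) ≠ 0) {a b : GV ι F} (ha : PI a) (hb : PI b) (h : Orth a b) :
    a * b = b * a := by
  refine LinearEquiv.ext fun v => ?_
  have h1 := h _ (ha.sub_mem v)
  have h3 := h.symm h2 ha hb _ (hb.sub_mem v)
  rw [map_sub] at h1 h3
  simp only [LinearEquiv.mul_apply]
  linear_combination (exp := 1) h1 - h3

theorem Ng_conj (h a : GV ι F) : Ng (h * a * h⁻¹) = (Ng a).map h.toLinearMap := by
  ext v
  rw [Submodule.mem_map_equiv, mem_Ng, mem_Ng]
  change h (a (h.symm v)) = -v ↔ _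
  rw [← h.eq_symm_apply, map_neg]

theorem PI.conj {a h : GV ι F} (ha : PI a) (hh : h ∈ Sp ι F) : PI (h * a * h⁻¹) :=
  ⟨mul_mem (mul_mem hh ha.sp) (inv_mem hh), fun v => by simp [ha.sq],
    by rw [Ng_conj, LinearEquiv.finrank_map_eq, ha.rk]⟩

theorem Orth.conj {a b : GV ι F} (hab : Orth a b) (h : GV ι F) :
    Orth (h * a * h⁻¹) (h * b * h⁻¹) := by
  intro v hv
  obtain ⟨v, rfl⟩ := h.surjective v
  have : a v = -v := h.injective (by simpa using hv)
  simp [hab v this]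

theorem zi_apply (i : ι) (v : V ι F) : zi i v = v - (2 : F) • (Pi.single i (v i) : V ι F) := by
  rw [zi, blk_apply, ← Pi.single_smul, sub_eq_add_neg v, ← Pi.single_neg]
  congr 2; simp only [ng_apply]; module

theorem mem_Ng_zi (h2 : (2 : F) ≠ 0) {i : ι} {v : V ι F} :
    zi i v = -v ↔ v = Pi.single i (v i) := by
  rw [zi_apply, sub_eq_iff_eq_add, ← sub_eq_iff_eq_add', sub_neg_eq_add, ← two_smul F]
  exact (smul_right_injective _ h2).eq_iff

theorem zi_single (i : ι) (u : Pn F) : zi i (Pi.single i u : V ι F) = -Pi.single i u := by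
  rw [zi, blk_single, ng_apply, Pi.single_neg]

theorem zi_fix (h2 : (2 : F) ≠ 0) {i : ι} {v : V ι F} : zi i v = v ↔ v i = 0 := by
  rw [zi_apply, sub_eq_self, smul_eq_zero, or_iff_right h2, Pi.single_eq_zero_iff]

theorem Ng_zi (h2 : (2 : F) ≠ 0) (i : ι) :
    Ng (zi i : GV ι F) = LinearMap.range (LinearMap.single F (fun _ : ι => Pn F) i) := by
  ext v
  rw [mem_Ng, mem_Ng_zi h2]
  exact ⟨fun h => ⟨v i, h.symm⟩, by rintro ⟨u, rfl⟩; simp⟩

theorem PI_zi (h2 : (2 : F) ≠ 0) (i : ι) : PI (zi i : GV ι F) := by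
  refine ⟨Mon_le_Sp le_rfl ⊤ (blk_mem_Mon ⊤ i ng_mem), fun v => ?_, ?_⟩
  · rw [← LinearEquiv.mul_apply, zi, ← map_mul, ng_mul_ng, map_one]; rfl
  · rw [Ng_zi h2, LinearMap.finrank_range_of_inj (Pi.single_injective (M := fun _ => Pn F) i)]
    simp

theorem orth_zi (h2 : (2 : F) ≠ 0) {i j : ι} (h : i ≠ j) : Orth (zi i : GV ι F) (zi j) := by
  intro v hv
  rw [zi_fix h2, (mem_Ng_zi h2).1 hv, Pi.single_eq_of_ne h.symm]

theorem Pl.PI (h2 : (2 : F) ≠ 0) {H : Subgroup (GV ι F)} (hH : H ≤ Sp ι F) {a : GV ι F}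
    (h : Pl H a) : PI a := by
  obtain ⟨h, hh, i, rfl⟩ := h
  exact (PI_zi h2 i).conj (hH hh)

theorem Pl.conj {H : Subgroup (GV ι F)} {a h : GV ι F} (ha : Pl H a) (hh : h ∈ H) :
    Pl H (h * a * h⁻¹) := by
  obtain ⟨k, hk, i, rfl⟩ := ha
  exact ⟨h * k, mul_mem hh hk, i, by group⟩

theorem Pl_zi (H : Subgroup (GV ι F)) (i : ι) : Pl H (zi i) := ⟨1, one_mem _, i, by simp⟩

theorem Pl.mem {D : QD F} {T : Subgroup (Perm ι)} {H : Subgroup (GV ι F)} (c : Ctx D T H)
    {a : GV ι F} (h : Pl H a) : a ∈ H := by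
  obtain ⟨h, hh, i, rfl⟩ := h
  exact mul_mem (mul_mem hh (c.blk_mem i D.ng_mem_Q)) (inv_mem hh)

/-- a symplectic map that permutes the coordinate planes is monomial -/
theorem mem_Mon_of_blocks {g : GV ι F} (hg : g ∈ Sp ι F)
    (h : ∀ i, ∃ j, ∀ u, ∃ u', g (Pi.single i u) = Pi.single j u') : g ∈ Mon (Γ F) ⊤ := by
  choose σ f hf using h
  let φ : ι → Pn F →ₗ[F] Pn F := fun i =>
    LinearMap.proj (σ i) ∘ₗ g.toLinearMap ∘ₗ LinearMap.single F (fun _ : ι => Pn F) i
  have hφ : ∀ i u, g (Pi.single i u) = Pi.single (σ i) (φ i u) := fun i u => by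
    change _ = (Pi.single (σ i) (g (Pi.single i u) (σ i)) : V ι F)
    rw [hf, Pi.single_eq_same]
  have hβ : ∀ i u v, β (φ i u) (φ i v) = β u v := fun i u v => by
    have := hg (Pi.single i u) (Pi.single i v)
    rwa [hφ, hφ, B_single_left, B_single_left, Pi.single_eq_same, Pi.single_eq_same] at this
  have hi : ∀ i, Function.Injective (φ i) := fun i =>
    (injective_iff_map_eq_zero _).2 fun u hu => β_nondeg fun v => by rw [← hβ i, hu]; simp
  have hb : ∀ i, Function.Bijective (φ i) := fun i => ⟨hi i, LinearMap.surjective_of_injective (hi i)⟩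
  have hσ : Function.Injective σ := fun i j e => by
    by_contra hij
    obtain ⟨u, hu⟩ := (hb j).2 (φ i ![1, 0])
    have := g.injective ((hφ i ![1, 0]).trans (by rw [← hu, e, ← hφ]))
    have := congrFun (congrFun this i) 0
    simp [hij] at this
  refine ⟨fun i => LinearEquiv.ofBijective (φ i) (hb i),
    Equiv.ofBijective σ (Finite.injective_iff_bijective.1 hσ), hβ, trivial, fun v i => ?_⟩
  change g v (σ i) = φ i (v i)
  conv_lhs => rw [← Finset.univ_sum_single v, map_sum, Finset.sum_apply]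
  rw [Finset.sum_eq_single i (fun j _ hj => by rw [hφ, Pi.single_eq_of_ne (hσ.ne hj.symm)]) (by simp),
    hφ, Pi.single_eq_same]

/-- `g` acts as `y` on the plane `{(u, -u)} ≤ V_a ⊕ V_b` and trivially on its orthogonal
complement -/
def IsRho (a b : ι) (y : GP F) (g : GV ι F) : Prop :=
  ∀ v, g v a + g v b = v a + v b ∧ g v a - g v b = y (v a - v b) ∧
    ∀ j, j ≠ a → j ≠ b → g v j = v j

/-- conjugates of the `zi i` generating a 2-group are equal or orthogonal -/
def Iso (H : Subgroup (GV ι F)) : Prop :=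
  ∀ a b, Pl H a → Pl H b → ∀ k : ℕ, (a * b) ^ 2 ^ k = 1 → a = b ∨ Orth a b

instance [Finite F] : Finite (GP F) :=
  Finite.of_injective (fun g : GP F => (g : Pn F → Pn F)) DFunLike.coe_injective

instance [Finite F] : Finite (GV ι F) :=
  Finite.of_injective (fun g : GV ι F => (g : V ι F → V ι F)) DFunLike.coe_injective

end CfsgLib.SpPr
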