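import Cfsg.Agent.Lib.SpPr.SLB

/-!
# SPPR package FUS1: case F, a swap of two planes is conjugate to some zi
-/

set_option autoImplicit false
set_option linter.unusedSectionVars false

namespace CfsgLib.SpPr

open Equiv CfsgLib.Pronorm

variable {F : Type*} [Field F] [Finite F] {ι : Type} [Fintype ι] [DecidableEq ι]
  {D : QD F} {T : Subgroup (Perm ι)} {H : Subgroup (GV ι F)}

theorem Ctx.exists_swap (c : Ctx D T H) {σ : GV ι F} (h : Pl H σ) (hS : σ ∈ Mon D.Q T)
    (hz : ∀ j, σ ≠ zi j) : ∃ a b, a ≠ b ∧ swap a b ∈ T ∧ Pl H (pm (swap a b)) := by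
  have h2 := D.two
  have hP : PI σ := h.PI h2 c.le
  obtain ⟨r, τ, hr, hτ, hm⟩ := hS
  obtain ⟨hττ, hrr⟩ := (hm.mul hm).unique (hP.mul_self ▸ isMon_one)
  have hrr' : ∀ i, r (τ i) * r i = 1 := fun i => congrFun hrr i
  have hττ' : ∀ i, τ (τ i) = i := fun i => DFunLike.congr_fun hττ i
  have hneg : ∀ j, τ j = j → r j = 1 := fun j hj => by
    refine (eq_of_sq_eq_one h2 (D.Q_le (hr j)) (by simpa [hj] using hrr' j)).resolve_right
      fun e => hz j ((PI_zi h2 j).eq_of_le h2 hP fun v hv => ?_).symm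
    rw [mem_Ng, mem_Ng_zi h2] at hv
    rw [mem_Ng, hv, hm.single, hj, e, ng_apply, Pi.single_neg]
  obtain ⟨a, ha⟩ : ∃ a, τ a ≠ a := by
    by_contra! hc
    obtain ⟨v, hv, hv'⟩ := hP.exists_ne
    refine hv (eq_zero_of_eq_neg h2 (hv'.symm ▸ funext fun i => ?_))
    have := hm v i
    rw [hc, hneg i (hc i)] at this
    exact this.symm
  have hmem : ∀ j u, (Pi.single j u - Pi.single (τ j) (r j u) : V ι F) ∈ Ng σ := fun j u => by
    rw [← hm.single]
    exact hP.sub_mem _
  let φ : Pn F →ₗ[F] V ι F := LinearMap.single F (fun _ : ι => Pn F) a -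
    LinearMap.single F (fun _ : ι => Pn F) (τ a) ∘ₗ (r a).toLinearMap
  have hφ : ∀ u, φ u = Pi.single a u - Pi.single (τ a) (r a u) := fun _ => rfl
  have hφi : Function.Injective φ := (injective_iff_map_eq_zero φ).2 fun u hu => by
    simpa [hφ, ha.symm] using congrFun hu a
  have hrg : LinearMap.range φ = Ng σ := Submodule.eq_of_le_of_finrank_eq
    (by rintro _ ⟨u, rfl⟩; exact hmem a u)
    (by rw [LinearMap.finrank_range_of_inj hφi, hP.rk]; simp)
  have hfix : ∀ j, j ≠ a → j ≠ τ a → τ j = j := fun j h1 h3 => by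
    by_contra h4
    obtain ⟨u, hu⟩ := hrg.ge (hmem j ![1, 0])
    have := congrFun (congrFun hu j) 0
    simp [hφ, h1, h3, Ne.symm h4] at this
  have hsw : τ = swap a (τ a) := by
    ext j
    by_cases h1 : j = a
    · rw [h1, swap_apply_left]
    · by_cases h3 : j = τ a
      · rw [h3, swap_apply_right, hττ']
      · rw [swap_apply_of_ne_of_ne h1 h3, hfix j h1 h3]
  refine ⟨a, τ a, ha.symm, hsw ▸ hτ, ?_⟩
  have e : blk a (r a) * σ * (blk a (r a))⁻¹ = pm (swap a (τ a)) := by
    have h3 := ((isMon_blk a (r a)).mul hm).mul (isMon_blk a (r a)).inv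
    rw [h3.eq_mon, (isMon_pm (swap a (τ a))).eq_mon, ← hsw, one_mul, inv_one, mul_one]
    congr 1
    funext j
    by_cases h1 : j = a
    · subst h1; simp [ha]
    · by_cases h4 : j = τ a
      · have := hrr' (τ a)
        rw [hττ'] at this
        simp [h4, ha, hττ', this]
      · simp [h1, hfix j h1 h4, hneg j (hfix j h1 h4)]
  rw [← e]
  exact h.conj (c.blk_mem a (hr a))

end CfsgLib.SpPr
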