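import Cfsg.Agent.Lib.SpPr.Defs

/-!
# SPPR package FUS2: case F, the quaternion group on the antidiagonal plane
-/

set_option autoImplicit false
set_option linter.unusedSectionVars false

namespace CfsgLib.SpPr

open Equiv CfsgLib.Pronorm

variable {F : Type*} [Field F] [Finite F] {ι : Type} [Fintype ι] [DecidableEq ι]
  {D : QD F} {T : Subgroup (Perm ι)} {H : Subgroup (GV ι F)}

/-- the elements of `SL₂` induced on the antidiagonal plane -/
def rhoGrp (H : Subgroup (GV ι F)) (a b : ι) : Subgroup (GP F) where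
  carrier := {y | ∃ g ∈ H, IsRho a b y g}
  one_mem' := ⟨1, one_mem _, fun _ => ⟨rfl, rfl, fun _ _ _ => rfl⟩⟩
  mul_mem' := by
    rintro y y' ⟨g, hg, e⟩ ⟨g', hg', e'⟩
    exact ⟨g * g', mul_mem hg hg', fun v => ⟨(e _).1.trans (e' v).1,
      (e _).2.1.trans (congrArg y (e' v).2.1),
      fun j h1 h2 => ((e _).2.2 j h1 h2).trans ((e' v).2.2 j h1 h2)⟩⟩
  inv_mem' := by
    rintro y ⟨g, hg, e⟩
    refine ⟨g⁻¹, inv_mem hg, fun v => ?_⟩
    obtain ⟨w, rfl⟩ := g.surjective v
    have : g⁻¹ (g w) = w := g.symm_apply_apply w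
    rw [this, (e w).1, (e w).2.1]
    exact ⟨rfl, (y.symm_apply_apply _).symm, fun j h1 h2 => ((e w).2.2 j h1 h2).symm⟩

theorem Ctx.rho_mem (c : Ctx D T H) {a b : ι} (hab : a ≠ b) (h : Pl H (pm (swap a b))) :
    ∀ s ∈ D.Q, ∃ g ∈ H, IsRho a b s g := by
  obtain ⟨h, hh, i, e⟩ := h
  have e1 : ∀ w j, h w (swap a b j) = h (zi i w) j := fun w j => by
    have := congrFun (DFunLike.congr_fun (mul_inv_eq_iff_eq_mul.1 e.symm) w) j
    rw [LinearEquiv.mul_apply, LinearEquiv.mul_apply, pm_apply, symm_swap] at this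
    exact this.symm
  let φ : Pn F →ₗ[F] Pn F :=
    LinearMap.proj a ∘ₗ h.toLinearMap ∘ₗ LinearMap.single F (fun _ : ι => Pn F) i
  have ha : ∀ u, h (Pi.single i u) a = φ u := fun _ => rfl
  have hb : ∀ u, h (Pi.single i u) b = -φ u := fun u => by
    have := e1 (Pi.single i u) a
    rwa [swap_apply_left, zi_single, map_neg] at this
  have hj : ∀ u j, j ≠ a → j ≠ b → h (Pi.single i u) j = 0 := fun u j h1 h2 => by
    have := e1 (Pi.single i u) j
    rw [swap_apply_of_ne_of_ne h1 h2, zi_single, map_neg, Pi.neg_apply, ← add_eq_zero_iff_eq_neg,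
      ← two_smul F] at this
    exact (smul_eq_zero.1 this).resolve_left D.two
  have hβ : ∀ u v, 2 * β (φ u) (φ v) = β u v := fun u v => by
    have := c.le hh (Pi.single i u) (Pi.single i v)
    rw [B_single_left, Pi.single_eq_same, B_apply, Finset.sum_eq_add_of_mem a b (by simp) (by simp)
      hab (fun j _ h1 => by rw [hj u j h1.1 h1.2]; simp), ha, ha, hb, hb] at this
    simpa [two_mul] using this
  have hi : Function.Injective φ :=
    (injective_iff_map_eq_zero _).2 fun u hu => β_nondeg fun v => by rw [← hβ, hu]; simp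
  let ψ : GP F := LinearEquiv.ofBijective φ ⟨hi, LinearMap.surjective_of_injective hi⟩
  have hψ : ∀ u, ψ u = φ u := fun _ => rfl
  have hΓ : ∀ s ∈ Γ F, ψ * s * ψ⁻¹ ∈ Γ F := fun s hs u v => by
    obtain ⟨u, rfl⟩ := ψ.surjective u
    obtain ⟨v, rfl⟩ := ψ.surjective v
    refine mul_left_cancel₀ D.two ?_
    simp only [LinearEquiv.mul_apply, LinearEquiv.coe_inv, LinearEquiv.symm_apply_apply]
    rw [hψ, hψ, hψ, hψ, hβ, hβ, hs]
  have hX : ∀ s ∈ D.Q, ψ * s * ψ⁻¹ ∈ rhoGrp H a b ⊓ Γ F := fun s hs => by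
    refine ⟨⟨h * blk i s * h⁻¹, mul_mem (mul_mem hh (c.blk_mem i hs)) (inv_mem hh), fun v => ?_⟩,
      hΓ s (D.Q_le hs)⟩
    obtain ⟨w, rfl⟩ := h.surjective v
    have e2 : h w a - h w b = ψ ((2 : F) • w i) := by
      have := e1 w a
      rw [swap_apply_left, zi_apply, map_sub, map_smul, Pi.sub_apply, Pi.smul_apply, ha] at this
      rw [this, map_smul, hψ, sub_sub_cancel]
    have e3 : (h * blk i s * h⁻¹) (h w) = h w + h (Pi.single i (s (w i) - w i)) := by
      simp only [LinearEquiv.mul_apply, LinearEquiv.coe_inv, LinearEquiv.symm_apply_apply]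
      rw [blk_apply, map_add]
    rw [e3]
    refine ⟨by simp only [Pi.add_apply, ha, hb]; abel, ?_, fun j h1 h2 => by
      rw [Pi.add_apply, hj _ j h1 h2, add_zero]⟩
    rw [e2]
    simp only [LinearEquiv.mul_apply, LinearEquiv.coe_inv, LinearEquiv.symm_apply_apply]
    simp only [Pi.add_apply, ha, hb, map_smul, map_sub, hψ] at e2 ⊢
    linear_combination (norm := module) e2
  let D' : QD F := ⟨ψ * D.x * ψ⁻¹, ψ * D.y * ψ⁻¹, hΓ _ D.hx, hΓ _ D.hy, fun u => by simp [D.xx],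
    fun u => by simp [D.yy], fun u => by simp [D.xy], D.two⟩
  refine fun s hs => (c.good.q4 (rhoGrp H a b ⊓ Γ F) inf_le_right ?_ D' (hX _ D.x_mem)
    (hX _ D.y_mem) hs).1
  rintro s hs r ⟨⟨g, hg, e⟩, hr⟩
  have hd : base (fun _ : ι => s) ∈ H := c.ge (base_mem_Mon T fun _ => hs)
  refine ⟨⟨_, mul_mem (mul_mem hd hg) (inv_mem hd), fun v => ?_⟩,
    (Γ F).mul_mem (mul_mem (D.Q_le hs) hr) (inv_mem (D.Q_le hs))⟩
  obtain ⟨w, rfl⟩ := (base fun _ : ι => s).surjective v
  simp only [LinearEquiv.mul_apply, LinearEquiv.coe_inv, LinearEquiv.symm_apply_apply, base_apply,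
    ← map_add, ← map_sub, (e w).1, (e w).2.1]
  exact ⟨trivial, trivial, fun j h1 h2 => by rw [(e w).2.2 j h1 h2]⟩

theorem IsRho.apply (h2 : (2 : F) ≠ 0) {a b : ι} {y : GP F} {g : GV ι F} (h : IsRho a b y g)
    (v : V ι F) : g v a = (2 : F)⁻¹ • (v a + v b + y (v a - v b)) ∧
      g v b = (2 : F)⁻¹ • (v a + v b - y (v a - v b)) := by
  rw [← (h v).1, ← (h v).2.1]
  constructor <;> match_scalars <;> field_simp <;> ring

theorem Ctx.blk2_of_rho (c : Ctx D T H) {a b : ι} (hab : a ≠ b) (hT : swap a b ∈ T)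
    (h : ∀ s ∈ D.Q, ∃ g ∈ H, IsRho a b s g) : blk a D.ω * blk b D.ω ∈ H := by
  obtain ⟨g1, h1, e1⟩ := h _ D.y_mem
  obtain ⟨g2, h2, e2⟩ := h _ (mul_mem D.ng_mem_Q (mul_mem D.x_mem D.y_mem))
  have hx := c.blk_mem a D.x_mem
  rw [← H.mul_mem_cancel_left hx]
  convert mul_mem h1 (mul_mem hx (mul_mem h2 (mul_mem (c.pm_mem hT) hx))) using 1
  refine LinearEquiv.ext fun v => funext fun j => ?_
  have h0 := D.two
  simp only [LinearEquiv.mul_apply]
  by_cases ja : j = a
  · subst ja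
    simp only [e1.apply h0, e2.apply h0, blk_self, blk_ne hab, blk_ne hab.symm, pm_apply, symm_swap,
      swap_apply_left, swap_apply_right, LinearEquiv.mul_apply, ng_apply, QD.ω_apply, map_smul,
      map_add, map_sub, map_neg, D.xx, D.yy, D.yx]
    match_scalars <;> field_simp <;> ring
  by_cases jb : j = b
  · subst jb
    simp only [e1.apply h0, e2.apply h0, blk_self, blk_ne hab, blk_ne hab.symm, pm_apply, symm_swap,
      swap_apply_left, swap_apply_right, LinearEquiv.mul_apply, ng_apply, QD.ω_apply, map_smul,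
      map_add, map_sub, map_neg, D.xx, D.yy, D.yx]
    match_scalars <;> field_simp <;> ring
  simp only [(e1 _).2.2 j ja jb, (e2 _).2.2 j ja jb, blk_ne ja, blk_ne jb, pm_apply, symm_swap,
    swap_apply_of_ne_of_ne ja jb]

end CfsgLib.SpPr
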