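import Cfsg.Agent.Lib.SpPr.Defs
import Cfsg.Agent.S0205

/-!
# SPPR package SLA: a self-normalising Sylow 2-subgroup that is abelian modulo a central involution
-/

set_option autoImplicit false
set_option linter.unusedSectionVars false

namespace CfsgLib.SpPr

open Equiv CfsgLib.Pronorm

/-- a step of the derived series of a normal subgroup of odd order where `p` becomes true -/
theorem exists_layer {G : Type*} [Group G] [Finite G] (N : Subgroup G) [hn : N.Normal]
    (hN : Odd (Nat.card N)) (p : Subgroup G → Prop) (h0 : ¬ p N) (hb : p ⊥) :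
    ∃ M : Subgroup G, M.Normal ∧ M ≤ N ∧ ¬ p M ∧ p ⁅M, M⁆ := by
  let d : ℕ → Subgroup G := fun k => Nat.rec N (fun _ M => ⁅M, M⁆) k
  have hd : ∀ k, (d k).Normal ∧ d k = (derivedSeries N k).map N.subtype := by
    intro k
    induction k with
    | zero => exact ⟨hn, by simp [d, ← MonoidHom.range_eq_map]⟩
    | succ k ih =>
      refine ⟨@Subgroup.commutator_normal _ _ (d k) (d k) ih.1 ih.1, ?_⟩
      rw [derivedSeries_succ, Subgroup.map_commutator, ← ih.2]
  obtain ⟨n, hn'⟩ := Cfsg.Agent.S0205.result hN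
  by_contra hc
  have : ∀ k, ¬ p (d k) := by
    intro k
    induction k with
    | zero => exact h0
    | succ k ih =>
      exact fun h => hc ⟨d k, (hd k).1, (hd k).2 ▸ Subgroup.map_subtype_le _, ih, h⟩
  apply this n
  rw [(hd n).2, hn', Subgroup.map_bot]
  exact hb

theorem commute_of_odd_pow {G : Type*} [Group G] {C : Subgroup G} (hC : C ≤ Subgroup.center G)
    (hC2 : IsPGroup 2 C) {r : ℕ} (hr : Odd r) {g y : G} (hy : y ^ r ∈ C)
    (he : g * y * g⁻¹ * y⁻¹ ∈ C) : Commute g y := by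
  set e := g * y * g⁻¹ * y⁻¹ with he'
  have h1 : g * y * g⁻¹ = e * y := by rw [he']; group
  have hc : Commute e y := (Subgroup.mem_center_iff.1 (hC he) y).symm
  have h2 : g * y ^ r * g⁻¹ = e ^ r * y ^ r := by rw [← conj_pow, h1, hc.mul_pow]
  have h3 : g * y ^ r * g⁻¹ = y ^ r := by
    rw [Subgroup.mem_center_iff.1 (hC hy) g]; group
  have h4 : e = 1 := eq_one_of_odd hC2 he hr (by
    rw [h3] at h2; exact (mul_eq_right.1 h2.symm))
  rw [h4, one_mul] at h1
  exact mul_inv_eq_iff_eq_mul.1 h1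

theorem mem_sylow_of_map {G G' : Type*} [Group G] [Finite G] [Group G'] (f : G →* G')
    (hf : Function.Surjective f) (hk : IsPGroup 2 f.ker) (P : Sylow 2 G) {g : G}
    (hg : f g ∈ P.mapSurjective hf) : g ∈ P := by
  have h1 : f.ker ≤ P := hk.le_sylow_of_normal P
  have h2 : g ∈ ((P : Subgroup G).map f).comap f := hg
  rwa [Subgroup.comap_map_eq_self h1] at h2

theorem mem_normalizer_of_map {G G' : Type*} [Group G] [Finite G] [Group G'] (f : G →* G')
    (hf : Function.Surjective f) (hk : IsPGroup 2 f.ker) (P : Sylow 2 G) {g : G}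
    (hg : f g ∈ Subgroup.normalizer (P.mapSurjective hf : Set G')) :
    g ∈ Subgroup.normalizer (P : Set G) := by
  refine Subgroup.mem_normalizer_fintype fun s hs => mem_sylow_of_map f hf hk P ?_
  rw [map_mul, map_mul, map_inv]
  exact (Subgroup.mem_normalizer_iff.1 hg (f s)).1 (Subgroup.mem_map_of_mem f hs)

theorem exists_comm_conj {G : Type*} [Group G] [Finite G] (P : Sylow 2 G) {z : G} (hzP : z ∈ P)
    (hz : z ∈ Subgroup.center G) (_hz2 : z * z = 1) (hN : Subgroup.normalizer (P : Set G) ≤ P)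
    (hab : ∀ a ∈ P, ∀ b ∈ P, a * b * a⁻¹ * b⁻¹ = 1 ∨ a * b * a⁻¹ * b⁻¹ = z)
    (hne : (P : Subgroup G) ≠ ⊤) :
    ∃ a : G, a ≠ 1 ∧ a ≠ z ∧ ∀ s : G, Commute a (s * a * s⁻¹) := by
  set Z := Subgroup.zpowers z
  have hZc : Z ≤ Subgroup.center G := by rw [Subgroup.zpowers_le]; exact hz
  have hZn : Z.Normal := ⟨fun n hn g => by
    rw [Subgroup.mem_center_iff.1 (hZc hn) g]; simpa using hn⟩
  have hZ2 : IsPGroup 2 Z := P.isPGroup'.to_le (by rw [Subgroup.zpowers_le]; exact hzP)
  let f := QuotientGroup.mk' Z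
  have hf : Function.Surjective f := QuotientGroup.mk'_surjective Z
  have hk : IsPGroup 2 f.ker := by rw [QuotientGroup.ker_mk']; exact hZ2
  have hf1 : ∀ g, f g = 1 ↔ g ∈ Z := fun g => QuotientGroup.eq_one_iff g
  set Q := P.mapSurjective hf
  have hQ : Subgroup.normalizer (Q : Set (G ⧸ Z)) ≤ Subgroup.centralizer (Q : Set (G ⧸ Z)) := by
    intro n hn
    obtain ⟨n, rfl⟩ := hf n
    have h1 := hN (mem_normalizer_of_map f hf hk P hn)
    rintro _ ⟨a, ha, rfl⟩
    rw [← mul_inv_eq_one, mul_inv_rev, ← mul_assoc, ← map_inv, ← map_inv, ← map_mul, ← map_mul,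
      ← map_mul, hf1]
    rcases hab a ha n h1 with h | h <;> rw [h]
    exacts [one_mem _, Subgroup.mem_zpowers z]
  have hc := MonoidHom.ker_transferSylow_isComplement' Q hQ
  set K := (MonoidHom.transferSylow Q hQ).ker
  have hodd : Odd (Nat.card K) := by
    rw [← hc.index_eq_card, ← Nat.not_even_iff_odd, even_iff_two_dvd]
    exact Q.not_dvd_index
  have hK : K ≠ ⊥ := by
    intro h
    have h1 := hc.sup_eq_top
    rw [h, bot_sup_eq] at h1
    refine hne (eq_top_iff.2 fun g _ => mem_sylow_of_map f hf hk P ?_)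
    change f g ∈ (Q : Subgroup (G ⧸ Z))
    rw [h1]; trivial
  obtain ⟨M, hMn, hMK, hM, hMM⟩ := exists_layer K hodd (· = ⊥) hK rfl
  obtain ⟨⟨a, ha⟩, ha1⟩ := Subgroup.ne_bot_iff_exists_ne_one.1 hM
  obtain ⟨a, rfl⟩ := hf a
  have ha2 : a ∉ Z := fun h => ha1 (Subtype.ext ((hf1 a).2 h))
  refine ⟨a, fun h => ha2 (h ▸ one_mem _), fun h => ha2 (h ▸ Subgroup.mem_zpowers z), fun s => ?_⟩
  have hb : f (s * a * s⁻¹) ∈ M := by rw [map_mul, map_mul, map_inv]; exact hMn.conj_mem _ ha _
  refine commute_of_odd_pow hZc hZ2 hodd ?_ ?_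
  · rw [← hf1, map_pow]
    exact congrArg Subtype.val (pow_card_eq_one' (x := (⟨_, hMK hb⟩ : K)))
  · have := Subgroup.commutator_mem_commutator ha hb
    rw [hMM, Subgroup.mem_bot, commutatorElement_def] at this
    rw [← hf1, map_mul, map_mul, map_mul, map_inv, map_inv]
    exact this

end CfsgLib.SpPr
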