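import Cfsg.Agent.Lib.SpPr.Defs
import Cfsg.Agent.Lib.SpPr.SLA
import Cfsg.Agent.Lib.Pronorm.Basic

/-!
# SPPR package GEN: the property PP for quotients and direct products
-/

set_option autoImplicit false
set_option linter.unusedSectionVars false

namespace CfsgLib.SpPr

open Equiv CfsgLib.Pronorm

universe u

theorem PP.of_surj {G G' : Type*} [Group G] [Finite G] [Group G'] (f : G →* G')
    (hf : Function.Surjective f) (hk : IsPGroup 2 f.ker) (h : PP G) : PP G' := by
  obtain ⟨S, g, h1, h2⟩ := h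
  refine ⟨S.mapSurjective hf, f g, fun n hn => ?_, fun H hH => ?_⟩
  · obtain ⟨n, rfl⟩ := hf n
    rw [← map_inv, ← map_mul, ← map_mul]
    exact (h1 n (mem_normalizer_of_map f hf hk S hn)).imp (Subgroup.mem_map_of_mem f)
      (Or.imp (Subgroup.mem_map_of_mem f) (Subgroup.mem_map_of_mem f))
  · refine (h2 (H.comap f) (Subgroup.map_le_iff_le_comap.1 hH)).imp (fun hg => ?_) fun hg => ?_
    · rw [Subgroup.mem_normalizer_iff]
      intro y
      obtain ⟨y, rfl⟩ := hf y
      rw [← map_inv, ← map_mul, ← map_mul]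
      exact Subgroup.mem_normalizer_iff.1 hg y
    · refine (sup_le (fun y hy => ?_) ?_ : _ ≤ (H ⊔ H.map (MulAut.conj (f g)).toMonoidHom).comap f) hg
      · exact Subgroup.mem_sup_left hy
      · rintro _ ⟨y, hy, rfl⟩
        exact Subgroup.mem_sup_right ⟨f y, hy, by simp⟩

theorem pp_alt {G : Type u} [Group G] [Finite G] {S : Sylow 2 G} {g : G}
    (h1 : ∀ n ∈ Subgroup.normalizer (S : Set G), n ∈ S ∨ n * g ∈ S ∨ n * g⁻¹ ∈ S)
    {K : Subgroup G} (hK : (S : Subgroup G) ≤ K)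
    (h2 : g ∈ Subgroup.normalizer (K : Set G) ∨ g ∈ K ⊔ K.map (MulAut.conj g).toMonoidHom)
    {n : G} (hn : n ∈ Subgroup.normalizer (S : Set G)) :
    (∀ k ∈ Subgroup.normalizer (K : Set G), n * k * n⁻¹ * k⁻¹ ∈ K) ∨
      n ∈ K ⊔ K.map (MulAut.conj n).toMonoidHom := by
  rcases h2 with h2 | h2
  · left
    have key : ∀ m ∈ Subgroup.normalizer (S : Set G), ∃ j : ℤ, m * g ^ j ∈ K := fun m hm => by
      rcases h1 m hm with h | h | h
      exacts [⟨0, by simpa using hK h⟩, ⟨1, by simpa using hK h⟩, ⟨-1, by simpa using hK h⟩]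
    intro k hk
    obtain ⟨a, ha, hm⟩ := CfsgLib.SolvStruct.exists_mul_mem_normalizer_of_sylow hK S.isPGroup'
      (fun h => S.not_dvd_index (h.trans (Subgroup.relIndex_dvd_index_of_le hK))) hk
    obtain ⟨j, hj⟩ := key _ hm
    obtain ⟨i, hi⟩ := key _ hn
    have hj' : k * g ^ j ∈ K := by simpa [mul_assoc] using mul_mem ha hj
    have hc : ∀ (l : ℤ) {y : G}, y ∈ K → (g ^ l)⁻¹ * y * g ^ l ∈ K := fun l y hy =>
      (Subgroup.mem_normalizer_iff''.1 (zpow_mem h2 l) y).1 hy
    rw [show n * k * n⁻¹ * k⁻¹ = n * g ^ i * ((g ^ i)⁻¹ * (k * g ^ j) * g ^ i) *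
      ((g ^ j)⁻¹ * (n * g ^ i)⁻¹ * g ^ j) * (k * g ^ j)⁻¹ by group]
    exact mul_mem (mul_mem (mul_mem hi (hc i hj')) (hc j (inv_mem hi))) (inv_mem hj')
  right
  set M := K ⊔ K.map (MulAut.conj n).toMonoidHom
  have hKM : ∀ {y}, y ∈ K → y ∈ M := Subgroup.mem_sup_left
  have hnM : ∀ {y}, y ∈ K → n * y * n⁻¹ ∈ M := fun {y} hy => Subgroup.mem_sup_right ⟨y, hy, rfl⟩
  rcases h1 n hn with h | h | h
  · exact hKM (hK h)
  · have h3 : K ⊔ K.map (MulAut.conj g).toMonoidHom ≤ M.comap (MulAut.conj g⁻¹).toMonoidHom := by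
      refine sup_le (fun y hy => ?_) ?_
      · change g⁻¹ * y * g⁻¹⁻¹ ∈ M
        rw [show g⁻¹ * y * g⁻¹⁻¹ = (n * g)⁻¹ * (n * y * n⁻¹) * (n * g) by group]
        exact mul_mem (mul_mem (inv_mem (hKM (hK h))) (hnM hy)) (hKM (hK h))
      · rintro _ ⟨y, hy, rfl⟩
        change g⁻¹ * (g * y * g⁻¹) * g⁻¹⁻¹ ∈ M
        rw [show g⁻¹ * (g * y * g⁻¹) * g⁻¹⁻¹ = y by group]
        exact hKM hy
    have h4 : g⁻¹ * g * g⁻¹⁻¹ ∈ M := h3 h2
    rw [inv_mul_cancel, one_mul, inv_inv] at h4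
    simpa using mul_mem (hKM (hK h)) (inv_mem h4)
  · have h3 : K ⊔ K.map (MulAut.conj g).toMonoidHom ≤ M := by
      refine sup_le le_sup_left ?_
      rintro _ ⟨y, hy, rfl⟩
      change g * y * g⁻¹ ∈ M
      rw [show g * y * g⁻¹ = (n * g⁻¹)⁻¹ * (n * y * n⁻¹) * (n * g⁻¹) by group]
      exact mul_mem (mul_mem (inv_mem (hKM (hK h))) (hnM hy)) (hKM (hK h))
    simpa using mul_mem (hKM (hK h)) (h3 h2)

/-- the product of Sylow subgroups -/
def piSyl {κ : Type} [Fintype κ] {G : κ → Type u} [∀ i, Group (G i)] (S : ∀ i, Sylow 2 (G i)) :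
    Sylow 2 (∀ i, G i) where
  toSubgroup := Subgroup.pi Set.univ fun i => S i
  isPGroup' x := by
    choose k hk using fun i => (S i).isPGroup' ⟨x.1 i, x.2 i trivial⟩
    refine ⟨∑ i, k i, Subtype.ext (funext fun i => ?_)⟩
    obtain ⟨c, hc⟩ := pow_dvd_pow 2 (Finset.single_le_sum (f := k) (fun _ _ => Nat.zero_le _)
      (Finset.mem_univ i))
    have := congrArg Subtype.val (hk i)
    simp only [SubgroupClass.coe_pow, OneMemClass.coe_one] at this
    simp [hc, pow_mul, this]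
  is_maximal' {Q} hQ hle := by
    classical
    refine le_antisymm (fun x hx i _ => ?_) hle
    have := (S i).is_maximal' (hQ.map (Pi.evalMonoidHom G i)) fun s hs =>
      ⟨Pi.mulSingle i s, hle ((Subgroup.mulSingle_mem_pi i s).2 fun _ => hs), by simp⟩
    change x i ∈ (S i : Subgroup (G i))
    rw [← this]
    exact ⟨x, hx, rfl⟩

open Pointwise in
theorem sylPron_pi {κ : Type} [Fintype κ] {G : κ → Type u} [∀ i, Group (G i)] [∀ i, Finite (G i)]
    (h : ∀ i, PP (G i)) : CfsgLib.SolvStruct.SylPron 2 (∀ i, G i) := by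
  classical
  choose S g h1 h2 using h
  refine sylPron_of_normalizer (piSyl S) fun K hK n hn => ?_
  have hconj : ∀ (k : ∀ i, G i) (i : κ) (a : G i),
      Pi.mulSingle i (k i * a * (k i)⁻¹) = k * Pi.mulSingle i a * k⁻¹ := by
    intro k i a
    ext j
    rcases eq_or_ne j i with rfl | hj
    · simp
    · simp [hj]
  have hS : ∀ i, ∀ s ∈ S i, Pi.mulSingle i s ∈ (piSyl S : Subgroup (∀ i, G i)) := fun i s hs =>
    (Subgroup.mulSingle_mem_pi i s).2 fun _ => hs
  set M := K ⊔ MulAut.conj n • K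
  have key : ∀ i, Pi.mulSingle i (n i) ∈ Subgroup.normalizer (K : Set (∀ i, G i)) ∨
      Pi.mulSingle i (n i) ∈ M := by
    intro i
    have hKi : (S i : Subgroup (G i)) ≤ K.comap (MonoidHom.mulSingle G i) := fun s hs =>
      hK (hS i s hs)
    have hni : n i ∈ Subgroup.normalizer (S i : Set (G i)) :=
      Subgroup.mem_normalizer_fintype fun s hs => by
        have := (Subgroup.mem_normalizer_iff.1 hn _).1 (hS i s hs) i trivial
        simp only [Pi.mul_apply, Pi.inv_apply, Pi.mulSingle_eq_same] at this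
        exact this
    refine (pp_alt (h1 i) hKi (h2 i _ hKi) hni).imp (fun h => ?_) fun h => ?_
    · refine Subgroup.mem_normalizer_fintype fun k hk => ?_
      have h3 : Pi.mulSingle i (n i * k i * (n i)⁻¹ * (k i)⁻¹) ∈ K :=
        h (k i) (Subgroup.mem_normalizer_fintype fun a ha => by
          change Pi.mulSingle i (k i * a * (k i)⁻¹) ∈ K
          rw [hconj]
          exact mul_mem (mul_mem hk ha) (inv_mem hk))
      have h4 : Pi.mulSingle i (n i) * k * (Pi.mulSingle i (n i))⁻¹ =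
          Pi.mulSingle i (n i * k i * (n i)⁻¹ * (k i)⁻¹) * k := by
        ext j
        rcases eq_or_ne j i with rfl | hj
        · simp
        · simp [hj]
      rw [h4]
      exact mul_mem h3 hk
    · refine (sup_le (fun y hy => ?_) ?_ : _ ≤ M.comap (MonoidHom.mulSingle G i)) h
      · exact Subgroup.mem_sup_left hy
      · rintro _ ⟨y, hy, rfl⟩
        exact Subgroup.mem_sup_right ⟨Pi.mulSingle i y, hy, (hconj n i y).symm⟩
  let x : ∀ i, G i := fun i =>
    if Pi.mulSingle i (n i) ∈ Subgroup.normalizer (K : Set (∀ i, G i)) then 1 else n i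
  let y : ∀ i, G i := fun i =>
    if Pi.mulSingle i (n i) ∈ Subgroup.normalizer (K : Set (∀ i, G i)) then n i else 1
  have hx : x ∈ M := Subgroup.pi_mem_of_mulSingle_mem x fun i => by
    by_cases hi : Pi.mulSingle i (n i) ∈ Subgroup.normalizer (K : Set (∀ i, G i))
    · simp only [x, hi, if_true, Pi.mulSingle_one]; exact one_mem _
    · simp only [x, hi, if_false]; exact (key i).resolve_left hi
  have hy : y ∈ Subgroup.normalizer (K : Set (∀ i, G i)) :=
    Subgroup.pi_mem_of_mulSingle_mem y fun i => by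
      by_cases hi : Pi.mulSingle i (n i) ∈ Subgroup.normalizer (K : Set (∀ i, G i))
      · simp only [y, hi, if_true]
      · simp only [y, hi, if_false, Pi.mulSingle_one]; exact one_mem _
  have hxy : n = x * y := by
    ext i
    by_cases hi : Pi.mulSingle i (n i) ∈ Subgroup.normalizer (K : Set (∀ i, G i)) <;>
      simp [x, y, hi]
  refine ⟨x, hx, ?_⟩
  have h3 : MulAut.conj y • K = K := Subgroup.mem_normalizer_iff_map_conj_eq.1 hy
  rw [hxy, map_mul, mul_smul, h3]

end CfsgLib.SpPr
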