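import Cfsg.Agent.Lib.SpPr.Defs

/-!
# SPPR package HEIS: a transvection from a Heisenberg configuration
-/

set_option autoImplicit false
set_option linter.unusedSectionVars false

namespace CfsgLib.SpPr

open Equiv CfsgLib.Pronorm

variable {F : Type*} [Field F] [Finite F] {ι : Type} [Fintype ι] [DecidableEq ι]
  {D : QD F} {T : Subgroup (Perm ι)} {H : Subgroup (GV ι F)}

/-- Heisenberg-type elements -/
structure HK (i : ι) (R : Submodule F (V ι F)) (u : GV ι F) (A : Pn F →ₗ[F] V ι F) : Prop where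
  h1 : ∀ v, ∃ w : Pn F, u v - v - Pi.single i w ∈ R
  h2 : ∀ w, u (Pi.single i w) = Pi.single i w + A w
  h3 : ∀ w, A w ∈ R
  h4 : ∀ r ∈ R, u r = r

section

variable {i : ι} {R : Submodule F (V ι F)} {u u' : GV ι F} {A A' : Pn F →ₗ[F] V ι F}

theorem HK.apply_mul (hR : ∀ r ∈ R, r i = 0) (h : HK i R u A) (h' : HK i R u' A') (v : V ι F) :
    u (u' v) = u v + u' v - v + A (u' v i - v i) := by
  obtain ⟨w, hw⟩ := h'.h1 v
  have e1 : u' v i - v i = w := by simpa [sub_eq_zero] using hR _ hw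
  have e2 := h.h4 _ hw
  rw [map_sub, map_sub, h.h2] at e2
  rw [e1]
  linear_combination (norm := module) e2

theorem HK.mul (hR : ∀ r ∈ R, r i = 0) (h : HK i R u A) (h' : HK i R u' A') :
    HK i R (u * u') (A + A') := by
  refine ⟨fun v => ?_, fun w => ?_, fun w => add_mem (h.h3 w) (h'.h3 w), fun r hr => ?_⟩
  · obtain ⟨w, hw⟩ := h.h1 v
    obtain ⟨w', hw'⟩ := h'.h1 v
    refine ⟨w + w', ?_⟩
    convert add_mem (add_mem hw hw') (h.h3 (u' v i - v i)) using 1
    rw [LinearEquiv.mul_apply, h.apply_mul hR h', Pi.single_add]; abel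
  · rw [LinearEquiv.mul_apply, h'.h2, map_add, h.h2, h.h4 _ (h'.h3 w), LinearMap.add_apply, add_assoc]
  · rw [LinearEquiv.mul_apply, h'.h4 r hr, h.h4 r hr]

theorem HK.pow (hR : ∀ r ∈ R, r i = 0) (h : HK i R u A) (n : ℕ) : HK i R (u ^ n) ((n : F) • A) := by
  induction n with
  | zero => exact ⟨fun v => ⟨0, by simp⟩, fun w => by simp, fun w => by simp, fun r _ => rfl⟩
  | succ n ih => rw [pow_succ, Nat.cast_succ, add_smul, one_smul]; exact ih.mul hR h

theorem HK.conj (hR : ∀ r ∈ R, r i = 0) (h : HK i R u A) (s : GP F) :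
    HK i R ((blk i s)⁻¹ * u * blk i s) (A ∘ₗ s.toLinearMap) := by
  have hf : ∀ t : GP F, ∀ r ∈ R, blk i t r = r := fun t r hr => by simp [blk_apply, hR r hr]
  rw [← map_inv]
  refine ⟨fun v => ?_, fun w => ?_, fun w => h.h3 _, fun r hr => ?_⟩
  · obtain ⟨w, hw⟩ := h.h1 (blk i s v)
    refine ⟨s⁻¹ w, ?_⟩
    convert hw using 1
    rw [← hf s⁻¹ _ hw, map_sub, map_sub, blk_single, ← LinearEquiv.mul_apply (blk i s⁻¹) (blk i s) v,
      ← map_mul, inv_mul_cancel, map_one]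
    rfl
  · rw [LinearEquiv.mul_apply, LinearEquiv.mul_apply, blk_single, h.h2, map_add, hf _ _ (h.h3 _),
      blk_single]
    simp
  · rw [LinearEquiv.mul_apply, LinearEquiv.mul_apply, hf _ r hr, h.h4 r hr, hf _ r hr]

theorem HK.adj (hR : ∀ r ∈ R, r i = 0) (hu : u ∈ Sp ι F) (h : HK i R u A) (w : Pn F) (v : V ι F) :
    β w (u v i - v i) = -B (A w) v := by
  have e1 := hu (Pi.single i w) v
  have e2 := hu (A w) v
  rw [h.h4 _ (h.h3 w)] at e2
  rw [h.h2, map_add, LinearMap.add_apply, B_single_left, B_single_left, e2] at e1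
  rw [map_sub]
  linear_combination e1

end

theorem exists_sq_add_sq (h2 : (2 : F) ≠ 0) : ∃ a b : ℕ, (a : F) ^ 2 + (b : F) ^ 2 = -1 := by
  obtain ⟨p, hp⟩ := CharP.exists F
  have : Fact p.Prime := ⟨CharP.char_is_prime F p⟩
  obtain ⟨a, b, h⟩ := ZMod.sq_add_sq p (-1)
  refine ⟨a.val, b.val, ?_⟩
  have := congrArg (ZMod.castHom (dvd_refl p) F) h
  rw [map_add, map_pow, map_pow, map_neg, map_one] at this
  rwa [ZMod.natCast_val, ZMod.natCast_val]

theorem QD.exists_ne (D : QD F) {W : Type*} [AddCommGroup W] [Module F W] {A : Pn F →ₗ[F] W}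
    (hA : ∃ w, A w ≠ 0) {e : Pn F} (he : e ≠ 0) : A e ≠ 0 ∨ A (D.x e) ≠ 0 ∨ A (D.y e) ≠ 0 := by
  by_contra! h
  obtain ⟨w, hw⟩ := hA
  have key : ∀ f, A f = 0 → β e f = 0 := fun f hf => by
    by_contra hb
    have := congrArg A (β_expand e f w)
    rw [map_smul, map_add, map_smul, map_smul, h.1, hf, smul_zero, smul_zero, add_zero] at this
    exact hw ((smul_eq_zero.1 this).resolve_left hb)
  obtain ⟨a, ha⟩ := β_eq_zero he (key _ h.2.1)
  obtain ⟨b, hb⟩ := β_eq_zero he (key _ h.2.2)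
  have e1 := D.xy e
  have e2 := D.xx e
  have e3 := D.yy e
  rw [hb, map_smul, ha, map_smul, hb] at e1
  rw [ha, map_smul, ha] at e2
  rw [hb, map_smul, hb] at e3
  have f1 : (2 * (a * b)) • e = 0 := by linear_combination (norm := module) e1
  have f2 : (a * a + 1) • e = 0 := by linear_combination (norm := module) e2
  have f3 : (b * b + 1) • e = 0 := by linear_combination (norm := module) e3
  have g1 := (mul_eq_zero.1 ((smul_eq_zero.1 f1).resolve_right he)).resolve_left D.two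
  have g2 := (smul_eq_zero.1 f2).resolve_right he
  have g3 := (smul_eq_zero.1 f3).resolve_right he
  have : (1 : F) = 0 := by linear_combination (a * b) * g1 - (b * b) * g2 + g3
  exact one_ne_zero this

/-- a nilpotent element of the prime-field span of `x, y, xy` -/
theorem QD.exists_nilp (D : QD F) : ∃ (a b : ℕ) (e : Pn F) (c : F), e ≠ 0 ∧ c ≠ 0 ∧
    ∀ w, (a : F) • D.x w + (b : F) • D.y w + D.x (D.y w) = (c * β w e) • e := by
  obtain ⟨a, b, hab⟩ := exists_sq_add_sq D.two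
  set n : Pn F →ₗ[F] Pn F := (a : F) • D.x.toLinearMap + (b : F) • D.y.toLinearMap +
    D.x.toLinearMap ∘ₗ D.y.toLinearMap with hn
  have hna : ∀ w, n w = (a : F) • D.x w + (b : F) • D.y w + D.x (D.y w) := fun w => rfl
  have hsq : ∀ w, n (n w) = 0 := fun w => by
    simp only [hna, map_add, map_smul, map_neg, D.xx, D.yy, D.yx]
    linear_combination (norm := module) (-hab) • w
  have hsk : ∀ u v, β (n u) v = -β u (n v) := fun u v => by
    simp only [hna, map_add, map_smul, LinearMap.add_apply, LinearMap.smul_apply, D.β_x, D.β_y,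
      D.yx, map_neg, smul_eq_mul]
    ring
  obtain ⟨f, hf⟩ : ∃ f, n f ≠ 0 := by
    by_contra! h
    have e1 := h (D.x (D.y ![1, 0]))
    have e2 := congrArg (fun w => D.x (D.y w)) (h ![1, 0])
    simp only [hna, map_add, map_smul, map_neg, D.xx, D.yy, D.yx, map_zero] at e1 e2
    have : (2 : F) • (![1, 0] : Pn F) = 0 := by linear_combination (norm := module) -e1 - e2
    have := congrFun this 0
    simp [D.two] at this
  have h0 : ∀ w, β (n f) (n w) = 0 := fun w => by rw [hsk, hsq, map_zero, neg_zero]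
  have hb : β f (n f) ≠ 0 := fun h => by
    obtain ⟨c, hc⟩ := β_eq_zero hf (show β (n f) f = 0 by rw [β_anti, h, neg_zero])
    exact hf (by rw [hc, map_smul, hsq, smul_zero])
  refine ⟨a, b, n f, (β f (n f))⁻¹, hf, inv_ne_zero hb, fun w => ?_⟩
  have := congrArg n (β_expand f (n f) w)
  rw [map_smul, map_add, map_smul, map_smul, hsq, smul_zero, add_zero] at this
  rw [← hna, mul_smul, ← this, smul_smul, inv_mul_cancel₀ hb, one_smul]

theorem heis (hH : H ≤ Sp ι F) {i : ι} (hx : blk i D.x ∈ H) (hy : blk i D.y ∈ H)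
    (R : Submodule F (V ι F)) (hR : ∀ r ∈ R, r i = 0) {u : GV ι F} (hu : u ∈ H)
    (h1 : ∀ v, ∃ w : Pn F, u v - v - Pi.single i w ∈ R)
    (h2 : ∀ w : Pn F, u (Pi.single i w) - Pi.single i w ∈ R)
    (h3 : ∃ w : Pn F, u (Pi.single i w) ≠ Pi.single i w) (h4 : ∀ r ∈ R, u r = r) :
    ∃ t ∈ H, ∃ e ∈ R, IsTv t e := by
  obtain ⟨a, b, e, c, he, hc, hn⟩ := D.exists_nilp
  have hc' : ∀ {s} (_ : blk i s ∈ H) {u} (_ : u ∈ H), (blk i s)⁻¹ * u * blk i s ∈ H :=
    fun hs _ hu => mul_mem (mul_mem (inv_mem hs) hu) hs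
  obtain ⟨u', hu', A, hA, hAe⟩ : ∃ u' ∈ H, ∃ A, HK i R u' A ∧ A e ≠ 0 := by
    have hA : HK i R u ((u.toLinearMap - LinearMap.id) ∘ₗ LinearMap.single F (fun _ => Pn F) i) :=
      ⟨h1, fun w => by simp, h2, h4⟩
    rcases D.exists_ne (A := (u.toLinearMap - LinearMap.id) ∘ₗ LinearMap.single F (fun _ => Pn F) i)
      (h3.imp fun w hw => sub_ne_zero.2 hw) he with h | h | h
    exacts [⟨u, hu, _, hA, h⟩, ⟨_, hc' hx hu, _, hA.conj hR _, h⟩, ⟨_, hc' hy hu, _, hA.conj hR _, h⟩]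
  obtain ⟨u'', hu'', A', hA', hAA⟩ : ∃ u'' ∈ H, ∃ A', HK i R u'' A' ∧
      ∀ w, A' w = (c * β w e) • A e :=
    ⟨_, mul_mem (mul_mem (pow_mem (hc' hx hu') a) (pow_mem (hc' hy hu') b)) (hc' hy (hc' hx hu')), _,
      (((hA.conj hR _).pow hR a).mul hR ((hA.conj hR _).pow hR b)).mul hR
        ((hA.conj hR _).conj hR _), fun w => by rw [← map_smul, ← hn]; simp⟩
  refine ⟨u' * u'' * (u'' * u')⁻¹, mul_mem (mul_mem hu' hu'') (inv_mem (mul_mem hu'' hu')), A e,
    hA.h3 e, hAe, 2 * c, mul_ne_zero D.two hc, fun v => ?_⟩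
  obtain ⟨v, rfl⟩ := (u'' * u').surjective v
  have e0 : B ((u'' * u') v) (A e) = B v (A e) := by
    conv_lhs => rw [← (hA'.mul hR hA).h4 _ (hA.h3 e)]
    exact hH (mul_mem hu'' hu') _ _
  have e1 : u'' v i - v i = (c * B v (A e)) • e := by
    rw [← sub_eq_zero]
    refine β_nondeg fun w => ?_
    rw [β_anti, map_sub, hA'.adj hR (hH hu''), hAA, map_smul, map_smul, LinearMap.smul_apply,
      B_anti v]
    simp only [smul_eq_mul]; ring
  have e2 := hA.adj hR (hH hu') e v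
  rw [← LinearEquiv.mul_apply, inv_mul_cancel_right, e0, LinearEquiv.mul_apply,
    LinearEquiv.mul_apply, hA.apply_mul hR hA', hA'.apply_mul hR hA, e1, hAA, β_anti, e2, map_smul,
    B_anti (A e)]
  module

end CfsgLib.SpPr
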