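import Cfsg.Agent.Lib.SpPr.Defs

/-!
# SPPR package MONO: monomial overgroups
-/

set_option autoImplicit false
set_option linter.unusedSectionVars false

namespace CfsgLib.SpPr

open Equiv CfsgLib.Pronorm

variable {F : Type*} [Field F] [Finite F] {ι : Type} [Fintype ι] [DecidableEq ι]
  {D : QD F} {T : Subgroup (Perm ι)} {H : Subgroup (GV ι F)}

theorem Ctx.mono_case (c : Ctx D T H) (h : H ≤ Mon (Γ F) ⊤) :
    dg D.ω ∈ Subgroup.normalizer (H : Set (GV ι F)) ∨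
      dg D.ω ∈ H ⊔ H.map (MulAut.conj (dg D.ω : GV ι F)).toMonoidHom := by
  have hg : IsMon (dg D.ω : GV ι F) (fun _ => D.ω) 1 := isMon_base _
  rcases isEmpty_or_nonempty ι with hι | ⟨⟨i0⟩⟩
  · exact Or.inr (base_mem fun i => isEmptyElim i)
  let X : Subgroup (GP F) := H.comap (blk i0) ⊓ Γ F
  have htr : ∀ i j : ι, ∀ r, blk i r ∈ H → blk j r ∈ H := fun i j r hr => by
    obtain ⟨τ, hτ, rfl⟩ := c.Tt i j
    have h1 := H.mul_mem (H.mul_mem (c.pm_mem hτ) hr) (H.inv_mem (c.pm_mem hτ))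
    rw [conj_blk (isMon_pm τ)] at h1
    simpa using h1
  have hQ : D.Q ≤ X := fun r hr => ⟨c.blk_mem i0 hr, D.Q_le hr⟩
  rcases c.good.beta X inf_le_right hQ with h1 | h1
  · left
    refine Subgroup.mem_normalizer_fintype fun g hgH => ?_
    obtain ⟨ρ, τ, hρ, -, hm⟩ := h hgH
    have h2 : ∀ i, D.ω * ρ i * D.ω⁻¹ * (ρ i)⁻¹ ∈ X := fun i =>
      c.good.q5 X inf_le_right hQ h1 (ρ i) (hρ i) fun s hs => ⟨htr (τ i) i0 _ (by
        rw [← conj_blk hm]
        exact H.mul_mem (H.mul_mem hgH (htr i0 i s hs.1)) (H.inv_mem hgH)),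
        (Γ F).mul_mem ((Γ F).mul_mem (hρ i) hs.2) ((Γ F).inv_mem (hρ i))⟩
    have h3 : dg D.ω * g * (dg D.ω)⁻¹ * g⁻¹ =
        base fun j => D.ω * ρ (τ⁻¹ j) * D.ω⁻¹ * (ρ (τ⁻¹ j))⁻¹ := by
      have := (((hg.mul hm).mul hg.inv).mul hm.inv).eq_mon
      rw [this, one_mul, inv_one, mul_one, mul_inv_cancel]
      rfl
    have h4 : dg D.ω * g * (dg D.ω)⁻¹ * g⁻¹ ∈ H := by
      rw [h3]
      exact base_mem fun j => htr i0 j _ (h2 _).1
    simpa using H.mul_mem h4 hgH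
  · right
    refine base_mem fun j => ?_
    have h2 : X ⊔ X.map (MulAut.conj D.ω).toMonoidHom ≤
        (H ⊔ H.map (MulAut.conj (dg D.ω : GV ι F)).toMonoidHom).comap (blk j) := by
      refine sup_le (fun r hr => Subgroup.mem_sup_left (htr i0 j r hr.1)) ?_
      rintro _ ⟨r, hr, rfl⟩
      exact Subgroup.mem_sup_right ⟨blk j r, htr i0 j r hr.1, conj_blk hg j r⟩
    exact h2 h1

end CfsgLib.SpPr
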