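import Cfsg.Agent.Lib.SpPr.Defs

/-!
# SPPR package NORM: the norm argument
-/

set_option autoImplicit false
set_option linter.unusedSectionVars false

namespace CfsgLib.SpPr

open Equiv CfsgLib.Pronorm

variable {F : Type*} [Field F] [Finite F] {ι : Type} [Fintype ι] [DecidableEq ι]
  {D : QD F} {T : Subgroup (Perm ι)} {H : Subgroup (GV ι F)}

theorem Ctx.dg_mem (c : Ctx D T H) (k : ι → ℕ) (hk : ¬ 3 ∣ ∑ i, k i)
    (h : base (fun i => D.ω ^ k i) ∈ H) : dg D.ω ∈ H := by
  classical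
  have := Fintype.ofFinite T
  have hτ : ∀ τ : T, base (fun j => D.ω ^ k ((τ : Perm ι)⁻¹ j)) ∈ H := fun τ => by
    have h1 := H.mul_mem (H.mul_mem (c.pm_mem τ.2) h) (H.inv_mem (c.pm_mem τ.2))
    rw [conj_base (isMon_pm (τ : Perm ι))] at h1
    simpa using h1
  have hs : ∀ s : Finset T, base (fun j => D.ω ^ ∑ τ ∈ s, k ((τ : Perm ι)⁻¹ j)) ∈ H := by
    intro s
    induction s using Finset.induction_on with
    | empty =>
      have := H.one_mem
      rw [← map_one (base (F := F) (ι := ι))] at this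
      simpa only [Finset.sum_empty, pow_zero] using! this
    | insert a s ha ih =>
      have := H.mul_mem (hτ a) ih
      rw [← map_mul] at this
      simpa only [Finset.sum_insert ha, pow_add] using! this
  have hne : Nonempty ι := by
    by_contra hn
    rw [not_nonempty_iff] at hn
    simp at hk
  obtain ⟨i0⟩ := hne
  set N := ∑ τ : T, k ((τ : Perm ι)⁻¹ i0) with hN
  have hc : ∀ j, ∑ τ : T, k ((τ : Perm ι)⁻¹ j) = N := fun j => by
    obtain ⟨σ, hσ, rfl⟩ := c.Tt i0 j
    rw [hN, ← Equiv.sum_comp (Equiv.mulLeft (⟨σ, hσ⟩ : T))]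
    refine Finset.sum_congr rfl fun τ _ => ?_
    simp
  have hcard : Fintype.card ι * N = Fintype.card T * ∑ i, k i := by
    calc Fintype.card ι * N = ∑ j, ∑ τ : T, k ((τ : Perm ι)⁻¹ j) := by
          simp only [hc, Finset.sum_const, Finset.card_univ, smul_eq_mul]
      _ = ∑ τ : T, ∑ j, k ((τ : Perm ι)⁻¹ j) := Finset.sum_comm
      _ = ∑ _τ : T, ∑ j, k j :=
        Finset.sum_congr rfl fun τ _ => Equiv.sum_comp ((τ : Perm ι)⁻¹) k
      _ = _ := by simp
  have h3 : ¬ 3 ∣ N := fun h3 => by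
    obtain ⟨a, ha⟩ := IsPGroup.iff_card.1 c.T2
    have h4 : 3 ∣ Fintype.card T * ∑ i, k i := hcard ▸ h3.mul_left _
    rw [← Nat.card_eq_fintype_card, ha] at h4
    rcases (Nat.prime_three.dvd_mul).1 h4 with h5 | h5
    · have := Nat.prime_three.dvd_of_dvd_pow h5
      omega
    · exact hk h5
  let φ : GP F →* GV ι F := base.comp (Pi.constMonoidHom ι (GP F))
  have hφ : ∀ r, φ r = dg r := fun _ => rfl
  have h4 : φ D.ω ^ N ∈ H := by
    have := hs Finset.univ
    simp only [hc] at this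
    rw [← map_pow]
    exact this
  have h5 : φ D.ω ^ 3 ∈ H := by
    rw [← map_pow, D.ω_cube]
    exact c.ge (base_mem_Mon T fun _ => D.ng_mem_Q)
  rw [← hφ]
  have h6 : ∀ m, m % 3 = 1 → φ D.ω ^ m ∈ H → φ D.ω ∈ H := fun m hm h7 => by
    rw [← Nat.div_add_mod m 3, hm, pow_add, pow_mul, pow_one] at h7
    exact (H.mul_mem_cancel_left (H.pow_mem h5 _)).1 h7
  by_cases h7 : N % 3 = 1
  · exact h6 N h7 h4
  · exact h6 (N * 2) (by omega) (by rw [pow_mul]; exact H.pow_mem h4 2)

theorem Ctx.dg_of_blk (c : Ctx D T H) {i : ι} (h : blk i D.ω ∈ H) : dg D.ω ∈ H := by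
  refine c.dg_mem (Pi.single i 1) (by simp) ?_
  rw [blk_eq] at h
  convert h using 2
  funext j
  by_cases hj : j = i
  · subst hj; simp
  · simp [hj]

theorem Ctx.dg_of_blk2 (c : Ctx D T H) {a b : ι} (hab : a ≠ b) (h : blk a D.ω * blk b D.ω ∈ H) :
    dg D.ω ∈ H := by
  refine c.dg_mem (Pi.single a 1 + Pi.single b 1) (by simp [Finset.sum_add_distrib]) ?_
  rw [blk_eq, blk_eq, ← map_mul] at h
  convert h using 2
  funext j
  by_cases hj : j = a
  · subst hj; simp [hab]
  · by_cases hj' : j = b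
    · subst hj'; simp [hj]
    · simp [hj, hj']

end CfsgLib.SpPr
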