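import Cfsg.Agent.Lib.SpPr.SLC
import Cfsg.Agent.Lib.SL2.SylowTwo

/-!
# SPPR package SLE: the two cases for SL₂(q)
-/

set_option autoImplicit false
set_option linter.unusedSectionVars false

namespace CfsgLib.SpPr

open Equiv CfsgLib.Pronorm Matrix MatrixGroups

theorem sle_apply {F : Type*} [Field F] (A : SL(2, F)) (u : Pn F) :
    SpecialLinearGroup.toLin' A u = ![A 0 0 * u 0 + A 0 1 * u 1, A 1 0 * u 0 + A 1 1 * u 1] := by
  ext i
  fin_cases i <;> simp [SpecialLinearGroup.toLin'_apply, Matrix.mulVec, dotProduct, Fin.sum_univ_two]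

theorem sle_ex {F : Type*} [Field F] {a b c d : F} (h : a * d - b * c = 1) : ∃ A : SL(2, F), ∀ u : Pn F,
    SpecialLinearGroup.toLin' A u = ![a * u 0 + b * u 1, c * u 0 + d * u 1] :=
  ⟨⟨!![a, b; c, d], by rw [det_fin_two_of, h]⟩, fun u => sle_apply _ u⟩

theorem sle_range (F : Type*) [Field F] : (SpecialLinearGroup.toLin' : SL(2, F) →* GP F).range = Γ F := by
  refine le_antisymm ?_ fun r hr => ?_
  · rintro _ ⟨A, rfl⟩ u v
    have := A.2
    rw [det_fin_two] at this
    simp only [sle_apply, β_apply, cons_val_zero, cons_val_one]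
    linear_combination (u 0 * v 1 - u 1 * v 0) * this
  · have := hr ![1, 0] ![0, 1]
    obtain ⟨A, hA⟩ := sle_ex (a := r ![1, 0] 0) (b := r ![0, 1] 0) (c := r ![1, 0] 1) (d := r ![0, 1] 1) (by
      simp only [β_apply, cons_val_zero, cons_val_one] at this
      linear_combination this)
    refine ⟨A, LinearEquiv.ext fun u => ?_⟩
    have e : u = u 0 • ![1, 0] + u 1 • ![0, 1] := by ext i; fin_cases i <;> simp
    rw [hA]
    conv_rhs => rw [e, map_add, map_smul, map_smul]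
    ext i
    fin_cases i <;> simp [mul_comm]

theorem sl_dich {F : Type*} [Field F] [Fintype F] (hodd : Odd (Fintype.card F)) :
    (∃ (D : QD F) (Q : Subgroup (GP F)), D.MaxQ Q ∧
      ∀ n ∈ Γ F, (∀ s ∈ Q, n * s * n⁻¹ ∈ Q) → n ∈ Q) ∨ ∃ D : QD F, D.Good := by
  have h2 : (2 : F) ≠ 0 := Ring.two_ne_zero fun e => by
    have := FiniteField.even_card_iff_char_two.1 e
    obtain ⟨k, hk⟩ := hodd
    omega
  obtain ⟨a, b, hab⟩ : ∃ a b : F, a ^ 2 + b ^ 2 = -1 := by
    have := Fact.mk (CharP.char_is_prime F (ringChar F))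
    obtain ⟨a, b, h⟩ := CharP.sq_add_sq F (ringChar F) (-1)
    exact ⟨a, b, by simpa using h⟩
  set φ : SL(2, F) →* GP F := SpecialLinearGroup.toLin' with hφ
  have hi : Function.Injective φ := SpecialLinearGroup.toLin'_injective
  have hr : φ.range = Γ F := sle_range F
  obtain ⟨X, hX⟩ := sle_ex (F := F) (a := 0) (b := -1) (c := 1) (d := 0) (by simp)
  obtain ⟨Y, hY⟩ := sle_ex (a := a) (b := b) (c := b) (d := -a) (by linear_combination -hab)
  let D : QD F := ⟨φ X, φ Y, hr ▸ ⟨X, rfl⟩, hr ▸ ⟨Y, rfl⟩,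
    fun u => by ext i; fin_cases i <;> simp [hφ, hX],
    fun u => by
      ext i
      fin_cases i <;> simp [hφ, hY]
      · linear_combination u 0 * hab
      · linear_combination u 1 * hab,
    fun u => by ext i; fin_cases i <;> simp [hφ, hX, hY] <;> ring, h2⟩
  obtain ⟨S, hS⟩ := (D.Q_p2.comap_of_injective φ hi).exists_le_sylow
  have hQ : D.Q ≤ S.map φ := fun s h => by
    obtain ⟨A, rfl⟩ := hr.ge (D.Q_le h)
    exact ⟨A, hS h, rfl⟩
  have hM : D.MaxQ (S.map φ) := ⟨hr ▸ Subgroup.map_le_range _ _, hQ D.x_mem, hQ D.y_mem, S.isPGroup'.map φ,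
    fun R h1 h3 h4 => by
      rw [← S.is_maximal' (h3.comap_of_injective φ hi) (Subgroup.map_le_iff_le_comap.1 h4),
        Subgroup.map_comap_eq_self (hr ▸ h1)]⟩
  by_cases h16 : 16 ∣ Nat.card SL(2, F)
  · refine Or.inl ⟨D, _, hM, fun n hn h => ?_⟩
    obtain ⟨A, rfl⟩ := hr.ge hn
    refine ⟨A, (SL2.normalizer_sylow_two_eq hodd S h16).le (Subgroup.mem_normalizer_fintype fun s hs => ?_), rfl⟩
    have := h _ ⟨s, hs, rfl⟩
    rwa [← map_inv, ← map_mul, ← map_mul, Subgroup.mem_map_iff_mem hi] at this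
  · have e : D.Q = S.map φ := Subgroup.eq_of_le_of_card_ge hQ (by
      rw [Subgroup.card_map_of_injective hi, (SL2.card_normalizer_sylow_two hodd S h16).1, D.card_Q])
    exact Or.inr ⟨D, D.good_of_syl (e ▸ hM.syl)⟩

end CfsgLib.SpPr
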