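import Cfsg.Agent.Lib.SpPr.Defs

/-!
# SPPR package SYL: the Sylow 2-subgroup Q ≀ T of Sp and its normaliser
-/

set_option autoImplicit false
set_option linter.unusedSectionVars false

namespace CfsgLib.SpPr

open Equiv CfsgLib.Pronorm

variable {F : Type*} [Field F] [Finite F] {ι : Type} [Fintype ι] [DecidableEq ι]
  {D : QD F} {T : Subgroup (Perm ι)} {H : Subgroup (GV ι F)}

variable {Q : Subgroup (GP F)}

theorem mon_p2 (hQ : D.MaxQ Q) (hT : IsPGroup 2 T) : IsPGroup 2 (Mon Q T) := by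
  have : Fact (Nat.Prime 2) := ⟨Nat.prime_two⟩
  obtain ⟨a, ha⟩ := hQ.p2.exists_card_eq
  obtain ⟨b, hb⟩ := hT.exists_card_eq
  exact IsPGroup.of_card (n := a * Nat.card ι + b) (by rw [card_Mon, ha, hb, pow_add, pow_mul])

/-- an element conjugating the `blk i x`, `blk i y` into monomial maps is monomial -/
theorem syl_wc (D : QD F) {n : GV ι F} (hn : n ∈ Sp ι F)
    (hx : ∀ i, ∃ r τ, IsMon (n * blk i D.x * n⁻¹) r τ) (hy : ∀ i, ∃ r τ, IsMon (n * blk i D.y * n⁻¹) r τ) :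
    n ∈ Mon (Γ F) ⊤ := by
  refine mem_Mon_of_blocks hn fun i => ?_
  obtain ⟨r, τ, h⟩ := hx i
  obtain ⟨r', τ', h'⟩ := hy i
  have h3 : ∀ (a : GP F) u, (n * blk i a * n⁻¹) (n (Pi.single i u)) = n (Pi.single i (a u)) := fun a u => by
    rw [← LinearEquiv.mul_apply, inv_mul_cancel_right, LinearEquiv.mul_apply, blk_single]
  have h4 : ∀ (a : GP F) v, (n * blk i a * n⁻¹) v - v ∈
      LinearMap.range (n.toLinearMap ∘ₗ LinearMap.single F (fun _ : ι => Pn F) i) := fun a v => by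
    obtain ⟨v, rfl⟩ := n.surjective v
    refine ⟨a (v i) - v i, ?_⟩
    rw [← LinearEquiv.mul_apply, inv_mul_cancel_right, LinearEquiv.mul_apply, ← map_sub, blk_apply,
      add_sub_cancel_left]
    rfl
  obtain ⟨j, hj⟩ := h.exists_block D.two (by simp) (by
    rw [LinearMap.finrank_range_of_inj fun a b e =>
      Pi.single_injective (M := fun _ => Pn F) i (n.injective e)]; simp)
    h' (h4 D.x) (h4 D.y)
    (by rintro _ ⟨u, rfl⟩; simp [h3, D.xx, Pi.single_neg])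
    (by rintro _ ⟨u, rfl⟩; simp [h3, D.yy, Pi.single_neg])
    (by rintro _ ⟨u, rfl⟩; simp [h3, D.xy, Pi.single_neg])
  exact ⟨j, fun u => by
    obtain ⟨u', e⟩ := hj.le ⟨u, rfl⟩
    exact ⟨u', e.symm⟩⟩

theorem mon_norm [Nonempty ι] (hQ : D.MaxQ Q) (hTn : Subgroup.normalizer (T : Set (Perm ι)) ≤ T)
    (hTt : ∀ i j, ∃ τ ∈ T, τ i = j) {n : GV ι F} (hn : n ∈ Sp ι F)
    (h : ∀ s ∈ Mon Q T, n * s * n⁻¹ ∈ Mon Q T) :
    ∃ s ∈ Mon Q T, ∃ r ∈ Γ F, (∀ q ∈ Q, r * q * r⁻¹ ∈ Q) ∧ n = s * dg r := by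
  obtain ⟨ρ, τ, h1, -, hM⟩ := syl_wc D hn
    (fun i => by obtain ⟨r, τ, -, -, e⟩ := h _ (blk_mem_Mon T i hQ.hx); exact ⟨r, τ, e⟩)
    (fun i => by obtain ⟨r, τ, -, -, e⟩ := h _ (blk_mem_Mon T i hQ.hy); exact ⟨r, τ, e⟩)
  have hc := fun t (ht : t ∈ T) => ((hM.mul (isMon_pm t)).mul hM.inv).mem_iff.1 (h _ (pm_mem_Mon Q ht))
  have hτ : τ ∈ T := hTn (Subgroup.mem_normalizer_fintype fun t ht => (hc t ht).2)
  obtain ⟨i0⟩ := ‹Nonempty ι›
  have h2 : ∀ j, ρ j * (ρ i0)⁻¹ ∈ Q := fun j => by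
    obtain ⟨t, ht, rfl⟩ := hTt i0 j
    simpa using (hc t ht).1 (τ i0)
  refine ⟨mon (fun j => ρ j * (ρ i0)⁻¹) τ, ⟨_, τ, h2, hτ, isMon_mon _ _⟩, ρ i0, h1 i0, fun q hq => ?_, ?_⟩
  · have := h _ (blk_mem_Mon T i0 hq)
    rw [conj_blk hM] at this
    simpa using ((isMon_blk _ _).mem_iff.1 this).1 (τ i0)
  · rw [dg, ((isMon_mon (fun j => ρ j * (ρ i0)⁻¹) τ).mul (isMon_base fun _ => ρ i0)).eq_mon, hM.eq_mon]
    simp

theorem mon_syl [Nonempty ι] (hQ : D.MaxQ Q) (hTn : Subgroup.normalizer (T : Set (Perm ι)) ≤ T)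
    (hTt : ∀ i j, ∃ τ ∈ T, τ i = j) :
    ∀ R ≤ Sp ι F, IsPGroup 2 R → Mon Q T ≤ R → R = Mon Q T := by
  intro R hR h2 hle
  have : Fact (Nat.Prime 2) := ⟨Nat.prime_two⟩
  have := h2.isNilpotent
  by_contra hne
  have lt : (Mon Q T).subgroupOf R < ⊤ := lt_top_iff_ne_top.2 fun e =>
    hne (le_antisymm (Subgroup.subgroupOf_eq_top.1 e) hle)
  obtain ⟨n, h3, h4⟩ := SetLike.exists_of_lt (normalizerCondition_of_isNilpotent _ lt)
  obtain ⟨s, hs, r, hr, h5, e⟩ := mon_norm hQ hTn hTt (hR n.2) fun s hs =>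
    (Subgroup.mem_normalizer_iff.1 h3 ⟨s, hle hs⟩).1 hs
  have m : dg r ∈ R := by
    rw [← inv_mul_cancel_left s (dg r), ← e]
    exact mul_mem (inv_mem (hle hs)) n.2
  obtain ⟨k, hk⟩ := h2 ⟨_, m⟩
  obtain ⟨i0⟩ := ‹Nonempty ι›
  have rk : r ^ 2 ^ k = 1 := by
    have e1 : (base ((fun _ : ι => r) ^ 2 ^ k) : GV ι F) = 1 := by
      rw [map_pow]; exact congrArg Subtype.val hk
    exact congrFun ((isMon_base _).unique (e1 ▸ isMon_one)).2 i0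
  have p : IsPGroup 2 (Subgroup.zpowers r) := by
    rintro ⟨_, z, rfl⟩
    refine ⟨k, Subtype.ext ?_⟩
    change (r ^ z) ^ 2 ^ k = 1
    rw [← zpow_natCast, ← zpow_mul, mul_comm, zpow_mul, zpow_natCast, rk, one_zpow]
  have e2 := hQ.syl (Subgroup.zpowers r ⊔ Q) (sup_le (by simpa using hr) hQ.le)
    (p.to_sup_of_normal_right' hQ.p2 (by simpa using Subgroup.mem_normalizer_fintype h5)) le_sup_right
  have rQ : r ∈ Q := e2.le (Subgroup.mem_sup_left (Subgroup.mem_zpowers r))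
  refine h4 ?_
  rw [Subgroup.mem_subgroupOf, e]
  exact mul_mem hs (base_mem_Mon T fun _ => rQ)

end CfsgLib.SpPr
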