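import Cfsg.Agent.Lib.SpPr.HEIS

/-!
# SPPR package TRV: overgroups containing a transvection
-/

set_option autoImplicit false
set_option linter.unusedSectionVars false

namespace CfsgLib.SpPr

open Equiv CfsgLib.Pronorm

variable {F : Type*} [Field F] [Finite F] {ι : Type} [Fintype ι] [DecidableEq ι]
  {D : QD F} {T : Subgroup (Perm ι)} {H : Subgroup (GV ι F)}

/-- the transvection of the plane -/
def trv_pl (a : Pn F) (k : F) : GP F :=
  LinearEquiv.ofLinearMap (LinearMap.id + k • (β.flip a).smulRight a) (LinearMap.id - k • (β.flip a).smulRight a)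
    (LinearMap.ext fun u => by simp) (LinearMap.ext fun u => by simp)

theorem trv_pl_apply (a : Pn F) (k : F) (u : Pn F) : trv_pl a k u = u + (k * β u a) • a := by
  simp [trv_pl, mul_smul]

theorem trv_pl_mem (a : Pn F) (k : F) : trv_pl a k ∈ Γ F := fun u v => by
  simp only [trv_pl_apply, map_add, map_smul, LinearMap.add_apply, LinearMap.smul_apply, β_self, smul_eq_mul,
    β_anti a v]
  ring

theorem Ctx.trv_one (c : Ctx D T H) {t : GV ι F} (ht : t ∈ H) {i : ι} {a : Pn F}
    (h : IsTv t (Pi.single i a)) : blk i D.ω ∈ H := by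
  obtain ⟨h0, k, hk, h⟩ := h
  have e : t = blk i (trv_pl a k) := LinearEquiv.ext fun v => by
    rw [h, blk_apply, trv_pl_apply, B_single_right, add_sub_cancel_left, Pi.single_smul]
  exact (c.good.alpha (H.comap (blk i) ⊓ Γ F) inf_le_right
    (le_inf (fun q hq => c.blk_mem i hq) D.Q_le) (trv_pl a k) ⟨(e ▸ ht : blk i (trv_pl a k) ∈ H), trv_pl_mem a k⟩ a k
    (fun e => h0 (by simp [e])) hk (trv_pl_apply a k)).1

theorem Ctx.trv_step (c : Ctx D T H) {t : GV ι F} (ht : t ∈ H) {i : ι} {a : Pn F} {r : V ι F} (ha : a ≠ 0)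
    (hr : r ≠ 0) (hi : r i = 0) (h : IsTv t (Pi.single i a + r)) :
    ∃ t ∈ H, ∃ e ∈ Submodule.span F {r}, IsTv t e := by
  obtain ⟨-, k, hk, h⟩ := h
  have hz := PI_zi (ι := ι) D.two i
  have zm : zi i ∈ H := c.blk_mem i D.ng_mem_Q
  have zr : zi i r = r := (zi_fix D.two).2 hi
  have ra : B r (Pi.single i a) = 0 := by rw [B_single_right, hi]; simp
  have ar : B (Pi.single i a) r = 0 := by rw [B_anti, ra, neg_zero]
  have ti : ∀ v, t⁻¹ v = v - (k * B v (Pi.single i a + r)) • (Pi.single i a + r) := fun v => by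
    apply t.injective
    rw [← LinearEquiv.mul_apply, mul_inv_cancel, h]
    simp [ra, ar]
  have zB : ∀ v, B (zi i v) (Pi.single i a + r) = B v (r - Pi.single i a) := fun v => by
    rw [← hz.sp, hz.sq, map_add, zi_single, zr]
    congr 1; abel
  have hu : ∀ v : V ι F, (t * (zi i * t⁻¹ * zi i) : GV ι F) v =
      v + (2 * k * B v r) • (Pi.single i a : V ι F) + (2 * k * B v (Pi.single i a)) • r := fun v => by
    rw [LinearEquiv.mul_apply, LinearEquiv.mul_apply, LinearEquiv.mul_apply, ti, map_sub, map_smul, hz.sq, zB,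
      map_add, zi_single, zr, h]
    simp only [map_add, map_sub, map_smul, map_neg, LinearMap.add_apply, LinearMap.sub_apply, LinearMap.smul_apply,
      LinearMap.neg_apply, B_self, ra, ar, smul_eq_mul]
    module
  have sr : ∀ w : Pn F, B (Pi.single i w) r = 0 := fun w => by rw [B_single_left, hi, map_zero]
  refine heis c.le (c.blk_mem i D.x_mem) (c.blk_mem i D.y_mem) (Submodule.span F {r}) (fun s hs => ?_)
    (mul_mem ht (mul_mem (mul_mem zm (inv_mem ht)) zm)) (fun v => ⟨(2 * k * B v r) • a, ?_⟩) (fun w => ?_) ?_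
    fun s hs => ?_
  · obtain ⟨x, rfl⟩ := Submodule.mem_span_singleton.1 hs
    simp [hi]
  · refine Submodule.mem_span_singleton.2 ⟨2 * k * B v (Pi.single i a), ?_⟩
    rw [hu, Pi.single_smul]
    abel
  · refine Submodule.mem_span_singleton.2 ⟨2 * k * B (Pi.single i w) (Pi.single i a), ?_⟩
    rw [hu, sr]
    module
  · obtain ⟨w, hw⟩ : ∃ w, β a w ≠ 0 := by
      by_contra! hh; exact ha (β_nondeg hh)
    refine ⟨w, fun e => ?_⟩
    rw [hu, sr, mul_zero, zero_smul, add_zero, add_eq_left, B_single_left, Pi.single_eq_same, β_anti] at e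
    exact (smul_ne_zero (mul_ne_zero (mul_ne_zero D.two hk) (neg_ne_zero.2 hw)) hr) e
  · obtain ⟨x, rfl⟩ := Submodule.mem_span_singleton.1 hs
    rw [map_smul, hu, B_self, ra]
    simp

theorem Ctx.blk_ω_of_tv (c : Ctx D T H) (h : ¬ NT H) : ∃ i, blk i D.ω ∈ H := by
  classical
  have key : ∀ n : ℕ, ∀ t ∈ H, ∀ e, IsTv t e → (Finset.univ.filter fun i => e i ≠ 0).card = n →
      ∃ i, blk i D.ω ∈ H := by
    intro n
    induction n using Nat.strong_induction_on with
    | _ n ih =>
      intro t ht e he hn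
      obtain ⟨i, hi⟩ : ∃ i, e i ≠ 0 := by
        by_contra! hh; exact he.1 (funext hh)
      have e1 : e = Pi.single i (e i) + (e - Pi.single i (e i)) := by abel
      by_cases hr : e - Pi.single i (e i) = 0
      · rw [hr, add_zero] at e1
        exact ⟨i, c.trv_one ht (e1 ▸ he)⟩
      · obtain ⟨t', ht', e', he', h'⟩ := c.trv_step ht hi hr (by simp) (e1 ▸ he)
        obtain ⟨x, rfl⟩ := Submodule.mem_span_singleton.1 he'
        refine ih _ (hn ▸ Finset.card_lt_card ⟨fun j hj => ?_, fun hh => ?_⟩) t' ht' _ h' rfl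
        · simp only [Finset.mem_filter, Finset.mem_univ, true_and] at hj ⊢
          intro e0
          by_cases hji : j = i
          · subst hji; simp at hj
          · simp [hji, e0] at hj
        · have := hh (Finset.mem_filter.2 ⟨Finset.mem_univ i, hi⟩)
          simp at this
  simp only [NT, not_forall, not_not] at h
  obtain ⟨t, ht, e, he⟩ := h
  exact key _ t ht e he rfl

end CfsgLib.SpPr
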