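import Cfsg.Agent.Lib.SpPr.Defs
import Cfsg.Agent.Lib.SpPr.SLA
import Cfsg.Agent.S0215
import Cfsg.Agent.S0205

/-!
# SPPR package ZG: an involution isolated modulo a central 2-subgroup
-/

set_option autoImplicit false
set_option linter.unusedSectionVars false

namespace CfsgLib.SpPr

open Equiv CfsgLib.Pronorm

theorem zg {L : Type*} [Group L] [Finite L] (C : Subgroup L) (hC : C ≤ Subgroup.center L)
    (hC2 : IsPGroup 2 C) (z I : L) (hz : z * z = 1)
    (hiso : ∀ (g : L) (k : ℕ), (z * (g * z * g⁻¹)) ^ 2 ^ k = 1 → g * z * g⁻¹ * z ∈ C) :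
    (∀ l : L, l * z * l⁻¹ * z ∈ C) ∨ ∃ (x u u' c : L) (r : ℕ), u = x * z * x⁻¹ * z ∧
      u' = I * u * I⁻¹ ∧ c = u * u' * u⁻¹ * u'⁻¹ ∧ u ∉ C ∧ Odd r ∧ u ^ r ∈ C ∧ c ^ r = 1 ∧
      Commute c u ∧ Commute c u' ∧ Commute c z := by
  by_cases hzC : z ∈ C
  · left
    intro l
    rw [Subgroup.mem_center_iff.1 (hC hzC) l, mul_inv_cancel_right, hz]
    exact one_mem _
  have hCn : C.Normal := ⟨fun n hn g => by
    rw [Subgroup.mem_center_iff.1 (hC hn) g]; simpa using hn⟩
  let f := QuotientGroup.mk' C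
  have hf : Function.Surjective f := QuotientGroup.mk'_surjective C
  have hk : IsPGroup 2 f.ker := by rw [QuotientGroup.ker_mk']; exact hC2
  have hf1 : ∀ g, f g = 1 ↔ g ∈ C := fun g => QuotientGroup.eq_one_iff g
  have hzi : z⁻¹ = z := inv_eq_of_mul_eq_one_right hz
  have hfz : f z * f z = 1 := by rw [← map_mul, hz, map_one]
  have hfi : (f z)⁻¹ = f z := inv_eq_of_mul_eq_one_right hfz
  have hz2 : IsPGroup 2 (Subgroup.zpowers z) := IsPGroup.of_card (n := 1) (by
    rw [Nat.card_zpowers, pow_one]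
    exact orderOf_eq_prime (by rw [pow_two, hz]) fun h => hzC (h ▸ one_mem _))
  obtain ⟨P, hP⟩ := hz2.exists_le_sylow
  have hzP : z ∈ P := hP (Subgroup.mem_zpowers z)
  obtain ⟨N, hNn, hNo, hN⟩ := Cfsg.Agent.S0215.result (P.mapSurjective hf) (f z)
    (orderOf_eq_prime (by rw [pow_two, hfz]) fun h => hzC ((hf1 z).1 h))
    (Subgroup.mem_map_of_mem f hzP) (fun g hg => by
      obtain ⟨g, rfl⟩ := hf g
      rw [← map_inv, ← map_mul, ← map_mul] at hg ⊢
      obtain ⟨k, hk'⟩ := P.isPGroup' ⟨_, mul_mem hzP (mem_sylow_of_map f hf hk P hg)⟩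
      have h1 := (hf1 _).2 (hiso g k (congrArg Subtype.val hk'))
      rw [map_mul] at h1
      rw [eq_inv_of_mul_eq_one_left h1, hfi])
  have hpow : ∀ y ∈ N, y ^ Nat.card N = 1 := fun y hy =>
    congrArg Subtype.val (pow_card_eq_one' (x := (⟨y, hy⟩ : N)))
  by_cases hcen : f z ∈ Subgroup.centralizer (N : Set (L ⧸ C))
  · left
    intro l
    have h1 := hN (f l)
    have h2 := hcen _ h1
    rw [hfi] at h1 h2
    set n := f z * f l * f z * (f l)⁻¹ with hn
    have h3 : f z * n * (f z * n) = 1 := by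
      rw [hn, show f z * (f z * f l * f z * (f l)⁻¹) * (f z * (f z * f l * f z * (f l)⁻¹)) =
        (f z * f z) * f l * f z * (f l)⁻¹ * (f z * f z) * f l * f z * (f l)⁻¹ by group, hfz]
      rw [show 1 * f l * f z * (f l)⁻¹ * 1 * f l * f z * (f l)⁻¹ = f l * (f z * f z) * (f l)⁻¹ by group,
        hfz]
      group
    have h4 : n ^ 2 = 1 := by
      rw [show f z * n * (f z * n) = f z * (n * f z) * n by group, h2,
        show f z * (f z * n) * n = (f z * f z) * n ^ 2 by rw [pow_two]; group, hfz, one_mul] at h3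
      exact h3
    have h5 : n = 1 := orderOf_eq_one_iff.1 (Nat.eq_one_of_dvd_coprimes
      (Nat.coprime_two_left.2 hNo) (orderOf_dvd_of_pow_eq_one h4)
      (orderOf_dvd_of_pow_eq_one (hpow n h1)))
    rw [← hf1, map_mul, map_mul, map_mul, map_inv,
      show f l * f z * (f l)⁻¹ * f z = (f z)⁻¹ * n * f z by rw [hn]; group, h5]
    group
  right
  obtain ⟨M, hMn, hMN, hM, hMM⟩ := exists_layer N hNo
    (fun M => f z ∈ Subgroup.centralizer (M : Set (L ⧸ C))) hcen (by
      intro y hy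
      rw [Subgroup.mem_bot.1 hy]; simp)
  have hM' : ∃ x ∈ M, x * f z ≠ f z * x := by
    by_contra! hh
    exact hM hh
  obtain ⟨x, hx, hxz⟩ := hM'
  obtain ⟨x, rfl⟩ := hf x
  have hDn : (Subgroup.centralizer ((⁅M, M⁆ : Subgroup (L ⧸ C)) : Set (L ⧸ C))).Normal :=
    inferInstance
  set D := Subgroup.centralizer ((⁅M, M⁆ : Subgroup (L ⧸ C)) : Set (L ⧸ C))
  set u := x * z * x⁻¹ * z with hu
  set u' := I * u * I⁻¹ with hu'
  set c := u * u' * u⁻¹ * u'⁻¹ with hc
  have hfu : f u = f x * f z * (f x)⁻¹ * f z := by rw [hu, map_mul, map_mul, map_mul, map_inv]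
  have hfu' : f u' = f I * f u * (f I)⁻¹ := by rw [hu', map_mul, map_mul, map_inv]
  have huM : f u ∈ M := by
    rw [hfu, show f x * f z * (f x)⁻¹ * f z = f x * (f z * (f x)⁻¹ * (f z)⁻¹) by rw [hfi]; group]
    exact mul_mem hx (hMn.conj_mem _ (inv_mem hx) _)
  have huD : f u ∈ D := hfu ▸ mul_mem (hDn.conj_mem _ hMM _) hMM
  have hu'M : f u' ∈ M := hfu' ▸ hMn.conj_mem _ huM _
  have hu'D : f u' ∈ D := hfu' ▸ hDn.conj_mem _ huD _
  have hcM : f c ∈ ⁅M, M⁆ := by
    rw [hc, map_mul, map_mul, map_mul, map_inv, map_inv]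
    exact Subgroup.commutator_mem_commutator huM hu'M
  have hcN : f c ∈ N := hMN (Subgroup.commutator_le_left M M hcM)
  have hcr : c ^ Nat.card N ∈ C := by rw [← hf1, map_pow]; exact hpow _ hcN
  have hur : u ^ Nat.card N ∈ C := by rw [← hf1, map_pow]; exact hpow _ (hMN huM)
  have key : ∀ g, f g ∈ D → Commute c g := fun g hg =>
    (commute_of_odd_pow hC hC2 hNo hcr (by
      rw [← hf1, map_mul, map_mul, map_mul, map_inv, map_inv, ← hg _ hcM]; group)).symm
  refine ⟨x, u, u', c, Nat.card N, hu, hu', hc, fun h => hxz ?_, hNo, hur, ?_, key _ huD,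
    key _ hu'D, key _ hMM⟩
  · have := (hf1 _).2 h
    rw [hfu] at this
    rw [← mul_inv_eq_iff_eq_mul, eq_inv_of_mul_eq_one_left this, hfi]
  · have h1 : ∀ k : ℕ, u ^ k * u' * (u ^ k)⁻¹ = c ^ k * u' := by
      intro k
      induction k with
      | zero => simp
      | succ k ih =>
        rw [pow_succ' u, show u * u ^ k * u' * (u * u ^ k)⁻¹ = u * (u ^ k * u' * (u ^ k)⁻¹) * u⁻¹ by
          group, ih, ← mul_assoc, ← ((key _ huD).pow_left k).eq, pow_succ, hc]
        group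
    have h2 := h1 (Nat.card N)
    rw [← Subgroup.mem_center_iff.1 (hC hur) u', mul_inv_cancel_right] at h2
    exact mul_eq_right.1 h2.symm

end CfsgLib.SpPr
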