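import Cfsg.Agent.Lib.SpPr.ZA
import Cfsg.Agent.Lib.SpPr.ZG

/-!
# SPPR package ZST: case I, the group is monomial
-/

set_option autoImplicit false
set_option linter.unusedSectionVars false

namespace CfsgLib.SpPr

open Equiv CfsgLib.Pronorm

variable {F : Type*} [Field F] [Finite F] {ι : Type} [Fintype ι] [DecidableEq ι]
  {D : QD F} {T : Subgroup (Perm ι)} {H : Subgroup (GV ι F)}

/-- the elements of `H` acting trivially on `V / E` -/
def zstL (H : Subgroup (GV ι F)) (E : Submodule F (V ι F)) : Subgroup (GV ι F) where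
  carrier := {l | l ∈ H ∧ ∀ v, l v - v ∈ E}
  one_mem' := ⟨one_mem _, fun v => by simp⟩
  mul_mem' {a b} ha hb := ⟨mul_mem ha.1 hb.1, fun v => by simpa using add_mem (ha.2 (b v)) (hb.2 v)⟩
  inv_mem' {a} ha := ⟨inv_mem ha.1, fun v => by simpa using neg_mem (ha.2 (a⁻¹ v))⟩

/-- the elements acting on `E` as `±1` -/
def zstC (E : Submodule F (V ι F)) : Subgroup (GV ι F) where
  carrier := {l | ∃ ε : F, (ε = 1 ∨ ε = -1) ∧ ∀ v ∈ E, l v = ε • v}
  one_mem' := ⟨1, Or.inl rfl, fun v _ => by simp⟩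
  mul_mem' := by
    rintro a b ⟨ε, h1, h2⟩ ⟨δ, h3, h4⟩
    refine ⟨ε * δ, ?_, fun v hv => by rw [LinearEquiv.mul_apply, h4 v hv, map_smul, h2 v hv, mul_comm, mul_smul]⟩
    rcases h1 with rfl | rfl <;> rcases h3 with rfl | rfl <;> simp
  inv_mem' := by
    rintro a ⟨ε, h1, h2⟩
    refine ⟨ε, h1, fun v hv => a.injective ?_⟩
    rw [map_smul, h2 v hv, smul_smul, mul_self_eq_one_iff.2 h1]
    simp

theorem zstL_mem {E : Submodule F (V ι F)} {l : GV ι F} (hl : l ∈ zstL H E) {v : V ι F} (hv : v ∈ E) : l v ∈ E := by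
  simpa using add_mem (hl.2 v) hv

theorem zstL_ext (hH : H ≤ Sp ι F) {E : Submodule F (V ι F)} (hE : ∀ v ∈ E, (∀ w ∈ E, B v w = 0) → v = 0)
    {l l' : GV ι F} (hl : l ∈ zstL H E) (hl' : l' ∈ zstL H E) (h : ∀ v ∈ E, l v = l' v) : l = l' := by
  have hk := mul_mem (inv_mem hl') hl
  refine (inv_mul_eq_one.1 (LinearEquiv.ext fun v => sub_eq_zero.1 (hE _ (hk.2 v) fun w hw => ?_))).symm
  have := hH hk.1 v w
  rw [show (l'⁻¹ * l) w = w by simp [h w hw]] at this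
  rw [map_sub, LinearMap.sub_apply, this]
  simp

theorem zst_rank {a b : GV ι F} (ha : PI a) (hb : PI b) (h : Ng a ⊓ Ng b = ⊥) :
    Module.finrank F (Ng a ⊔ Ng b : Submodule F (V ι F)) = 4 := by
  have := Submodule.finrank_sup_add_finrank_inf_eq (Ng a) (Ng b)
  rwa [h, finrank_bot, ha.rk, hb.rk] at this

theorem zst_orth (h2 : (2 : F) ≠ 0) {z a : GV ι F} (hz : PI z) (ha : PI a) {E : Submodule F (V ι F)}
    (hE : Module.finrank F E = 4) (h1 : Ng z ≤ E) (h3 : Ng a ≤ E) (h : Orth z a) : a * z ∈ zstC E := by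
  have e : Ng z ⊔ Ng a = E := Submodule.eq_of_le_of_finrank_eq (sup_le h1 h3) (by
    rw [hE, zst_rank hz ha (eq_bot_iff.2 fun v hv => eq_zero_of_eq_neg h2 ((h v hv.1).symm.trans hv.2))])
  refine ⟨-1, Or.inr rfl, fun v hv => ?_⟩
  obtain ⟨p, hp, q, hq, rfl⟩ := Submodule.mem_sup.1 (e.ge hv)
  rw [LinearEquiv.mul_apply, map_add, mem_Ng.1 hp, h.symm h2 hz ha q hq, map_add, map_neg, h p hp, mem_Ng.1 hq]
  module

theorem Ctx.eq_or_orth (c : Ctx D T H) (hn : NT H) (hI : Iso H) {i : ι} {b : GV ι F}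
    (hb : Pl H b) : b = zi i ∨ Orth (zi i) b := by
  by_contra! hh
  obtain ⟨hne, ho⟩ := hh
  have hz : Pl H (zi i) := Pl_zi H i
  have pz := hz.PI D.two c.le
  have pb := hb.PI D.two c.le
  obtain ⟨d1, d2⟩ := c.deg hn hz hb hne.symm
  have d3 := zst_rank pz pb d1
  set E : Submodule F (V ι F) := Ng (zi i) ⊔ Ng b with hE
  have zL : zi i ∈ zstL H E := ⟨hz.mem c, fun v => by simpa using neg_mem (Submodule.mem_sup_left (pz.sub_mem v))⟩
  have bL : b ∈ zstL H E := ⟨hb.mem c, fun v => by simpa using neg_mem (Submodule.mem_sup_right (pb.sub_mem v))⟩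
  have IL : blk i D.x ∈ zstL H E := ⟨c.blk_mem i D.x_mem, fun v => by
    rw [blk_apply, add_sub_cancel_left]
    exact Submodule.mem_sup_left (zi_single i _)⟩
  have sq : ∀ l ∈ zstL H E, l ∈ zstC E → l * l = 1 := by
    rintro l hl ⟨ε, h1, h2⟩
    refine zstL_ext c.le d2 (mul_mem hl hl) (one_mem _) fun v hv => ?_
    rw [LinearEquiv.mul_apply, h2 v hv, map_smul, h2 v hv, smul_smul, mul_self_eq_one_iff.2 h1]
    simp
  have cj : ∀ g ∈ zstL H E, Ng (g * zi i * g⁻¹) ≤ E := fun g hg => by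
    rw [Ng_conj]
    rintro _ ⟨v, hv, rfl⟩
    exact zstL_mem hg (Submodule.mem_sup_left hv)
  have lo : ∀ g ∈ zstL H E, g * zi i * g⁻¹ = zi i ∨ Orth (zi i) (g * zi i * g⁻¹) → g * zi i * g⁻¹ * zi i ∈ zstC E :=
    fun g hg h => h.elim (fun e => by rw [e, pz.mul_self]; exact one_mem _)
      (zst_orth D.two pz (pz.conj (c.le hg.1)) d3 le_sup_left (cj g hg))
  rcases zg ((zstC E).subgroupOf (zstL H E)) (by
      rintro l ⟨ε, -, h2⟩
      refine Subgroup.mem_center_iff.2 fun g => Subtype.ext (zstL_ext c.le d2 (g * l).2 (l * g).2 fun v hv => ?_)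
      change g.1 (l.1 v) = l.1 (g.1 v)
      rw [show l.1 v = ε • v from h2 v hv, show l.1 (g.1 v) = ε • g.1 v from h2 _ (zstL_mem g.2 hv), map_smul])
    (fun l => ⟨1, Subtype.ext (Subtype.ext (by simpa [pow_two] using sq l.1.1 l.1.2 l.2))⟩)
    ⟨zi i, zL⟩ ⟨blk i D.x, IL⟩ (Subtype.ext pz.mul_self)
    (fun g k h => lo g g.2 ((hI _ _ hz (hz.conj g.2.1) k (congrArg Subtype.val h)).imp Eq.symm id)) with
    h | ⟨x, u, u', d, r, e1, e2, e3, h1, h2, ⟨ε, h3, h4⟩, h5, c1, c2, c3⟩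
  · have h1 := sq _ (mul_mem (mul_mem (mul_mem bL zL) (inv_mem bL)) zL) (h ⟨b, bL⟩)
    rw [pb.inv] at h1
    rcases hI b (zi i) hb hz 2 (by rw [← h1, show 2 ^ 2 = 4 from rfl]; simp only [pow_succ, pow_zero, one_mul, mul_assoc]) with e | e
    exacts [hne e, ho (e.symm D.two pb pz)]
  · have h6 : ¬ (x.1 * zi i * x.1⁻¹ = zi i ∨ Orth (zi i) (x.1 * zi i * x.1⁻¹)) := fun e => h1 (e1 ▸ lo x x.2 e)
    exact c.za hn hI (hz.conj x.2.1) (fun e => h6 (Or.inl e)) (fun e => h6 (Or.inr e)) (congrArg Subtype.val e1)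
      (congrArg Subtype.val e2) (congrArg Subtype.val e3) h2 h3 (fun v hv => h4 v (sup_le le_sup_left (cj x x.2) hv))
      (congrArg Subtype.val h5) (congrArg Subtype.val c1) (congrArg Subtype.val c2) (congrArg Subtype.val c3)

theorem Ctx.le_Mon (c : Ctx D T H) (hn : NT H) (hI : Iso H) : H ≤ Mon (Γ F) ⊤ := by
  refine fun h hh => mem_Mon_of_blocks (c.le hh) fun i => ?_
  have hb := (Pl_zi H i).conj hh
  obtain ⟨j, hj⟩ : ∃ j, h * zi i * h⁻¹ = zi j := by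
    by_contra! hne
    obtain ⟨v, h0, hv⟩ := (hb.PI D.two c.le).exists_ne
    refine h0 (eq_zero_of_eq_neg D.two (Eq.trans ?_ hv))
    conv_rhs => rw [← Finset.univ_sum_single v, map_sum]
    rw [Finset.sum_congr rfl fun j _ => (c.eq_or_orth hn hI hb).resolve_left (hne j) _ (zi_single j (v j)),
      Finset.univ_sum_single]
  refine ⟨j, fun u => ⟨_, (mem_Ng_zi D.two).1 ?_⟩⟩
  rw [← hj]
  simp [zi_single]

end CfsgLib.SpPr
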