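import Cfsg.Agent.Lib.SpPr.GEN
import Cfsg.Agent.Lib.SpPr.SLE
import Cfsg.Agent.Lib.SpPr.SYL
import Cfsg.Agent.Lib.SpPr.TRV
import Cfsg.Agent.Lib.SpPr.NORM
import Cfsg.Agent.Lib.SpPr.ZST
import Cfsg.Agent.Lib.SpPr.FUS1
import Cfsg.Agent.Lib.SpPr.FUS2
import Cfsg.Agent.Lib.SpPr.MONO
import Cfsg.Agent.Lib.SpPr.BR
import Cfsg.Agent.Lib.SymSyl.Two
import Cfsg.Agent.Lib.Syl2EA.Perm
import Cfsg.Agent.Lib.Symp.Basic

/-!
# Subgroups of odd index in products of groups `PSp_{2·2^k}(q)`, `q` odd, are pronormal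
-/

set_option autoImplicit false
set_option linter.unusedSectionVars false

namespace CfsgLib.SpPr

open Equiv CfsgLib.Pronorm

variable {F : Type*} [Field F] [Finite F] {ι : Type} [Fintype ι] [DecidableEq ι]
  {D : QD F} {T : Subgroup (Perm ι)} {H : Subgroup (GV ι F)}

theorem Ctx.main (c : Ctx D T H) : dg D.ω ∈ Subgroup.normalizer (H : Set (GV ι F)) ∨
    dg D.ω ∈ H ⊔ H.map (MulAut.conj (dg D.ω : GV ι F)).toMonoidHom := by
  by_cases hn : NT H
  · by_cases h : ∀ a, Pl H a → a ∈ Mon D.Q T → ∃ j, a = zi j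
    · exact c.mono_case (c.le_Mon hn (c.iso h))
    · push Not at h
      obtain ⟨σ, h1, h2, h3⟩ := h
      obtain ⟨a, b, hab, hT, hp⟩ := c.exists_swap h1 h2 h3
      exact Or.inr (Subgroup.mem_sup_left
        (c.dg_of_blk2 hab (c.blk2_of_rho hab hT (c.rho_mem hab hp))))
  · obtain ⟨i, hi⟩ := c.blk_ω_of_tv hn
    exact Or.inr (Subgroup.mem_sup_left (c.dg_of_blk hi))

/-- the property `PP` for a subgroup -/
theorem pp_of_subgroup {G : Type*} [Group G] {M S : Subgroup G} (hS : S ≤ M) (h2 : IsPGroup 2 S)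
    (hs : ∀ R ≤ M, IsPGroup 2 R → S ≤ R → R = S) {g : G} (hg : g ∈ M)
    (hn : ∀ n ∈ M, (∀ s ∈ S, n * s * n⁻¹ ∈ S) → n ∈ S ∨ n * g ∈ S ∨ n * g⁻¹ ∈ S)
    (h : ∀ H ≤ M, S ≤ H → g ∈ Subgroup.normalizer (H : Set G) ∨
      g ∈ H ⊔ H.map (MulAut.conj g).toMonoidHom) : PP M := by
  have hm : (S.subgroupOf M).map M.subtype = S := Subgroup.map_subgroupOf_eq_of_le hS
  refine ⟨⟨S.subgroupOf M, h2.comap_subtype, fun {R} hR hle => ?_⟩, ⟨g, hg⟩, fun n hn' => ?_,
    fun K hK => ?_⟩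
  · refine Subgroup.map_injective M.subtype_injective ?_
    rw [hm]
    exact hs _ (Subgroup.map_subtype_le _) (hR.map _) (hm ▸ Subgroup.map_mono hle)
  · exact hn n n.2 fun s h => (Subgroup.mem_normalizer_iff.1 hn' ⟨s, hS h⟩).1 h
  · rcases h (K.map M.subtype) (Subgroup.map_subtype_le _) (hm ▸ Subgroup.map_mono hK) with h | h
    · refine Or.inl (Subgroup.mem_normalizer_iff.2 fun k => ?_)
      have := Subgroup.mem_normalizer_iff.1 h k
      rwa [show g * k * g⁻¹ = M.subtype (⟨g, hg⟩ * k * ⟨g, hg⟩⁻¹) from rfl,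
        show (k : G) = M.subtype k from rfl, Subgroup.mem_map_iff_mem M.subtype_injective,
        Subgroup.mem_map_iff_mem M.subtype_injective] at this
    · refine Or.inr ((Subgroup.mem_map_iff_mem M.subtype_injective).1 ?_)
      rw [Subgroup.map_sup, Subgroup.map_map]
      rw [Subgroup.map_map] at h
      exact h

theorem dg_mem_Sp {r : GP F} (hr : r ∈ Γ F) : (dg r : GV ι F) ∈ Sp ι F :=
  Mon_le_Sp le_rfl ⊤ (base_mem_Mon ⊤ fun _ => hr)

theorem pp_Sp {F : Type*} [Field F] [Fintype F] (hodd : Odd (Fintype.card F)) {k : ℕ}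
    (hι : Nat.card ι = 2 ^ k) : PP (Sp ι F) := by
  have : Nonempty ι := (Nat.card_pos_iff.1 (by rw [hι]; positivity)).1
  obtain ⟨T⟩ : Nonempty (Sylow 2 (Perm ι)) := inferInstance
  have hTn := CfsgLib.SymSyl.normalizer_le T
  have hTt := CfsgLib.Syl2EA.sylow_transitive hι T
  rcases sl_dich hodd with ⟨D, Q, hQ, hN⟩ | ⟨D, hD⟩
  · refine pp_of_subgroup (Mon_le_Sp hQ.le T) (mon_p2 hQ T.isPGroup') (mon_syl hQ hTn hTt)
      (one_mem _) (fun n hn h => Or.inl ?_) fun H _ _ => Or.inl (one_mem _)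
    obtain ⟨s, hs, r, hr, h1, rfl⟩ := mon_norm hQ hTn hTt hn h
    exact mul_mem hs (base_mem_Mon _ fun _ => hN r hr h1)
  · have hQ := hD.maxQ
    refine pp_of_subgroup (Mon_le_Sp hQ.le T) (mon_p2 hQ T.isPGroup') (mon_syl hQ hTn hTt)
      (dg_mem_Sp D.ω_mem) (fun n hn h => ?_) fun H h1 h2 =>
      Ctx.main ⟨hD, T.isPGroup', hTt, h1, h2, mon_syl hQ hTn hTt, mon_p2 hQ T.isPGroup'⟩
    obtain ⟨s, hs, r, hr, h1, rfl⟩ := mon_norm hQ hTn hTt hn h
    simp only [dg, mul_assoc, ← map_inv, ← map_mul]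
    exact (hD.nrm r hr h1).imp (fun h => mul_mem hs (base_mem_Mon _ fun _ => h))
      (Or.imp (fun h => mul_mem hs (base_mem_Mon _ fun _ => h))
        fun h => mul_mem hs (base_mem_Mon _ fun _ => h))

theorem pp_PSp {F : Type*} [Field F] [Fintype F] (hodd : Odd (Fintype.card F)) {m k : ℕ}
    (hm : m = 2 ^ k) : PP (Cfsg.PSp m F) := by
  obtain ⟨e⟩ := nonempty_equiv_Sp m F
  have h := (pp_Sp (ι := Fin m) hodd (k := k) (by simp [hm])).of_surj e.toMonoidHom e.surjective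
    (by rw [(MonoidHom.ker_eq_bot_iff _).2 e.injective]; exact IsPGroup.of_bot)
  refine h.of_surj (QuotientGroup.mk' _) (QuotientGroup.mk'_surjective _) ?_
  rw [QuotientGroup.ker_mk']
  refine IsPGroup.of_card (n := 1) (CfsgLib.Symp.card_center_of_two_ne_zero
    (by rw [hm]; exact Nat.one_le_two_pow) fun h2 => ?_)
  have := FiniteField.even_card_of_char_two (CharP.ringChar_of_prime_eq_zero Nat.prime_two h2)
  rw [Nat.odd_iff] at hodd
  omega

theorem main {t : ℕ}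
    (m : Fin t → ℕ) (F : Fin t → Type*) [∀ i, Field (F i)] [∀ i, Fintype (F i)]
    (hm : ∀ i, ∃ k : ℕ, m i = 2 ^ k) (hodd : ∀ i, Odd (Fintype.card (F i)))
    (H : Subgroup (Π i, Cfsg.PSp (m i) (F i))) (hH : Odd H.index) : Cfsg.IsPronormal H :=
  isPronormal_of_odd (sylPron_pi fun i => pp_PSp (hodd i) (hm i).choose_spec) hH

end CfsgLib.SpPr
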