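import Cfsg.Agent.Lib.SpPr.Defs
import Cfsg.Agent.Lib.LAE.Sylow

/-!
# SPPR package SLB: the quaternion group and its normaliser in SL₂
-/

set_option autoImplicit false
set_option linter.unusedSectionVars false

namespace CfsgLib.SpPr

open Equiv CfsgLib.Pronorm

variable {F : Type*} [Field F]

theorem slb_zero (h2 : (2 : F) ≠ 0) {v : Pn F} (h : v = -v) : v = 0 := by
  rw [← add_eq_zero_iff_eq_neg, ← two_smul F] at h
  exact (smul_eq_zero.1 h).resolve_left h2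

theorem slb_ng_ne (h2 : (2 : F) ≠ 0) : (ng : GP F) ≠ 1 := fun e => by
  have := slb_zero h2 (v := ![1, 0]) (DFunLike.congr_fun e ![1, 0]).symm
  simpa using congrFun this 0

/-- an element of `SL₂` of square `1` is `±1` -/
theorem eq_of_sq_eq_one (h2 : (2 : F) ≠ 0) {r : GP F} (hr : r ∈ Γ F) (h : r * r = 1) :
    r = 1 ∨ r = ng := by
  have rr : ∀ u, r (r u) = u := fun u => DFunLike.congr_fun h u
  refine or_iff_not_imp_left.2 fun h1 => LinearEquiv.ext fun v => ?_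
  obtain ⟨u, hu⟩ : ∃ u, r u - u ≠ 0 := by
    by_contra! e
    exact h1 (LinearEquiv.ext fun u => sub_eq_zero.1 (e u))
  have e1 : r (r u - u) = -(r u - u) := by rw [map_sub, rr, neg_sub]
  have e2 : r (r v + v) = r v + v := by rw [map_add, rr, add_comm]
  have e3 := hr (r u - u) (r v + v)
  rw [e1, e2, map_neg, LinearMap.neg_apply, neg_eq_iff_add_eq_zero, ← two_mul] at e3
  obtain ⟨c, hc⟩ := β_eq_zero hu ((mul_eq_zero.1 e3).resolve_left h2)
  have e4 : r v + v = -(r v + v) := by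
    conv_lhs => rw [← e2, hc, map_smul, e1, smul_neg, ← hc]
  exact eq_neg_of_add_eq_zero_left (slb_zero h2 e4)

/-- equality up to sign -/
def Pm (a b : GP F) : Prop := a = b ∨ a = ng * b

theorem slb_ng_ng (a : GP F) : ng * (ng * a) = a := by rw [← mul_assoc, ng_mul_ng, one_mul]

theorem slb_mul_ng (a b : GP F) : a * (ng * b) = ng * (a * b) := by
  rw [← mul_assoc, ← ng_comm, mul_assoc]

theorem Pm.rfl {a : GP F} : Pm a a := Or.inl (Eq.refl a)

theorem Pm.ng {a b : GP F} (h : Pm a b) : Pm (ng * a) b := by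
  rcases h with rfl | rfl
  exacts [Or.inr (Eq.refl _), Or.inl (slb_ng_ng _)]

theorem Pm.symm {a b : GP F} (h : Pm a b) : Pm b a := by
  rcases h with rfl | rfl
  exacts [Pm.rfl, Or.inr (slb_ng_ng _).symm]

theorem Pm.trans {a b c : GP F} (h : Pm a b) (h' : Pm b c) : Pm a c := by
  rcases h with rfl | rfl
  exacts [h', h'.ng]

theorem Pm.mul_left {a b : GP F} (h : Pm a b) (c : GP F) : Pm (c * a) (c * b) := by
  rcases h with rfl | rfl
  exacts [Pm.rfl, Or.inr (slb_mul_ng _ _)]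

theorem Pm.mul_right {a b : GP F} (h : Pm a b) (c : GP F) : Pm (a * c) (b * c) := by
  rcases h with rfl | rfl
  exacts [Pm.rfl, Or.inr (mul_assoc _ _ _)]

theorem Pm.conj {a b : GP F} (h : Pm a b) (c : GP F) : Pm (c * a * c⁻¹) (c * b * c⁻¹) :=
  (h.mul_left c).mul_right _

theorem Pm.sq {a b : GP F} (h : Pm a b) : a * a = b * b := by
  rcases h with rfl | rfl
  exacts [Eq.refl _, by rw [slb_mul_ng, mul_assoc, slb_ng_ng]]

theorem Pm.apply {r t : GP F} (h : Pm (r * t * r⁻¹) t) :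
    (∀ u, r (t u) = t (r u)) ∨ ∀ u, r (t u) = -t (r u) :=
  h.imp (fun e => DFunLike.congr_fun (mul_inv_eq_iff_eq_mul.1 e))
    fun e => DFunLike.congr_fun (mul_inv_eq_iff_eq_mul.1 e)

namespace QD

variable (D : QD F)

theorem y_mul_x : D.y * D.x = ng * (D.x * D.y) := LinearEquiv.ext D.yx

theorem xy_ne : D.x * D.y ≠ D.y * D.x := fun e => slb_ng_ne D.two (by
  rw [y_mul_x] at e
  exact mul_eq_right.1 e.symm)

theorem mem_Q {s : GP F} : s ∈ D.Q ↔ ∃ t, (t = 1 ∨ t = D.x ∨ t = D.y ∨ t = D.x * D.y) ∧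
    (s = t ∨ s = ng * t) := by
  constructor
  · intro hs
    change ∃ t, _ ∧ Pm s t
    have key : ∀ g ∈ ({D.x, D.y} : Set (GP F)), ∀ s, (∃ t, (t = 1 ∨ t = D.x ∨ t = D.y ∨
        t = D.x * D.y) ∧ Pm s t) → ∃ t, (t = 1 ∨ t = D.x ∨ t = D.y ∨ t = D.x * D.y) ∧
          Pm (g * s) t := by
      rintro g hg s ⟨t, h1, h2⟩
      suffices ∃ t', (t' = 1 ∨ t' = D.x ∨ t' = D.y ∨ t' = D.x * D.y) ∧ Pm (g * t) t' from
        this.imp fun t' h => ⟨h.1, (h2.mul_left g).trans h.2⟩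
      rcases hg with rfl | rfl <;> rcases h1 with rfl | rfl | rfl | rfl
      exacts [⟨D.x, by simp, Or.inl (mul_one _)⟩, ⟨1, by simp, Or.inr D.x_mul_x⟩,
        ⟨_, by simp, Pm.rfl⟩, ⟨D.y, by simp, Or.inr (by rw [← mul_assoc, x_mul_x])⟩,
        ⟨D.y, by simp, Or.inl (mul_one _)⟩, ⟨_, by simp, Or.inr D.y_mul_x⟩,
        ⟨1, by simp, Or.inr D.y_mul_y⟩,
        ⟨D.x, by simp, Or.inl (LinearEquiv.ext fun u => by simp [D.yx, D.yy])⟩]
    induction hs using Subgroup.closure_induction_left with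
    | one => exact ⟨1, by simp, Pm.rfl⟩
    | mul_left g hg s _ ih => exact key g hg s ih
    | inv_mul_cancel g hg s _ ih =>
      obtain ⟨t, h1, h2⟩ := key g hg s ih
      have : g⁻¹ = ng * g := inv_eq_of_mul_eq_one_right (by
        rcases hg with rfl | rfl
        · rw [slb_mul_ng, x_mul_x, ng_mul_ng]
        · rw [slb_mul_ng, y_mul_y, ng_mul_ng])
      exact ⟨t, h1, by rw [this, mul_assoc]; exact h2.ng⟩
  · rintro ⟨t, h1, h2⟩
    have : t ∈ D.Q := by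
      rcases h1 with rfl | rfl | rfl | rfl
      exacts [one_mem _, D.x_mem, D.y_mem, mul_mem D.x_mem D.y_mem]
    rcases h2 with rfl | rfl
    exacts [this, mul_mem D.ng_mem_Q this]

theorem card_Q : Nat.card D.Q = 8 := by
  have hx := D.x_mem
  have hy := D.y_mem
  have hn := D.ng_mem_Q
  let f : Fin 8 → D.Q := ![1, ⟨_, hx⟩, ⟨_, hy⟩, ⟨_, mul_mem hx hy⟩, ⟨_, mul_mem hn (one_mem _)⟩,
    ⟨_, mul_mem hn hx⟩, ⟨_, mul_mem hn hy⟩, ⟨_, mul_mem hn (mul_mem hx hy)⟩]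
  have hf : Function.Surjective f := fun ⟨s, hs⟩ => by
    obtain ⟨t, rfl | rfl | rfl | rfl, rfl | rfl⟩ := D.mem_Q.1 hs
    exacts [⟨0, rfl⟩, ⟨4, rfl⟩, ⟨1, rfl⟩, ⟨5, rfl⟩, ⟨2, rfl⟩, ⟨6, rfl⟩, ⟨3, rfl⟩, ⟨7, rfl⟩]
  have := Finite.of_surjective f hf
  have h8 : Nat.card D.Q ≤ 8 := by simpa using Nat.card_le_card_of_surjective f hf
  have h4 : Nat.card (Subgroup.zpowers D.x) = 4 := by
    have := Fact.mk Nat.prime_two
    rw [Nat.card_zpowers, orderOf_eq_prime_pow (p := 2) (n := 1)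
      (by rw [pow_one, sq, x_mul_x]; exact slb_ng_ne D.two)
      (by rw [show 2 ^ (1 + 1) = 2 * 2 from rfl, pow_mul, sq, sq, x_mul_x, ng_mul_ng])]
    rfl
  have hle := Subgroup.zpowers_le.2 hx
  have h1 := h4 ▸ Subgroup.card_dvd_of_le hle
  have h3 : Nat.card D.Q ≠ 4 := fun e => by
    obtain ⟨k, hk⟩ := Subgroup.mem_zpowers_iff.1
      ((Subgroup.eq_of_le_of_card_ge hle (by rw [e, h4])).ge hy)
    exact D.xy_ne (hk ▸ (Commute.self_zpow D.x k).eq)
  have := Nat.card_pos (α := D.Q)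
  omega

theorem Q_p2 : IsPGroup 2 D.Q := IsPGroup.of_card (n := 3) D.card_Q

theorem ω_norm : ∀ s ∈ D.Q, D.ω * s * D.ω⁻¹ ∈ D.Q := fun s hs =>
  (Subgroup.closure_le (D.Q.comap (MulAut.conj D.ω).toMonoidHom)).2 (by
    rintro _ (rfl | rfl)
    exacts [show D.ω * D.x * D.ω⁻¹ ∈ D.Q from D.ω_x ▸ D.y_mem,
      show D.ω * D.y * D.ω⁻¹ ∈ D.Q from D.ω_y ▸ mul_mem D.x_mem D.y_mem]) hs

/-- the centraliser of `Q` -/
theorem eq_of_comm {r : GP F} (hr : r ∈ Γ F) (hx : r * D.x = D.x * r) (hy : r * D.y = D.y * r) :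
    r = 1 ∨ r = ng := by
  have hx' : ∀ u, r (D.x u) = D.x (r u) := DFunLike.congr_fun hx
  have hy' : ∀ u, r (D.y u) = D.y (r u) := DFunLike.congr_fun hy
  obtain ⟨e, he⟩ : ∃ e, β e (D.x e) ≠ 0 := by
    by_contra! h
    have : D.x ![1, 0] = 0 := β_nondeg fun v => mul_left_cancel₀ D.two (by
      have h1 := h (![1, 0] + v)
      simp only [map_add, LinearMap.add_apply, h] at h1
      have h2 := D.β_x v ![1, 0]
      have h3 := β_anti (D.x ![1, 0]) v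
      have h4 := β_anti (D.x v) ![1, 0]
      linear_combination h4 - h2 - h1 + 2 * h3)
    simpa using congrFun (D.x.map_eq_zero_iff.1 this) 0
  obtain ⟨p, q, h⟩ : ∃ p q : F, r e = p • e + q • D.x e :=
    ⟨(β e (D.x e))⁻¹ * β (r e) (D.x e), (β e (D.x e))⁻¹ * β e (r e), by
      rw [mul_smul, mul_smul, ← smul_add, ← β_expand, smul_smul, inv_mul_cancel₀ he, one_smul]⟩
  have h1 : ∀ u, r u = p • u + q • D.x u := fun u => smul_right_injective _ he (by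
    change β e (D.x e) • r u = β e (D.x e) • (p • u + q • D.x u)
    rw [← map_smul, smul_add, smul_comm _ p, smul_comm _ q, ← map_smul, β_expand]
    simp only [map_add, map_smul, hx', h, D.xx]
    module)
  have h2 : q = 0 := by
    have h3 := hy' (D.y (D.x e))
    rw [h1, h1] at h3
    simp only [map_add, map_smul, map_neg, D.xx, D.yy, D.yx] at h3
    have : q • e = -(q • e) := by linear_combination (norm := module) h3
    exact (smul_eq_zero.1 (slb_zero D.two this)).resolve_right fun e0 => he (by simp [e0])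
  simp only [h2, zero_smul, add_zero] at h1
  have h3 := hr e (D.x e)
  simp only [h1, map_smul, LinearMap.smul_apply, smul_eq_mul] at h3
  have h4 : p * p = 1 := mul_right_cancel₀ he (by linear_combination h3)
  exact eq_of_sq_eq_one D.two hr (LinearEquiv.ext fun u => by
    rw [LinearEquiv.mul_apply, h1, h1, smul_smul, h4, one_smul]; rfl)

/-- an element that acts as `±1` on `x` and on `y` lies in `Q` -/
theorem mem_Q_of_pm {r : GP F} (hr : r ∈ Γ F)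
    (hx : r * D.x * r⁻¹ = D.x ∨ r * D.x * r⁻¹ = ng * D.x)
    (hy : r * D.y * r⁻¹ = D.y ∨ r * D.y * r⁻¹ = ng * D.y) : r ∈ D.Q := by
  have key : ∀ t ∈ D.Q, r * t * D.x = D.x * (r * t) → r * t * D.y = D.y * (r * t) → r ∈ D.Q :=
    fun t ht h1 h2 => (D.Q.mul_mem_cancel_right ht).1 (by
      rcases D.eq_of_comm (mul_mem hr (D.Q_le ht)) h1 h2 with e | e <;> rw [e]
      exacts [one_mem _, D.ng_mem_Q])
  rcases Pm.apply hx with h1 | h1 <;> rcases Pm.apply hy with h2 | h2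
  on_goal 1 => refine key _ (one_mem _) ?_ ?_
  on_goal 3 => refine key _ D.x_mem ?_ ?_
  on_goal 5 => refine key _ D.y_mem ?_ ?_
  on_goal 7 => refine key _ (mul_mem D.x_mem D.y_mem) ?_ ?_
  all_goals exact LinearEquiv.ext fun u => by simp [h1, h2, D.xx, D.yy, D.yx]

theorem pm_of_mem {s : GP F} (hs : s ∈ D.Q) (h : s * s = ng) :
    Pm s D.x ∨ Pm s D.y ∨ Pm s (D.x * D.y) := by
  obtain ⟨t, rfl | rfl | rfl | rfl, h2⟩ := D.mem_Q.1 hs
  · exact absurd (h.symm.trans ((Pm.sq h2).trans (mul_one _))) (slb_ng_ne D.two)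
  exacts [Or.inl h2, Or.inr (Or.inl h2), Or.inr (Or.inr h2)]

theorem conj_sq {t : GP F} (h : t * t = ng) (m : GP F) : m * t * m⁻¹ * (m * t * m⁻¹) = ng := by
  rw [conj_mul, h, ← ng_comm, mul_inv_cancel_right]

theorem isSylowIn (hs : ∀ R ≤ Γ F, IsPGroup 2 R → D.Q ≤ R → R = D.Q) :
    LAE.IsSylowIn 2 D.Q (Γ F) := ⟨D.Q_le, D.Q_p2, fun R h1 h2 h3 => hs R h3 h1 h2⟩

variable [Finite F]

theorem mem_Q_of_pm_x (hs : ∀ R ≤ Γ F, IsPGroup 2 R → D.Q ≤ R → R = D.Q) {m : GP F} (hm : m ∈ Γ F)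
    (hn : m ∈ Subgroup.normalizer (D.Q : Set (GP F))) (hx : Pm (m * D.x * m⁻¹) D.x) : m ∈ D.Q := by
  rcases D.pm_of_mem ((Subgroup.mem_normalizer_iff.1 hn _).1 D.y_mem) (conj_sq D.y_mul_y m)
    with h | h | h
  · have h1 := (h.trans hx.symm).conj m⁻¹
    simp only [inv_inv, mul_assoc, inv_mul_cancel, mul_one, inv_mul_cancel_left] at h1
    refine absurd ?_ D.xy_ne
    rcases h1 with e | e <;> rw [e]
    rw [slb_mul_ng, mul_assoc]
  · exact D.mem_Q_of_pm hm hx h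
  have h1 : m * m ∈ D.Q := D.mem_Q_of_pm (mul_mem hm hm)
    (show Pm _ _ by simpa [mul_assoc] using (hx.conj m).trans hx) (show Pm _ _ by
      have h2 := (hx.mul_right _).trans (h.mul_left _)
      rw [conj_mul, ← mul_assoc D.x, x_mul_x] at h2
      simpa [mul_assoc] using ((h.conj m).trans h2).trans Pm.rfl.ng)
  obtain ⟨k, hk⟩ := D.Q_p2 ⟨_, h1⟩
  have h2 : m ^ 2 ^ (k + 1) = 1 := by
    rw [pow_succ', pow_mul, sq]; exact congrArg Subtype.val hk
  obtain ⟨j, -, hj⟩ := (Nat.dvd_prime_pow Nat.prime_two).1 (orderOf_dvd_of_pow_eq_one h2)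
  exact (D.isSylowIn hs).le_of_normalizes (IsPGroup.of_card (by rw [Nat.card_zpowers, hj]))
    (Subgroup.zpowers_le.2 hm) (Subgroup.zpowers_le.2 hn) (Subgroup.mem_zpowers m)

theorem nrm_of_syl (hs : ∀ R ≤ Γ F, IsPGroup 2 R → D.Q ≤ R → R = D.Q) :
    ∀ n ∈ Γ F, (∀ s ∈ D.Q, n * s * n⁻¹ ∈ D.Q) → n ∈ D.Q ∨ n * D.ω ∈ D.Q ∨ n * D.ω⁻¹ ∈ D.Q := by
  intro n hn h
  have h1 : n ∈ Subgroup.normalizer (D.Q : Set (GP F)) := Subgroup.mem_normalizer_fintype h
  have h2 : D.ω ∈ Subgroup.normalizer (D.Q : Set (GP F)) := Subgroup.mem_normalizer_fintype D.ω_norm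
  have h3 : ∀ {t}, Pm (n⁻¹ * D.x * n⁻¹⁻¹) t → Pm (n * t * n⁻¹) D.x := fun e => by
    simpa [mul_assoc] using (e.conj n).symm
  refine (D.pm_of_mem ((Subgroup.mem_normalizer_iff.1 (inv_mem h1) _).1 D.x_mem)
    (conj_sq D.x_mul_x _)).imp (fun e => D.mem_Q_of_pm_x hs hn h1 (h3 e))
    (Or.imp (fun e => D.mem_Q_of_pm_x hs (mul_mem hn D.ω_mem) (mul_mem h1 h2) ?_)
      fun e => D.mem_Q_of_pm_x hs (mul_mem hn (inv_mem D.ω_mem)) (mul_mem h1 (inv_mem h2)) ?_)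
  · simpa [← D.ω_x, mul_assoc] using h3 e
  · have : D.x * D.y = D.ω⁻¹ * D.x * D.ω := by
      rw [mul_assoc, eq_inv_mul_iff_mul_eq, ← mul_inv_eq_iff_eq_mul, ← conj_mul, ω_x, ω_y]
      exact LinearEquiv.ext fun u => by simp [D.yx, D.yy]
    simpa [this, mul_assoc] using h3 e

theorem q4_of_syl (hs : ∀ R ≤ Γ F, IsPGroup 2 R → D.Q ≤ R → R = D.Q) :
    ∀ X ≤ Γ F, (∀ s ∈ D.Q, ∀ r ∈ X, s * r * s⁻¹ ∈ X) → ∀ D' : QD F, D'.x ∈ X → D'.y ∈ X →
      D.Q ≤ X := by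
  intro X hX h D' hx hy
  have h1 := (((D.isSylowIn hs).mono le_sup_right (sup_le hX D.Q_le)).inf_of_normal le_sup_left
    (sup_le Subgroup.le_normalizer fun s hs => Subgroup.mem_normalizer_fintype (h s hs))).card_le
    D'.Q_p2 ((Subgroup.closure_le _).2 (by rintro _ (rfl | rfl); exacts [hx, hy]))
  rw [D'.card_Q, ← D.card_Q] at h1
  exact inf_eq_left.1 (Subgroup.eq_of_le_of_card_ge inf_le_left h1)

theorem q5_of_syl (hs : ∀ R ≤ Γ F, IsPGroup 2 R → D.Q ≤ R → R = D.Q) :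
    ∀ X ≤ Γ F, D.Q ≤ X → (∀ s ∈ X, D.ω * s * D.ω⁻¹ ∈ X) → ∀ r ∈ Γ F,
      (∀ s ∈ X, r * s * r⁻¹ ∈ X) → D.ω * r * D.ω⁻¹ * r⁻¹ ∈ X := by
  intro X hX hQ hω r hr h
  obtain ⟨a, ha, m, hm, rfl⟩ := ((D.isSylowIn hs).mono hQ hX).frattini
    (Subgroup.mem_normalizer_fintype h)
  have key : ∀ g, Commute D.ω g → m * g ∈ D.Q → D.ω * (a * m) * D.ω⁻¹ * (a * m)⁻¹ ∈ X := by
    intro g e hg
    have h1 := mul_mem ha (hQ hg)
    convert mul_mem (hω _ h1) (inv_mem h1) using 1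
    calc _ = D.ω * (a * m) * D.ω⁻¹ * (g * g⁻¹) * (a * m)⁻¹ := by group
      _ = _ := by rw [← mul_assoc _ g, mul_assoc _ _ g, e.inv_left.eq]; group
  rcases D.nrm_of_syl hs m ((Γ F).mul_mem_cancel_left (hX ha) |>.1 hr)
    (fun s => (Subgroup.mem_normalizer_iff.1 hm s).1) with e | e | e
  exacts [key 1 (Commute.one_right _) (by simpa using e), key _ (Commute.refl _) e,
    key _ (Commute.refl _).inv_right e]

end QD

end CfsgLib.SpPr
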