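import Cfsg.Agent.Lib.SpPr.SLA
import Cfsg.Agent.Lib.SpPr.SLB

/-!
# SPPR package SLC: overgroups of a quaternion Sylow 2-subgroup of SL₂
-/

set_option autoImplicit false
set_option linter.unusedSectionVars false

namespace CfsgLib.SpPr

open Equiv CfsgLib.Pronorm

variable {F : Type*} [Field F] [Finite F]

/-- `s` acts on `t` as `±1` -/
def SlcPm (s t : GP F) : Prop := s * t * s⁻¹ = t ∨ s * t * s⁻¹ = ng * t

theorem SlcPm.mul {s t t' : GP F} (h : SlcPm s t) (h' : SlcPm s t') : SlcPm s (t * t') := by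
  have e : s * (t * t') * s⁻¹ = s * t * s⁻¹ * (s * t' * s⁻¹) := by group
  rcases h with h | h <;> rcases h' with h' | h' <;> rw [SlcPm, e, h, h']
  · exact Or.inl rfl
  · exact Or.inr (by rw [← mul_assoc, ← ng_comm, mul_assoc])
  · exact Or.inr (mul_assoc _ _ _)
  · exact Or.inl (by rw [ng_comm t, mul_assoc, ← mul_assoc ng, ng_mul_ng, one_mul])

theorem SlcPm.ng (s : GP F) : SlcPm s ng := Or.inl (by rw [← ng_comm, mul_inv_cancel_right])

theorem SlcPm.of_ng {s t : GP F} (h : SlcPm s (SpPr.ng * t)) : SlcPm s t := by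
  have := (SlcPm.ng s).mul h
  rwa [← mul_assoc, ng_mul_ng, one_mul] at this

theorem SlcPm.symm {s t : GP F} (h : SlcPm s t) : SlcPm t s := by
  rcases h with h | h
  · exact Or.inl (by rw [← mul_inv_eq_iff_eq_mul.1 h, mul_inv_cancel_right])
  · refine Or.inr (mul_inv_eq_iff_eq_mul.2 ?_)
    rw [mul_assoc, mul_inv_eq_iff_eq_mul.1 h, ← mul_assoc, ← mul_assoc, ng_mul_ng, one_mul]

theorem SlcPm.conj {s t g : GP F} (h : SlcPm (g * s * g⁻¹) (g * t * g⁻¹)) : SlcPm s t := by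
  have e : s * t * s⁻¹ = g⁻¹ * (g * s * g⁻¹ * (g * t * g⁻¹) * (g * s * g⁻¹)⁻¹) * g := by group
  rcases h with h | h <;> rw [SlcPm, e, h]
  · exact Or.inl (by group)
  · exact Or.inr (by rw [← mul_assoc, ← ng_comm]; group)

theorem slc_sq_one {n : Pn F →ₗ[F] Pn F} {x : GP F} {c : F} (h0 : ∃ u, n u ≠ 0) (hx : ∀ u, x (x u) = -u)
    (h : ∀ u, x (n u) = c • n (x u)) : c = 1 ∨ c = -1 := by
  obtain ⟨u, hu⟩ := h0
  have h1 := hx (n u)
  rw [h, map_smul, h, hx, map_neg, smul_smul, smul_neg, neg_inj] at h1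
  exact mul_self_eq_one_iff.1 (smul_left_injective F hu (h1.trans (one_smul F _).symm))

/-- commuting skew endomorphisms of the plane are proportional -/
theorem slc_skew (h2 : (2 : F) ≠ 0) {n m : Pn F →ₗ[F] Pn F} (hn : ∀ u v, β (n u) v = -β u (n v))
    (hm : ∀ u v, β (m u) v = -β u (m v)) (hc : ∀ u, n (m u) = m (n u)) (h0 : ∃ u, n u ≠ 0) :
    ∃ c : F, ∀ u, m u = c • n u := by
  obtain ⟨e, he⟩ : ∃ e, β e (n e) ≠ 0 := by
    by_contra! hh
    obtain ⟨u, hu⟩ := h0
    refine hu (β_nondeg fun v => mul_left_cancel₀ h2 ?_)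
    have h1 := hh (u + v)
    simp only [map_add, LinearMap.add_apply, hh] at h1
    have h3 := hn u v
    have h4 := β_anti v (n u)
    linear_combination -h1 + h3 + h4
  have h1 : β (m e) (n e) = 0 := by
    refine mul_left_cancel₀ h2 ?_
    have h3 := hn (m e) e
    have h4 := hm (n e) e
    have h5 := β_anti (n e) (m e)
    rw [hc] at h3
    linear_combination h3 - h4 + h5
  have h3 := β_expand e (n e) (m e)
  rw [h1, zero_smul, zero_add] at h3
  have h4 : m e = ((β e (n e))⁻¹ * β e (m e)) • n e := by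
    rw [mul_smul, ← h3, smul_smul, inv_mul_cancel₀ he, one_smul]
  refine ⟨(β e (n e))⁻¹ * β e (m e), fun u => smul_right_injective _ he ?_⟩
  generalize (β e (n e))⁻¹ * β e (m e) = c at h4
  change β e (n e) • m u = β e (n e) • c • n u
  rw [smul_comm, ← map_smul, ← map_smul, β_expand e (n e) u, map_add, map_add, map_smul, map_smul, map_smul,
    map_smul, ← hc, h4, map_smul]
  module

namespace QD

variable (D : QD F)

theorem slc_Q {t : GP F} (hx : SlcPm t D.x) (hy : SlcPm t D.y) {s : GP F} (hs : s ∈ D.Q) : SlcPm t s := by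
  obtain ⟨r, h, e⟩ := D.mem_Q.1 hs
  have : SlcPm t r := by
    rcases h with rfl | rfl | rfl | rfl
    exacts [Or.inl (by group), hx, hy, hx.mul hy]
  rcases e with rfl | rfl
  exacts [this, (SlcPm.ng t).mul this]

theorem slc_xy : SlcPm D.x D.y :=
  Or.inr (mul_inv_eq_iff_eq_mul.2 (LinearEquiv.ext fun u => by simp [D.xy]))

theorem slc_QQ {s t : GP F} (hs : s ∈ D.Q) (ht : t ∈ D.Q) : SlcPm s t :=
  D.slc_Q (D.slc_Q (Or.inl (by group)) D.slc_xy hs).symm (D.slc_Q D.slc_xy.symm (Or.inl (by group)) hs).symm ht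

theorem slc_t {t : GP F} (h : t = D.x ∨ t = D.y ∨ t = D.x * D.y) : t ∈ Γ F ∧ ∀ u, t (t u) = -u := by
  rcases h with rfl | rfl | rfl
  exacts [⟨D.hx, D.xx⟩, ⟨D.hy, D.yy⟩, ⟨mul_mem D.hx D.hy, fun u => by simp [D.yx, D.xx, D.yy]⟩]

theorem gamma (hs : ∀ R ≤ Γ F, IsPGroup 2 R → D.Q ≤ R → R = D.Q) {X : Subgroup (GP F)}
    (hX : X ≤ Γ F) (hQ : D.Q ≤ X) (hω : D.ω ∉ X) :
    ∃ t, (t = D.x ∨ t = D.y ∨ t = D.x * D.y) ∧ ∀ s ∈ X, s * t * s⁻¹ = t ∨ s * t * s⁻¹ = ng * t := by
  have hm : (D.Q.subgroupOf X).map X.subtype = D.Q := Subgroup.map_subgroupOf_eq_of_le hQ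
  by_cases hne : D.Q.subgroupOf X = ⊤
  · exact ⟨D.x, Or.inl rfl, fun s h => D.slc_QQ (Subgroup.subgroupOf_eq_top.1 hne h) D.x_mem⟩
  let P : Sylow 2 X := ⟨D.Q.subgroupOf X, D.Q_p2.comap_subtype, fun {R} hR hle => by
    refine Subgroup.map_injective X.subtype_injective ?_
    rw [hm]
    exact hs _ ((Subgroup.map_subtype_le _).trans hX) (hR.map _) (hm ▸ Subgroup.map_mono hle)⟩
  obtain ⟨a, a1, a2, a3⟩ := exists_comm_conj P (z := ⟨ng, hQ D.ng_mem_Q⟩) D.ng_mem_Q
    (Subgroup.mem_center_iff.2 fun g => Subtype.ext (ng_comm _).symm) (Subtype.ext ng_mul_ng)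
    (fun n hn => by
      rcases D.nrm_of_syl hs n (hX n.2) fun s h => (Subgroup.mem_normalizer_iff.1 hn ⟨s, hQ h⟩).1 h with h | h | h
      · exact h
      · exact absurd ((Subgroup.mul_mem_cancel_left X n.2).1 (hQ h)) hω
      · exact absurd (inv_mem_iff.1 ((Subgroup.mul_mem_cancel_left X n.2).1 (hQ h))) hω)
    (fun a ha b hb => (D.slc_QQ ha hb).imp (fun h => Subtype.ext (mul_inv_eq_one.2 h))
      fun h => Subtype.ext (mul_inv_eq_iff_eq_mul.2 h)) hne
  have sk : ∀ r ∈ Γ F, ∀ u v, β (((r : GP F).toLinearMap - (r⁻¹ : GP F).toLinearMap) u) v =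
      -β u (((r : GP F).toLinearMap - (r⁻¹ : GP F).toLinearMap) v) := fun r hr u v => by
    have h1 := hr u (r⁻¹ v)
    have h3 := hr (r⁻¹ u) v
    simp only [LinearMap.sub_apply, LinearEquiv.coe_coe, map_sub, ← LinearEquiv.mul_apply, mul_inv_cancel,
      LinearEquiv.coe_one, id_eq] at h1 h3 ⊢
    linear_combination h1 + h3
  obtain ⟨a, ha⟩ := a
  set n := a.toLinearMap - (a⁻¹ : GP F).toLinearMap with hn
  have n0 : ∃ u, n u ≠ 0 := by
    by_contra! hh
    have : a = a⁻¹ := LinearEquiv.ext fun u => sub_eq_zero.1 (hh u)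
    rcases eq_of_sq_eq_one D.two (hX ha) (mul_eq_one_iff_eq_inv.2 this) with h | h
    exacts [a1 (Subtype.ext h), a2 (Subtype.ext h)]
  have key : ∀ s ∈ X, ∃ c : F, ∀ u, s (n u) = c • n (s u) := fun s h => by
    have hc : Commute a (s * a * s⁻¹) := congrArg Subtype.val (a3 ⟨s, h⟩)
    obtain ⟨c, hc⟩ := slc_skew D.two (sk a (hX ha)) (sk _ (hX (mul_mem (mul_mem h ha) (inv_mem h)))) (fun u => by
      simp only [LinearMap.sub_apply, LinearEquiv.coe_coe, map_sub, ← LinearEquiv.mul_apply, hc.eq, hc.inv_left.eq,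
        hc.inv_right.eq, hc.inv_inv.eq]
      abel) n0
    refine ⟨c, fun u => ?_⟩
    rw [← hc]
    simp [hn]
  obtain ⟨t, ht, hc⟩ : ∃ t, (t = D.x ∨ t = D.y ∨ t = D.x * D.y) ∧ ∀ u, t (n u) = n (t u) := by
    obtain ⟨c, hc⟩ := key _ (hQ D.x_mem)
    obtain ⟨d, hd⟩ := key _ (hQ D.y_mem)
    rcases slc_sq_one n0 D.xx hc with rfl | rfl
    · exact ⟨_, Or.inl rfl, by simpa using hc⟩
    rcases slc_sq_one n0 D.yy hd with rfl | rfl
    · exact ⟨_, Or.inr (Or.inl rfl), by simpa using hd⟩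
    exact ⟨_, Or.inr (Or.inr rfl), fun u => by simp [hc, hd]⟩
  obtain ⟨t1, t2⟩ := D.slc_t ht
  obtain ⟨l, hl⟩ := slc_skew D.two (m := t.toLinearMap) (sk a (hX ha))
    (fun u v => by rw [LinearEquiv.coe_coe, ← t1 (t u) v, t2]; simp) (fun u => (hc u).symm) n0
  refine ⟨t, ht, fun s h => ?_⟩
  obtain ⟨c, hc⟩ := key s h
  have h1 : ∀ u, s (t u) = c • t (s u) := fun u => by
    rw [← LinearEquiv.coe_coe t, hl, hl, map_smul, hc, smul_comm]
  have h3 : c * c = 1 := by
    have h4 := h1 (t ![1, 0])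
    rw [t2, h1, map_smul, t2, map_neg, smul_smul, smul_neg, neg_inj] at h4
    exact smul_left_injective F (fun e => by simpa using congrFun (s.injective (e.trans (map_zero s).symm)) 0)
      (h4.symm.trans (one_smul F _).symm)
  exact (mul_self_eq_one_iff.1 h3).imp
    (fun e => mul_inv_eq_iff_eq_mul.2 (LinearEquiv.ext fun u => by simp [h1, e]))
    fun e => mul_inv_eq_iff_eq_mul.2 (LinearEquiv.ext fun u => by simp [h1, e])

theorem good_of_syl (hs : ∀ R ≤ Γ F, IsPGroup 2 R → D.Q ≤ R → R = D.Q) : D.Good := by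
  refine ⟨D.Q_p2, hs, D.ω_norm, D.nrm_of_syl hs, fun X hX hQ r hr e c he hc h => ?_, fun X hX hQ => ?_,
    D.q4_of_syl hs, D.q5_of_syl hs⟩
  · by_contra hω
    obtain ⟨t, ht, h1⟩ := D.gamma hs hX hQ hω
    obtain ⟨t1, t2⟩ := D.slc_t ht
    have h3 : ∀ u, r (r (t u)) = t (r (r u)) := fun u => by
      rcases h1 r hr with e | e <;> have := fun u => LinearEquiv.congr_fun (mul_inv_eq_iff_eq_mul.1 e) u <;>
        simp only [LinearEquiv.mul_apply, ng_apply] at this <;> simp [this]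
    have h4 : ∀ u, β (t u) e • e = β u e • t e := fun u => by
      have := h3 u
      simp only [h, map_add, map_smul, LinearMap.add_apply, LinearMap.smul_apply, β_self, smul_zero,
        add_zero] at this
      refine smul_right_injective _ (mul_ne_zero D.two hc) ?_
      linear_combination (norm := module) this
    refine he (β_nondeg fun u => ?_)
    have h5 := congrArg (β (t u)) (h4 u)
    simp only [map_smul, smul_eq_mul, t1 u e] at h5
    have h7 := h4 u
    have h8 := h4 (t u)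
    rw [t2, map_neg, LinearMap.neg_apply] at h8
    have h9 : (β (t u) e * β (t u) e + β u e * β u e) • e = 0 := by
      linear_combination (norm := module) β (t u) e • h7 - β u e • h8
    rw [smul_eq_zero, or_iff_left he, h5, ← two_mul, mul_eq_zero, or_iff_right D.two, mul_self_eq_zero] at h9
    rw [β_anti, h9, neg_zero]
  · refine or_iff_not_imp_right.2 fun hω s h => hQ (D.ω_norm s ?_)
    obtain ⟨t, ht, h1⟩ := D.gamma hs (sup_le hX (by
      rintro _ ⟨r, hr, rfl⟩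
      exact mul_mem (mul_mem D.ω_mem (hX hr)) (inv_mem D.ω_mem))) (hQ.trans le_sup_left) hω
    have h3 : SlcPm s t := h1 s (Subgroup.mem_sup_left h)
    have h4 : SlcPm (D.ω * s * D.ω⁻¹) t := h1 _ (Subgroup.mem_sup_right ⟨s, h, rfl⟩)
    rcases ht with rfl | rfl | rfl
    · have e : D.x = D.ω * (D.x * D.y) * D.ω⁻¹ := by
        rw [show D.ω * (D.x * D.y) * D.ω⁻¹ = D.ω * D.x * D.ω⁻¹ * (D.ω * D.y * D.ω⁻¹) by group, D.ω_x, D.ω_y]
        exact LinearEquiv.ext fun u => by simp [D.yx, D.yy]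
      rw [e] at h4
      have := h3.mul h4.conj
      rw [← mul_assoc, D.x_mul_x] at this
      exact D.mem_Q_of_pm (hX h) h3 this.of_ng
    · rw [← D.ω_x] at h4
      exact D.mem_Q_of_pm (hX h) h4.conj h3
    · rw [← D.ω_y] at h4
      have := h3.mul h4.conj
      rw [mul_assoc, D.y_mul_y, ← ng_comm] at this
      exact D.mem_Q_of_pm (hX h) this.of_ng h4.conj

end QD

end CfsgLib.SpPr
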