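import Cfsg.Agent.Lib.SpPr.Defs

/-!
# SPPR package TAU: the anticommutator of two plane involutions
-/

set_option autoImplicit false
set_option linter.unusedSectionVars false

namespace CfsgLib.SpPr

open Equiv CfsgLib.Pronorm

variable {F : Type*} [Field F] [Finite F] {ι : Type} [Fintype ι] [DecidableEq ι]
  {D : QD F} {T : Subgroup (Perm ι)} {H : Subgroup (GV ι F)}

/-- a self-adjoint map of the plane of `a` is a scalar -/
theorem PI.scalar (h2 : (2 : F) ≠ 0) {a : GV ι F} (ha : PI a) (n : V ι F →ₗ[F] V ι F)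
    (h1 : ∀ v ∈ Ng a, n v ∈ Ng a) (h3 : ∀ v ∈ Ng a, ∀ w ∈ Ng a, B (n v) w = B v (n w)) :
    ∃ c : F, ∀ v ∈ Ng a, n v = c • v := by
  obtain ⟨e, he0, he⟩ := ha.exists_ne
  obtain ⟨f, hf, hef⟩ : ∃ f, a f = -f ∧ B e f ≠ 0 := by
    by_contra! hh; exact he0 (ha.nondeg h2 he hh)
  have hsp : ∀ p ∈ Ng a, ∃ s t : F, p = s • e + t • f := by
    intro p hp
    have hli : LinearIndependent F ![e, f] := LinearIndependent.pair_iff.2 fun s t h => by
      have e1 := congrArg (B e) h
      have e2 := congrArg (B f) h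
      simp only [map_add, map_smul, B_self, smul_eq_mul, mul_zero, zero_add, add_zero, map_zero,
        B_anti f e, mul_eq_zero, neg_eq_zero, hef, or_false] at e1 e2
      exact ⟨e2, e1⟩
    have h : Submodule.span F (Set.range ![e, f]) = Ng a := Submodule.eq_of_le_of_finrank_eq
      (Submodule.span_le.2 (by rintro _ ⟨k, rfl⟩; fin_cases k; exacts [he, hf]))
      (by rw [finrank_span_eq_card hli, ha.rk]; simp)
    rw [← h, Matrix.range_cons_cons_empty, Submodule.mem_span_pair] at hp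
    obtain ⟨s, t, rfl⟩ := hp
    exact ⟨s, t, rfl⟩
  obtain ⟨p, q, hpq⟩ := hsp _ (h1 e he)
  obtain ⟨r, s, hrs⟩ := hsp _ (h1 f hf)
  have e1 := h3 e he e he
  have e2 := h3 f hf f hf
  have e3 := h3 e he f hf
  simp only [hpq, hrs, map_add, map_smul, LinearMap.add_apply, LinearMap.smul_apply, B_self,
    smul_eq_mul, B_anti f e] at e1 e2 e3
  have hq : q = 0 := mul_left_cancel₀ (mul_ne_zero h2 hef) (by linear_combination -e1)
  have hr : r = 0 := mul_left_cancel₀ (mul_ne_zero h2 hef) (by linear_combination e2)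
  have hs : s = p := mul_left_cancel₀ hef (by linear_combination -e3)
  refine ⟨p, fun v hv => ?_⟩
  obtain ⟨x, y, rfl⟩ := hsp v hv
  rw [map_add, map_smul, map_smul, hpq, hrs, hq, hr, hs]; module

theorem PI.B_left {a : GV ι F} (ha : PI a) (v w : V ι F) : B (a v) w = B v (a w) := by
  rw [← ha.sp v, ha.sq]

theorem exists_tau_left (h2 : (2 : F) ≠ 0) {a b : GV ι F} (ha : PI a) (hb : PI b) :
    ∃ τ : F, ∀ v ∈ Ng a, a (b v) + b (a v) = τ • v := by
  refine ha.scalar h2 (a.toLinearMap ∘ₗ b.toLinearMap + b.toLinearMap ∘ₗ a.toLinearMap)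
    (fun v hv => ?_) fun v _ w _ => ?_
  · change a (b v) + b (a v) ∈ _
    rw [mem_Ng.1 hv, map_neg, ← sub_eq_add_neg, ← neg_sub]
    exact neg_mem (ha.sub_mem _)
  · change B (a (b v) + b (a v)) w = B v (a (b w) + b (a w))
    rw [map_add, map_add, LinearMap.add_apply, ha.B_left, hb.B_left, hb.B_left, ha.B_left, add_comm]

theorem exists_tau (h2 : (2 : F) ≠ 0) {a b : GV ι F} (ha : PI a) (hb : PI b) :
    ∃ τ : F, ∀ v ∈ Ng a ⊔ Ng b, a (b v) + b (a v) = τ • v := by
  obtain ⟨s, hs⟩ := exists_tau_left h2 ha hb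
  obtain ⟨t, ht⟩ := exists_tau_left h2 hb ha
  have e : s = t := by
    by_cases ho : Orth a b
    · obtain ⟨v, hv0, hv⟩ := ha.exists_ne
      obtain ⟨w, hw0, hw⟩ := hb.exists_ne
      have e1 := hs v hv
      have e2 := ht w hw
      rw [ho v hv, hv, map_neg, ho v hv] at e1
      rw [ho.symm h2 ha hb w hw, hw, map_neg, ho.symm h2 ha hb w hw] at e2
      have f1 : s = -2 := smul_left_injective F hv0 (by
        change s • v = (-2 : F) • v; linear_combination (norm := module) -e1)
      have f2 : t = -2 := smul_left_injective F hw0 (by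
        change t • w = (-2 : F) • w; linear_combination (norm := module) -e2)
      rw [f1, f2]
    · obtain ⟨v, hv, hne⟩ : ∃ v, a v = -v ∧ b v ≠ v := by by_contra! hh; exact ho hh
      have e1 := hs v hv
      have e2 := congrArg b e1
      have e3 := ht _ (hb.sub_mem v)
      simp only [map_add, map_sub, map_smul, hb.sq] at e2 e3
      refine smul_left_injective F (sub_ne_zero.2 hne.symm) ?_
      change s • (v - b v) = t • (v - b v)
      linear_combination (norm := module) e3 - e1 + e2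
  refine ⟨s, fun v hv => ?_⟩
  obtain ⟨p, hp, q, hq, rfl⟩ := Submodule.mem_sup.1 hv
  have e1 := hs p hp
  have e2 := ht q hq
  simp only [map_add]
  linear_combination (norm := module) e1 + e2 - e • q

theorem isPGroup_dihedral {G : Type*} [Group G] {a b : G} (ha : a * a = 1) (hb : b * b = 1) {k : ℕ}
    (h : (a * b) ^ 2 ^ k = 1) : ∃ P : Subgroup G, IsPGroup 2 P ∧ a ∈ P ∧ b ∈ P ∧
      P ≤ Subgroup.closure {a, b} := by
  have hz : ∀ {g : G} {m : ℕ}, g ^ 2 ^ m = 1 → IsPGroup 2 (Subgroup.zpowers g) := fun {g m} hg => by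
    rintro ⟨_, n, rfl⟩
    exact ⟨m, Subtype.ext (by
      change (g ^ n) ^ 2 ^ m = 1
      rw [← zpow_natCast, ← zpow_mul, mul_comm, zpow_mul, zpow_natCast, hg, one_zpow])⟩
  have ha' : a⁻¹ = a := inv_eq_of_mul_eq_one_right ha
  have hb' : b⁻¹ = b := inv_eq_of_mul_eq_one_right hb
  have hn : a ∈ Subgroup.normalizer (Subgroup.zpowers (a * b) : Set G) := by
    have key : ∀ x ∈ Subgroup.zpowers (a * b), a * x * a⁻¹ ∈ Subgroup.zpowers (a * b) := by
      rintro _ ⟨n, rfl⟩
      refine ⟨-n, ?_⟩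
      change (a * b) ^ (-n) = a * (a * b) ^ n * a⁻¹
      rw [← conj_zpow, ← inv_zpow', mul_inv_rev, hb', ← mul_assoc, ha, one_mul]
    refine Subgroup.mem_normalizer_iff.2 fun x => ⟨key x, fun hx => ?_⟩
    have := key _ hx
    rwa [ha', show a * (a * x * a) * a = (a * a) * x * (a * a) by group, ha, one_mul, mul_one] at this
  refine ⟨Subgroup.zpowers (a * b) ⊔ Subgroup.zpowers a, (hz h).to_sup_of_normal_left'
    (hz (m := 1) (by rw [pow_one, pow_two, ha])) (Subgroup.zpowers_le.2 hn),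
    Subgroup.mem_sup_right (Subgroup.mem_zpowers a), ?_, sup_le (Subgroup.zpowers_le.2
      (mul_mem (Subgroup.subset_closure (by simp)) (Subgroup.subset_closure (by simp))))
      (Subgroup.zpowers_le.2 (Subgroup.subset_closure (by simp)))⟩
  rw [show b = a⁻¹ * (a * b) by group]
  exact mul_mem (inv_mem (Subgroup.mem_sup_right (Subgroup.mem_zpowers a)))
    (Subgroup.mem_sup_left (by simp))

/-- case I: the only conjugates of the `zi i` in `S` are the `zi j` -/
theorem Ctx.iso (c : Ctx D T H) (h : ∀ a, Pl H a → a ∈ Mon D.Q T → ∃ j, a = zi j) : Iso H := by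
  intro a b ha hb k hk
  obtain ⟨P, hP, haP, hbP, hle⟩ := isPGroup_dihedral (ha.PI D.two c.le).mul_self
    (hb.PI D.two c.le).mul_self hk
  have hm : ((Mon D.Q T).subgroupOf H).map H.subtype = Mon D.Q T :=
    Subgroup.map_subgroupOf_eq_of_le c.ge
  let S : Sylow 2 H := ⟨(Mon D.Q T).subgroupOf H, c.p2.comap_subtype, fun {R} hR hle =>
    Subgroup.map_injective H.subtype_injective (by
      rw [hm]
      exact c.syl _ ((Subgroup.map_subtype_le _).trans c.le) (hR.map _) (hm ▸ Subgroup.map_mono hle))⟩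
  obtain ⟨S', hS'⟩ := (hP.comap_subtype (K := H)).exists_le_sylow
  obtain ⟨g, rfl⟩ := MulAction.exists_smul_eq H S S'
  have key : ∀ a, Pl H a → a ∈ P → ∃ j, a = g.1 * zi j * g.1⁻¹ := fun a ha haP => by
    obtain ⟨j, hj⟩ := h _ (ha.conj (inv_mem g.2)) (by
      simpa [S, Subgroup.mem_subgroupOf] using
        (Subgroup.mem_pointwise_smul_iff_inv_smul_mem.1 (hS' (x := ⟨a, ha.mem c⟩) haP)))
    exact ⟨j, by rw [← hj]; group⟩
  obtain ⟨i, rfl⟩ := key a ha haP
  obtain ⟨j, rfl⟩ := key b hb hbP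
  by_cases hij : i = j
  · exact Or.inl (by rw [hij])
  · exact Or.inr ((orth_zi D.two hij).conj _)

end CfsgLib.SpPr
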