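import Cfsg.Agent.Lib.SpPr.DEG
import Cfsg.Agent.Lib.SpPr.TAU

/-!
# SPPR package ZA: the linear algebra in the span of two planes
-/

set_option autoImplicit false
set_option linter.unusedSectionVars false

namespace CfsgLib.SpPr

open Equiv CfsgLib.Pronorm

variable {F : Type*} [Field F] [Finite F] {ι : Type} [Fintype ι] [DecidableEq ι]
  {D : QD F} {T : Subgroup (Perm ι)} {H : Subgroup (GV ι F)}

/-- the maps that move vectors by elements of `E` only -/
def Lg (E : Submodule F (V ι F)) : Subgroup (GV ι F) where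
  carrier := {g | g ∈ Sp ι F ∧ ∀ v, g v - v ∈ E}
  one_mem' := ⟨one_mem _, fun v => by simp⟩
  mul_mem' {a b} ha hb := ⟨mul_mem ha.1 hb.1, fun v => by
    simpa using add_mem (ha.2 (b v)) (hb.2 v)⟩
  inv_mem' {a} ha := ⟨inv_mem ha.1, fun v => by simpa using neg_mem (ha.2 (a⁻¹ v))⟩

theorem Lg.apply_mem {E : Submodule F (V ι F)} {g : GV ι F} (hg : g ∈ Lg E) {v : V ι F}
    (hv : v ∈ E) : g v ∈ E := by simpa using add_mem (hg.2 v) hv

theorem Lg.eq_one {E : Submodule F (V ι F)} (hE : ∀ v ∈ E, (∀ w ∈ E, B v w = 0) → v = 0)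
    {g : GV ι F} (hg : g ∈ Lg E) (h : ∀ v ∈ E, g v = v) : g = 1 :=
  LinearEquiv.ext fun v => sub_eq_zero.1 (hE _ (hg.2 v) fun w hw => by
    rw [map_sub, LinearMap.sub_apply, sub_eq_zero]
    nth_rw 1 [← h w hw]
    exact hg.1 v w)

theorem PI.mem_Lg {E : Submodule F (V ι F)} {a : GV ι F} (ha : PI a) (h : Ng a ≤ E) : a ∈ Lg E :=
  ⟨ha.sp, fun v => by simpa using neg_mem (h (ha.sub_mem v))⟩

theorem blk_mem_Lg {E : Submodule F (V ι F)} {i : ι} (h : Ng (zi i : GV ι F) ≤ E) {r : GP F}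
    (hr : r ∈ Γ F) : blk i r ∈ Lg E :=
  ⟨Mon_le_Sp le_rfl ⊤ (blk_mem_Mon ⊤ i hr), fun v => by
    rw [blk_apply, add_sub_cancel_left]; exact h (zi_single i _)⟩

theorem PI.finrank_sup {a b : GV ι F} (ha : PI a) (hb : PI b) (h : Ng a ⊓ Ng b = ⊥) :
    Module.finrank F (Ng a ⊔ Ng b : Submodule F (V ι F)) = 4 := by
  have := Submodule.finrank_sup_add_finrank_inf_eq (Ng a) (Ng b)
  rw [h, finrank_bot, ha.rk, hb.rk] at this
  exact this

theorem PI.perp_sup (h2 : (2 : F) ≠ 0) {a b : GV ι F} (ha : PI a) (hb : PI b) {v : V ι F}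
    (h1 : a v = v) (h3 : b v = v) : ∀ w ∈ Ng a ⊔ Ng b, B v w = 0 := by
  intro w hw
  obtain ⟨p, hp, q, hq, rfl⟩ := Submodule.mem_sup.1 hw
  rw [map_add, ha.B_eq_zero h2 h1 hp, hb.B_eq_zero h2 h3 hq, add_zero]

theorem Ctx.za (c : Ctx D T H) (hn : NT H) (hI : Iso H) {i : ι} {b u u' d : GV ι F} (hb : Pl H b)
    (hne : b ≠ zi i) (ho : ¬ Orth (zi i) b) (hu : u = b * zi i)
    (hu' : u' = blk i D.x * u * (blk i D.x)⁻¹) (hd : d = u * u' * u⁻¹ * u'⁻¹) {r : ℕ} (hr : Odd r)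
    {ε : F} (hε : ε = 1 ∨ ε = -1) (hur : ∀ v ∈ Ng (zi i : GV ι F) ⊔ Ng b, (u ^ r) v = ε • v) (hdr : d ^ r = 1)
    (c1 : Commute d u) (c2 : Commute d u') (c3 : Commute d (zi i)) : False := by
  have h2 := D.two
  have hz := Pl_zi H i
  set z : GV ι F := zi i with hzd
  set I : GV ι F := blk i D.x with hId
  set E := Ng z ⊔ Ng b with hEd
  have pz : PI z := PI_zi h2 i
  have pb := hb.PI h2 c.le
  obtain ⟨hE0, hE⟩ := c.deg hn hz hb hne.symm
  have hII : I * I = z := by rw [hId, ← map_mul, D.x_mul_x]; rfl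
  have hc : z * b ≠ b * z := fun e => (hI z b hz hb 1 (by
    rw [pow_one, pow_two, mul_assoc, ← mul_assoc b, ← e, mul_assoc, pb.mul_self, mul_one,
      pz.mul_self])).elim hne.symm ho
  have Lz : z ∈ Lg E := pz.mem_Lg le_sup_left
  have Lb : b ∈ Lg E := pb.mem_Lg le_sup_right
  have LI : I ∈ Lg E := blk_mem_Lg le_sup_left D.hx
  have Lu : u ∈ Lg E := hu ▸ mul_mem Lb Lz
  have Lu' : u' ∈ Lg E := hu' ▸ mul_mem (mul_mem LI Lu) (inv_mem LI)
  have Ld : d ∈ Lg E := hd ▸ mul_mem (mul_mem (mul_mem Lu Lu') (inv_mem Lu)) (inv_mem Lu')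
  have hui : u⁻¹ = z * b := by rw [hu, mul_inv_rev, pz.inv, pb.inv]
  obtain ⟨τ, hτ⟩ := exists_tau h2 pz pb
  have t0 : ∀ v ∈ E, u⁻¹ v + u v = τ • v := fun v hv => by rw [hui, hu]; exact hτ v hv
  have t1 : ∀ g ∈ Lg E, ∀ v ∈ E, (g * u * g⁻¹)⁻¹ v + (g * u * g⁻¹) v = τ • v := fun g hg v hv => by
    have := congrArg g (t0 _ (Lg.apply_mem (inv_mem hg) hv))
    simpa using this
  have noE : ∀ w ∈ E, (z w = w ∨ z w = -w) → (b w = w ∨ b w = -w) → w = 0 := by
    rintro w hw (h1 | h1) (h3 | h3)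
    · exact hE w hw (pz.perp_sup h2 pb h1 h3)
    · by_contra h0; exact ho ((c.orth_of_vec hn hb hz h0 h3 h1).symm h2 pb pz)
    · by_contra h0; exact ho (c.orth_of_vec hn hz hb h0 h1 h3)
    · exact (Submodule.eq_bot_iff _).1 hE0 w ⟨h1, h3⟩
  have cu : ∀ v, d (u v) = u (d v) := fun v => congrArg (· v) c1.eq
  have cui : ∀ v, d (u⁻¹ v) = u⁻¹ (d v) := fun v => congrArg (· v) c1.inv_right.eq
  have cz : ∀ v, d (z v) = z (d v) := fun v => congrArg (· v) c3.eq
  have s1 : ∀ v ∈ E, u (v - d (d v)) = τ • (d v - d (d v)) := fun v hv => by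
    have e := congrArg d (t1 u' Lu' v hv)
    rw [show u' * u * u'⁻¹ = d⁻¹ * u by rw [hd]; group, mul_inv_rev, inv_inv, map_add, map_smul,
      LinearEquiv.mul_apply, cui, ← LinearEquiv.mul_apply d (d⁻¹ * u), mul_inv_cancel_left] at e
    have e' := t0 _ (Lg.apply_mem Ld (Lg.apply_mem Ld hv))
    rw [map_sub]
    linear_combination (norm := module) e - e'
  have s2 : ∀ v ∈ E, u⁻¹ (v - d (d v)) = τ • (d v - d (d v)) := fun v hv => by
    have e := congrArg z (s1 _ (Lg.apply_mem Lz hv))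
    rw [cz, cz, ← map_sub, ← map_sub, map_smul, pz.sq, hu, LinearEquiv.mul_apply, pz.sq] at e
    rw [hui]; exact e
  have hinj : ∀ w, w + d w = 0 → w = 0 := fun w hw => by
    have e : ∀ k : ℕ, (d ^ k) w = (-1 : F) ^ k • w := fun k => by
      induction k with
      | zero => simp
      | succ k ih =>
        rw [pow_succ', LinearEquiv.mul_apply, ih, map_smul, eq_neg_of_add_eq_zero_right hw, pow_succ]
        module
    have := e r
    rw [hdr, hr.neg_one_pow, neg_one_smul] at this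
    exact eq_zero_of_eq_neg h2 this
  have s3 : ∀ v ∈ E, (z v = v ∨ z v = -v) → d v = v := fun v hv hzv => by
    set w := v - d v with hw
    have hwE : w ∈ E := sub_mem hv (Lg.apply_mem Ld hv)
    have e1 : u w = u⁻¹ w := sub_eq_zero.1 (hinj _ (by
      have f1 := s1 v hv
      have f2 := s2 v hv
      simp only [hw, map_sub, cu, cui] at f1 f2 ⊢
      linear_combination (norm := module) f1 - f2))
    have e2 : ∀ k : ℕ, (u ^ (2 * k + 1)) w = u w := fun k => by
      induction k with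
      | zero => simp
      | succ k ih =>
        rw [show 2 * (k + 1) + 1 = 2 * k + 1 + 1 + 1 from rfl, pow_succ, pow_succ,
          LinearEquiv.mul_apply, LinearEquiv.mul_apply, e1, ← LinearEquiv.mul_apply u u⁻¹,
          mul_inv_cancel]
        exact ih.trans e1
    obtain ⟨k, rfl⟩ := hr
    have e3 : b (z w) = ε • w := by rw [← hur w hwE, e2, hu]; rfl
    have e4 : z w = w ∨ z w = -w := hzv.imp (fun h => by rw [hw, map_sub, ← cz, h])
      fun h => by rw [hw, map_sub, ← cz, h, map_neg]; abel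
    refine (sub_eq_zero.1 (noE w hwE e4 ?_)).symm
    rcases e4 with e4 | e4 <;> rcases hε with rfl | rfl <;> rw [e4] at e3 <;>
      simp only [map_neg, one_smul, neg_smul, neg_inj, neg_eq_iff_eq_neg] at e3 <;> simp [e3]
  have hd1 : d = 1 := Lg.eq_one hE Ld fun v hv => smul_right_injective _ h2 (by
    have f1 := s3 _ (add_mem hv (Lg.apply_mem Lz hv)) (Or.inl (pz.add_fix v))
    have f2 := s3 _ (sub_mem hv (Lg.apply_mem Lz hv)) (Or.inr (pz.sub_mem v))
    rw [map_add] at f1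
    rw [map_sub] at f2
    change (2 : F) • d v = (2 : F) • v
    linear_combination (norm := module) f1 + f2)
  have huu : u * u' = u' * u := by
    rw [hd1, eq_comm, mul_inv_eq_one, mul_inv_eq_iff_eq_mul] at hd; exact hd
  have hIz : I * z * I⁻¹ = z := by rw [← hII]; group
  set b' := I * b * I⁻¹ with hb'd
  have hb' : Pl H b' := hb.conj (c.blk_mem i D.x_mem)
  have pb' := hb'.PI h2 c.le
  have hub : u' = b' * z := by
    rw [hu', hu, hb'd]; nth_rw 2 [← hIz]; group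
  have hbb : b ≠ b' := fun e => hc (by
    rw [hb'd, eq_mul_inv_iff_mul_eq] at e
    rw [← hII, mul_assoc, ← e, ← mul_assoc, ← e, mul_assoc])
  have hE' := (c.deg hn hb hb' hbb).1
  have hEE : Ng b ⊔ Ng b' = E := Submodule.eq_of_le_of_finrank_eq (sup_le le_sup_right (by
    rw [hb'd, Ng_conj]
    rintro _ ⟨v, hv, rfl⟩
    exact Lg.apply_mem LI (Submodule.mem_sup_right hv)))
    (by rw [pb.finrank_sup pb' hE', pz.finrank_sup pb hE0])
  have inj : ∀ w ∈ E, b' w = b w → w = 0 := fun w hw e => by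
    have e1 : w - b w = 0 := (Submodule.eq_bot_iff _).1 hE' _ ⟨pb.sub_mem w, e ▸ pb'.sub_mem w⟩
    have e2 := (sub_eq_zero.1 e1).symm
    exact hE w hw fun y hy => pb.perp_sup h2 pb' e2 (e.trans e2) y (hEE.ge hy)
  have h1 : u * u' = 1 := Lg.eq_one hE (mul_mem Lu Lu') fun v hv => by
    have hy : u' v - u⁻¹ v ∈ E := sub_mem (Lg.apply_mem Lu' hv) (Lg.apply_mem (inv_mem Lu) hv)
    have e := inj _ (Lg.apply_mem Lz hy) (by
      rw [← LinearEquiv.mul_apply, ← LinearEquiv.mul_apply, ← hub, ← hu]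
      have f1 := congrArg u' (t0 v hv)
      have f2 := congrArg u' (t1 I LI v hv)
      have f3 : u (u' v) = u' (u v) := congrArg (· v) huu
      rw [← hu', map_add, ← LinearEquiv.mul_apply u' u'⁻¹, mul_inv_cancel] at f2
      rw [map_add] at f1
      rw [map_sub, map_sub, ← LinearEquiv.mul_apply u u⁻¹, mul_inv_cancel, f3]
      linear_combination (norm := module) f2 - f1)
    rw [LinearEquiv.map_eq_zero_iff, sub_eq_zero] at e
    rw [LinearEquiv.mul_apply, e, ← LinearEquiv.mul_apply, mul_inv_cancel]; rfl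
  have h3 : I * u * I⁻¹ = u⁻¹ := hu' ▸ (inv_eq_of_mul_eq_one_right h1).symm
  have h4 : z * u * z⁻¹ = u := by
    calc z * u * z⁻¹ = I * (I * u * I⁻¹) * I⁻¹ := by rw [← hII]; group
      _ = (I * u * I⁻¹)⁻¹ := by rw [h3]; nth_rw 2 [← h3]; group
      _ = u := by rw [h3, inv_inv]
  exact hc (by rw [← hu, ← h4, hu]; group)

end CfsgLib.SpPr
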